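import Cfsg.Agent.H440.Bs.Rec_m3
import Cfsg.Agent.H150.Fpf
import Mathlib
import Cfsg.Agent.H212.BR.Gen_m3
import Cfsg.Agent.LieClassical.OrthTrans
import Cfsg.Agent.LieClassical.OrthFinite
import Cfsg.Agent.H200.LinFixE_m3
import Cfsg.Agent.H262.Rx.Name
import Cfsg.Agent.S0249
import Cfsg.Agent.S0270
import Cfsg.Agent.S0283
import Cfsg.Agent.S0295
import Cfsg.Agent.S0296
import Cfsg.Agent.S0297
import Cfsg.Agent.H365.Zsig
import Cfsg.Agent.Prune
set_option linter.all false

section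
prune_inst 0x7ffca9fcaba811dfff7f7e75a690cdfc38801fffa6dff943bfe0298f2b9f230009c5638509f000fc0e22401410a87803f97eceffe06bd87ffffd1ff41ffbee4fe5f6b108519488340f380ff603f0678e7f3fffffffffffffffffffffffffff8effbfffffffff

-- part: H50/RG/Stat3
section
prune_inst 0x346011412ec000080018a502d2201c77fa000402004b84008d6709040c812e62a983ae60b730051d5ab28cc5403d0048121000200010000020000400411901a090c25206b36ca10c66009f800100000000000000000000000000000000030000000000000
set_option linter.all false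
open scoped Cfsg.Agent.FastGrp

-- part: H50/RG/Stat
section
/-!
# S5714, layer L: counting frames (first part of `L01`)

* `Fr TS X` : the injective linear maps `X → V` with range in `TS`;
* `card_fib` : for a frame `φ` and `m ∈ GL(X)` there are `|G| / |Fr|` elements `y ∈ G` with `y φ = φ m`;
* `sum_card` : `∑_{y ∈ G} #{φ | y φ = φ m, m ∈ S} = |G| |S|`.
-/

set_option autoImplicit false
set_option linter.unusedSectionVars false

namespace Cfsg.Agent.H50.RG

open Module Cfsg.Agent.H847.Bs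

section

variable {F V : Type*} [Field F] [AddCommGroup V] [Module F V]

/-- frames: injective linear maps with range in `TS` -/
@[ext] structure Fr (TS : Submodule F V → Prop) (X : Type*) [AddCommGroup X] [Module F X] where
  /-- the map -/
  map : X →ₗ[F] V
  inj : Function.Injective map
  ts : TS (LinearMap.range map)

variable {G : Subgroup (V ≃ₗ[F] V)} {TS : Submodule F V → Prop} {k₀ : ℕ}
variable {X : Type*} [AddCommGroup X] [Module F X] [FiniteDimensional F X]

theorem fr_trans (h : FT G TS k₀) (hX : finrank F X ≤ k₀) (φ φ' : Fr TS X) :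
    ∃ g ∈ G, ∀ x, (g : V ≃ₗ[F] V) (φ.map x) = φ'.map x := by
  let b := finBasis F X
  have hr : ∀ ψ : Fr TS X, Submodule.span F (Set.range fun i => ψ.map (b i)) = LinearMap.range ψ.map := by
    intro ψ
    have : (Set.range fun i => ψ.map (b i)) = ψ.map '' Set.range b := by
      ext x
      simp only [_root_.Set.mem_range, _root_.Set.mem_image, _root_.exists_exists_eq_and]
    rw [this, Submodule.span_image, b.span_eq, Submodule.map_top]
  obtain ⟨g, hg, hh⟩ := h _ hX (fun i => φ.map (b i)) (fun i => φ'.map (b i))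
    (b.linearIndependent.map' _ (LinearMap.ker_eq_bot.2 φ.inj))
    (b.linearIndependent.map' _ (LinearMap.ker_eq_bot.2 φ'.inj))
    (by rw [hr]; exact φ.ts) (by rw [hr]; exact φ'.ts)
  have h1 : ((g : V ≃ₗ[F] V) : V →ₗ[F] V) ∘ₗ φ.map = φ'.map := b.ext fun i => hh i
  exact ⟨g, hg, fun x => LinearMap.congr_fun h1 x⟩

/-- composition with an automorphism of `X` -/
def Fr.comp (φ : Fr TS X) (m : X ≃ₗ[F] X) : Fr TS X :=
  ⟨φ.map ∘ₗ (m : X →ₗ[F] X), φ.inj.comp m.injective, by
    rw [LinearMap.range_comp, LinearEquiv.range, Submodule.map_top]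
    exact φ.ts⟩

@[simp] theorem Fr.comp_apply (φ : Fr TS X) (m : X ≃ₗ[F] X) (x : X) : (φ.comp m).map x = φ.map (m x) := rfl

/-- composition with an element of `G` -/
def Fr.smul (hT : ∀ g ∈ G, ∀ A, TS A → TS (A.map (g : V →ₗ[F] V))) (y : G) (φ : Fr TS X) : Fr TS X :=
  ⟨((y : V ≃ₗ[F] V) : V →ₗ[F] V) ∘ₗ φ.map, (y : V ≃ₗ[F] V).injective.comp φ.inj, by
    rw [LinearMap.range_comp]
    exact hT _ y.2 _ φ.ts⟩

@[simp] theorem Fr.smul_apply (hT : ∀ g ∈ G, ∀ A, TS A → TS (A.map (g : V →ₗ[F] V))) (y : G) (φ : Fr TS X)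
    (x : X) : (Fr.smul hT y φ).map x = (y : V ≃ₗ[F] V) (φ.map x) := rfl

theorem Fr.ext' {φ ψ : Fr TS X} (h : ∀ x, φ.map x = ψ.map x) : φ = ψ := Fr.ext (LinearMap.ext h)

theorem Fr.congr' {φ ψ : Fr TS X} (h : φ = ψ) (x : X) : φ.map x = ψ.map x := by rw [h]

/-- all fibres equal -/
theorem card_eq_of_fib {A B : Type*} [Finite A] [Finite B] (f : A → B) (c : ℕ)
    (h : ∀ b, Nat.card {a // f a = b} = c) : Nat.card A = Nat.card B * c := by
  have := Fintype.ofFinite B
  rw [Nat.card_congr (Equiv.sigmaFiberEquiv f).symm, Nat.card_sigma, Finset.sum_congr rfl fun b _ => h b,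
    Finset.sum_const, Finset.card_univ, smul_eq_mul, Nat.card_eq_fintype_card]

instance [Finite V] [Finite X] : Finite (Fr TS X) :=
  Finite.of_injective (fun φ : Fr TS X => (φ.map : X → V)) fun _ _ h => Fr.ext (DFunLike.coe_injective h)

instance finite_equiv [Finite X] : Finite (X ≃ₗ[F] X) :=
  Finite.of_injective (fun φ : X ≃ₗ[F] X => (φ : X → X)) DFunLike.coe_injective

theorem card_fib [Finite V] [Finite X] (h : FT G TS k₀) (hX : finrank F X ≤ k₀)
    (hT : ∀ g ∈ G, ∀ A, TS A → TS (A.map (g : V →ₗ[F] V))) (φ φ' : Fr TS X) :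
    Nat.card (Fr TS X) * Nat.card {y : G // Fr.smul hT y φ = φ'} = Nat.card G := by
  refine (card_eq_of_fib (fun y : G => Fr.smul hT y φ) _ fun φ'' => ?_).symm
  obtain ⟨g, hg, hgg⟩ := fr_trans h hX φ'' φ'
  refine Nat.card_congr
    { toFun := fun y => ⟨⟨g, hg⟩ * y.1, ?_⟩
      invFun := fun y => ⟨⟨g, hg⟩⁻¹ * y.1, ?_⟩
      left_inv := fun y => by simp only [_root_.inv_mul_cancel_left, _root_.Subtype.coe_eta]
      right_inv := fun y => by simp only [_root_.mul_inv_cancel_left, _root_.Subtype.coe_eta] }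
  · refine Fr.ext' fun x => ?_
    have h1 := Fr.congr' y.2 x
    rw [Fr.smul_apply] at h1
    rw [Fr.smul_apply, ← hgg, ← h1]
    rfl
  · refine Fr.ext' fun x => ?_
    have h1 := Fr.congr' y.2 x
    rw [Fr.smul_apply, ← hgg] at h1
    rw [Fr.smul_apply]
    show (g⁻¹ : V ≃ₗ[F] V) ((y.1 : V ≃ₗ[F] V) (φ.map x)) = _
    rw [h1]
    exact g.symm_apply_apply _

/-- `y φ = φ m` for some `m ∈ S` -/
def Ad (y : V ≃ₗ[F] V) (S : Set (X ≃ₗ[F] X)) (φ : X →ₗ[F] V) : Prop :=
  ∃ m ∈ S, ∀ x, y (φ x) = φ (m x)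

/-- the main counting lemma -/
theorem sum_card [Finite V] [Finite X] (h : FT G TS k₀) (hX : finrank F X ≤ k₀)
    (hT : ∀ g ∈ G, ∀ A, TS A → TS (A.map (g : V →ₗ[F] V))) (hne : Nonempty (Fr TS X)) (S : Set (X ≃ₗ[F] X)) :
    Nat.card (Σ y : G, {φ : Fr TS X // Ad (y : V ≃ₗ[F] V) S φ.map}) = Nat.card G * Nat.card S := by
  classical
  have e1 : Nat.card (Σ y : G, {φ : Fr TS X // Ad (y : V ≃ₗ[F] V) S φ.map}) =
      Nat.card (Σ p : Fr TS X × S, {y : G // Fr.smul hT y p.1 = p.1.comp p.2}) := by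
    refine Nat.card_congr
      { toFun := fun a => ⟨(a.2.1, ⟨a.2.2.choose, a.2.2.choose_spec.1⟩), a.1, ?_⟩
        invFun := fun b => ⟨b.2.1, b.1.1, b.1.2.1, b.1.2.2, fun x => ?_⟩
        left_inv := fun a => rfl
        right_inv := ?_ }
    · exact Fr.ext' fun x => a.2.2.choose_spec.2 x
    · exact Fr.congr' b.2.2 x
    · rintro ⟨⟨φ, m⟩, y, hy⟩
      have hA : Ad (y : V ≃ₗ[F] V) S φ.map := ⟨m.1, m.2, fun x => Fr.congr' hy x⟩
      have key : (⟨hA.choose, hA.choose_spec.1⟩ : S) = m := by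
        apply Subtype.ext
        ext x
        apply φ.inj
        show φ.map (hA.choose x) = φ.map (m.1 x)
        rw [← hA.choose_spec.2 x]
        exact Fr.congr' hy x
      have key' : ∀ (m' : S) (hm' : m' = m) (h' : Fr.smul hT y φ = φ.comp m'),
          (⟨(φ, m'), y, h'⟩ : Σ p : Fr TS X × S, {y : G // Fr.smul hT y p.1 = p.1.comp p.2}) = ⟨(φ, m), y, hy⟩ := by
        rintro m' rfl h'
        rfl
      exact key' _ key _
  have e2 : Nat.card (Fr TS X) * Nat.card (Σ p : Fr TS X × S, {y : G // Fr.smul hT y p.1 = p.1.comp p.2}) =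
      Nat.card (Fr TS X) * (Nat.card G * Nat.card S) := by
    have := Fintype.ofFinite (Fr TS X)
    have := Fintype.ofFinite S
    rw [Nat.card_sigma, Finset.mul_sum, Finset.sum_congr rfl fun p _ => card_fib h hX hT p.1 (p.1.comp p.2),
      Finset.sum_const, Finset.card_univ, Fintype.card_prod, smul_eq_mul, ← Nat.card_eq_fintype_card,
      ← Nat.card_eq_fintype_card]
    ring
  rw [e1]
  exact Nat.eq_of_mul_eq_mul_left (Nat.card_pos) e2

end

end Cfsg.Agent.H50.RG
end

-- part: H50/RG/Stat2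
section
/-!
# S5714, layer L: counting frames and subspaces (second part of `L01`)

* `AA TS y S` : the subspaces spanned by the frames `φ` with `y φ = φ m`, `m ∈ S`; `card_AA`;
* `cross` : pairs of subspaces; `tri`, `BP`, `card_BP` : flags.
-/

set_option autoImplicit false
set_option linter.unusedSectionVars false

namespace Cfsg.Agent.H50.RG

open Module Cfsg.Agent.H847.Bs

section

variable {F V : Type*} [Field F] [AddCommGroup V] [Module F V]
variable {G : Subgroup (V ≃ₗ[F] V)} {TS : Submodule F V → Prop} {k₀ : ℕ}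
variable {X : Type*} [AddCommGroup X] [Module F X] [FiniteDimensional F X]
variable {X' : Type*} [AddCommGroup X'] [Module F X'] [FiniteDimensional F X']

/-- the subspaces spanned by the frames `φ` with `y φ = φ m`, `m ∈ S` -/
def AA (TS : Submodule F V → Prop) (y : V ≃ₗ[F] V) (S : Set (X ≃ₗ[F] X)) : Set (Submodule F V) :=
  {A | TS A ∧ ∃ φ : X →ₗ[F] V, Function.Injective φ ∧ LinearMap.range φ = A ∧ Ad y S φ}

/-- closed under conjugation -/
def Cj (S : Set (X ≃ₗ[F] X)) : Prop := ∀ m ∈ S, ∀ t : X ≃ₗ[F] X, t⁻¹ * m * t ∈ S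

theorem Ad.comp {y : V ≃ₗ[F] V} {S : Set (X ≃ₗ[F] X)} {φ : X →ₗ[F] V} (h : Ad y S φ)
    {t : X ≃ₗ[F] X} (hS : ∀ m ∈ S, t⁻¹ * m * t ∈ S) : Ad y S (φ ∘ₗ (t : X →ₗ[F] X)) := by
  obtain ⟨m, hm, h⟩ := h
  refine ⟨t⁻¹ * m * t, hS m hm, fun x => ?_⟩
  show y (φ (t x)) = φ (t (t⁻¹ (m (t x))))
  rw [h]
  congr 1
  exact (t.apply_symm_apply _).symm

/-- two frames with the same range -/
theorem exists_comp {φ φ' : X →ₗ[F] V} (h : Function.Injective φ) (h' : Function.Injective φ')
    (e : LinearMap.range φ = LinearMap.range φ') : ∃ t : X ≃ₗ[F] X, φ' = φ ∘ₗ (t : X →ₗ[F] X) := by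
  refine ⟨(LinearEquiv.ofInjective φ' h').trans ((LinearEquiv.ofEq _ _ e.symm).trans
    (LinearEquiv.ofInjective φ h).symm), ?_⟩
  ext x
  have h1 : (LinearEquiv.ofInjective φ h) ((LinearEquiv.ofInjective φ h).symm
      ((LinearEquiv.ofEq _ _ e.symm) ((LinearEquiv.ofInjective φ' h') x))) =
      (LinearEquiv.ofEq _ _ e.symm) ((LinearEquiv.ofInjective φ' h') x) := LinearEquiv.apply_symm_apply _ _
  have h2 := congrArg Subtype.val h1
  exact h2.symm

theorem card_AA [Finite V] [Finite X] {S : Set (X ≃ₗ[F] X)} (hS : Cj S) (y : V ≃ₗ[F] V) :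
    Nat.card {φ : Fr TS X // Ad y S φ.map} = Nat.card (AA TS y S) * Nat.card (X ≃ₗ[F] X) := by
  refine card_eq_of_fib (fun φ : {φ : Fr TS X // Ad y S φ.map} =>
    (⟨LinearMap.range φ.1.map, φ.1.ts, φ.1.map, φ.1.inj, rfl, φ.2⟩ : AA TS y S)) _ fun A => ?_
  obtain ⟨A, hA, φ₀, hinj, rfl, hAd⟩ := A
  refine (Nat.card_eq_of_bijective (fun t : X ≃ₗ[F] X => (⟨⟨Fr.comp ⟨φ₀, hinj, hA⟩ t,
    hAd.comp fun m hm => hS m hm t⟩, ?_⟩ : {a : {φ : Fr TS X // Ad y S φ.map} //
      (⟨LinearMap.range a.1.map, a.1.ts, a.1.map, a.1.inj, rfl, a.2⟩ : AA TS y S) =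
        ⟨LinearMap.range φ₀, hA, φ₀, hinj, rfl, hAd⟩})) ⟨?_, ?_⟩).symm
  · apply Subtype.ext
    show LinearMap.range (φ₀ ∘ₗ (t : X →ₗ[F] X)) = _
    rw [LinearMap.range_comp, LinearEquiv.range, Submodule.map_top]
  · intro t t' h
    have h1 := congrArg (fun a => a.1.1.map) h
    ext x
    exact hinj (LinearMap.congr_fun h1 x)
  · rintro ⟨⟨ψ, hψ⟩, h⟩
    have h1 := congrArg Subtype.val h
    obtain ⟨t, ht⟩ := exists_comp hinj ψ.inj h1.symm
    refine ⟨t, ?_⟩
    apply Subtype.ext
    apply Subtype.ext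
    exact Fr.ext ht.symm

instance finite_AA [Finite V] (y : V ≃ₗ[F] V) (S : Set (X ≃ₗ[F] X)) : Finite (AA TS y S) := by
  have : Finite (Submodule F V) := Finite.of_injective (fun A : Submodule F V => (A : Set V)) SetLike.coe_injective
  infer_instance

/-- the number of subspaces on average -/
theorem sum_AA [Finite V] [Finite X] (h : FT G TS k₀) (hX : finrank F X ≤ k₀)
    (hT : ∀ g ∈ G, ∀ A, TS A → TS (A.map (g : V →ₗ[F] V))) (hne : Nonempty (Fr TS X)) {S : Set (X ≃ₗ[F] X)}
    (hS : Cj S) [Fintype G] :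
    (∑ y : G, Nat.card (AA TS (y : V ≃ₗ[F] V) S)) * Nat.card (X ≃ₗ[F] X) = Nat.card G * Nat.card S := by
  rw [← sum_card h hX hT hne S, Nat.card_sigma, Finset.sum_mul]
  exact Finset.sum_congr rfl fun y _ => (card_AA hS _).symm

/-- pairs of subspaces on average -/
theorem cross [Finite V] [Finite X] [Finite X'] (h : FT G TS k₀) (hX : finrank F X + finrank F X' ≤ k₀)
    (hT : ∀ g ∈ G, ∀ A, TS A → TS (A.map (g : V →ₗ[F] V))) (hne : Nonempty (Fr TS (X × X')))
    {S : Set (X ≃ₗ[F] X)} (hS : Cj S) {S' : Set (X' ≃ₗ[F] X')} (hS' : Cj S')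
    (hd : ∀ y ∈ G, ∀ A ∈ AA TS y S, ∀ A' ∈ AA TS y S', Disjoint A A' ∧ TS (A ⊔ A')) [Fintype G] :
    (∑ y : G, Nat.card (AA TS (y : V ≃ₗ[F] V) S) * Nat.card (AA TS (y : V ≃ₗ[F] V) S')) *
      (Nat.card (X ≃ₗ[F] X) * Nat.card (X' ≃ₗ[F] X')) ≤ Nat.card G * (Nat.card S * Nat.card S') := by
  classical
  set SS : Set ((X × X') ≃ₗ[F] (X × X')) := Set.range fun p : S × S' => p.1.1.prodCongr p.2.1 with hSS
  have h1 : Nat.card SS ≤ Nat.card S * Nat.card S' := by
    rw [← Nat.card_prod]
    exact Finite.card_range_le _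
  have h2 := sum_card h (by rw [Module.finrank_prod]; exact hX) hT hne SS
  refine le_trans ?_ (Nat.mul_le_mul_left _ h1)
  rw [← h2, Nat.card_sigma, Finset.sum_mul]
  refine Finset.sum_le_sum fun y _ => ?_
  have h3 : Nat.card (AA TS (y : V ≃ₗ[F] V) S) * Nat.card (AA TS (y : V ≃ₗ[F] V) S') *
      (Nat.card (X ≃ₗ[F] X) * Nat.card (X' ≃ₗ[F] X')) = Nat.card ({φ : Fr TS X // Ad (y : V ≃ₗ[F] V) S φ.map} ×
        {φ : Fr TS X' // Ad (y : V ≃ₗ[F] V) S' φ.map}) := by
    rw [Nat.card_prod, card_AA hS, card_AA hS']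
    ring
  rw [h3]
  refine Nat.card_le_card_of_injective (fun p => ⟨⟨p.1.1.map.coprod p.2.1.map, ?_, ?_⟩, ?_⟩) ?_
  · have hdis := (hd y y.2 _ ⟨p.1.1.ts, p.1.1.map, p.1.1.inj, rfl, p.1.2⟩ _
      ⟨p.2.1.ts, p.2.1.map, p.2.1.inj, rfl, p.2.2⟩).1
    rw [← LinearMap.ker_eq_bot, LinearMap.ker_coprod_of_disjoint_range _ _ hdis, LinearMap.ker_eq_bot.2 p.1.1.inj,
      LinearMap.ker_eq_bot.2 p.2.1.inj, Submodule.prod_bot]
  · rw [LinearMap.range_coprod]
    exact (hd y y.2 _ ⟨p.1.1.ts, p.1.1.map, p.1.1.inj, rfl, p.1.2⟩ _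
      ⟨p.2.1.ts, p.2.1.map, p.2.1.inj, rfl, p.2.2⟩).2
  · obtain ⟨m, hm, h4⟩ := p.1.2
    obtain ⟨m', hm', h5⟩ := p.2.2
    refine ⟨m.prodCongr m', ⟨(⟨m, hm⟩, ⟨m', hm'⟩), rfl⟩, fun x => ?_⟩
    rw [LinearMap.coprod_apply, map_add, h4, h5]
    rfl
  · rintro ⟨⟨φ, hφ⟩, ⟨φ', hφ'⟩⟩ ⟨⟨ψ, hψ⟩, ⟨ψ', hψ'⟩⟩ h4
    have h5 : φ.map.coprod φ'.map = ψ.map.coprod ψ'.map := congrArg (fun a => a.1.map) h4
    have h6 : φ = ψ := Fr.ext' fun x => by
      have := LinearMap.congr_fun h5 (x, 0)
      simpa using this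
    have h7 : φ' = ψ' := Fr.ext' fun x => by
      have := LinearMap.congr_fun h5 (0, x)
      simpa only [_root_.LinearMap.coprod_apply, _root_.map_zero, _root_.zero_add] using this
    subst h6 h7
    rfl

/-! ### flags -/

/-- block triangular automorphisms -/
def tri (a : X ≃ₗ[F] X) (c : X' →ₗ[F] X) (b : X' ≃ₗ[F] X') : (X × X') ≃ₗ[F] (X × X') where
  toFun p := (a p.1 + c p.2, b p.2)
  invFun p := (a.symm (p.1 - c (b.symm p.2)), b.symm p.2)
  map_add' p p' := by
    ext
    · simp only [Prod.fst_add, Prod.snd_add, map_add]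
      abel
    · simp
  map_smul' k p := by
    ext
    · simp
    · simp only [_root_.Prod.smul_snd, _root_.map_smul, _root_.RingHom.id_apply, _root_.Prod.smul_mk, _root_.smul_add]
  left_inv p := by
    ext
    · simp
    · simp
  right_inv p := by
    ext
    · simp only [_root_.map_sub, _root_.LinearEquiv.apply_symm_apply, _root_.sub_add_cancel]
    · simp

@[simp] theorem tri_apply (a : X ≃ₗ[F] X) (c : X' →ₗ[F] X) (b : X' ≃ₗ[F] X') (p : X × X') :
    tri a c b p = (a p.1 + c p.2, b p.2) := rfl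

theorem tri_mul (a a' : X ≃ₗ[F] X) (c c' : X' →ₗ[F] X) (b b' : X' ≃ₗ[F] X') :
    tri a c b * tri a' c' b' = tri (a * a') ((a : X →ₗ[F] X) ∘ₗ c' + c ∘ₗ (b' : X' →ₗ[F] X')) (b * b') := by
  ext p
  · show a (a' p.1 + c' p.2) + c (b' p.2) = a (a' p.1) + (a (c' p.2) + c (b' p.2))
    rw [map_add, add_assoc]
  · rfl

theorem tri_inv (a : X ≃ₗ[F] X) (c : X' →ₗ[F] X) (b : X' ≃ₗ[F] X') :
    (tri a c b)⁻¹ = tri a⁻¹ (-(((a⁻¹ : X ≃ₗ[F] X) : X →ₗ[F] X) ∘ₗ c ∘ₗ ((b⁻¹ : X' ≃ₗ[F] X') : X' →ₗ[F] X'))) b⁻¹ := by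
  rw [inv_eq_iff_mul_eq_one, tri_mul]
  ext p
  · show a (a⁻¹ p.1) + (a (-(a⁻¹ (c (b⁻¹ p.2)))) + c (b⁻¹ p.2)) = p.1
    have h1 : a (a⁻¹ (c (b⁻¹ p.2))) = c (b⁻¹ p.2) := a.apply_symm_apply _
    have h2 : a (a⁻¹ p.1) = p.1 := a.apply_symm_apply _
    rw [map_neg, h1, h2]
    simp
  · show b (b⁻¹ p.2) = p.2
    exact b.apply_symm_apply _

/-- block triangular automorphisms with given diagonal blocks -/
def TT (S : Set (X ≃ₗ[F] X)) (S' : Set (X' ≃ₗ[F] X')) : Set ((X × X') ≃ₗ[F] (X × X')) :=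
  {t | ∃ a ∈ S, ∃ c, ∃ b ∈ S', t = tri a c b}

theorem tri_conj {S : Set (X ≃ₗ[F] X)} (hS : Cj S) {S' : Set (X' ≃ₗ[F] X')} (hS' : Cj S') (a : X ≃ₗ[F] X)
    (c : X' →ₗ[F] X) (b : X' ≃ₗ[F] X') {m : (X × X') ≃ₗ[F] (X × X')} (hm : m ∈ TT S S') :
    (tri a c b)⁻¹ * m * tri a c b ∈ TT S S' := by
  obtain ⟨a', ha', c', b', hb', rfl⟩ := hm
  rw [tri_inv, tri_mul, tri_mul]
  exact ⟨_, hS _ ha' a, _, _, hS' _ hb' b, rfl⟩

theorem card_TT_le [Finite X] [Finite X'] (S : Set (X ≃ₗ[F] X)) (S' : Set (X' ≃ₗ[F] X')) :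
    Nat.card (TT S S') ≤ Nat.card S * Nat.card (X' →ₗ[F] X) * Nat.card S' := by
  have : Finite (X' →ₗ[F] X) := Finite.of_injective (fun φ : X' →ₗ[F] X => (φ : X' → X)) DFunLike.coe_injective
  rw [← Nat.card_prod, ← Nat.card_prod]
  refine Nat.card_le_card_of_surjective (fun p : (S × (X' →ₗ[F] X)) × S' =>
    (⟨tri p.1.1.1 p.1.2 p.2.1, p.1.1.1, p.1.1.2, p.1.2, p.2.1, p.2.2, rfl⟩ : TT S S')) ?_
  rintro ⟨t, a, ha, c, b, hb, rfl⟩
  exact ⟨((⟨a, ha⟩, c), ⟨b, hb⟩), rfl⟩

/-- flags `A < B` with `y` acting on `A` as an element of `S`, on `B / A` as an element of `S'` -/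
def BP (TS : Submodule F V → Prop) (y : V ≃ₗ[F] V) (S : Set (X ≃ₗ[F] X)) (S' : Set (X' ≃ₗ[F] X')) :
    Set (Submodule F V × Submodule F V) :=
  {p | TS p.2 ∧ ∃ Φ : (X × X') →ₗ[F] V, Function.Injective Φ ∧ LinearMap.range Φ = p.2 ∧
    LinearMap.range (Φ ∘ₗ LinearMap.inl F X X') = p.1 ∧ Ad y (TT S S') Φ}

theorem card_BP_le [Finite V] [Finite X] [Finite X'] {S : Set (X ≃ₗ[F] X)} (hS : Cj S) {S' : Set (X' ≃ₗ[F] X')}
    (hS' : Cj S') (y : V ≃ₗ[F] V) :
    Nat.card (BP TS y S S') * (Nat.card (X ≃ₗ[F] X) * Nat.card (X' →ₗ[F] X) * Nat.card (X' ≃ₗ[F] X')) ≤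
      Nat.card {Φ : Fr TS (X × X') // Ad y (TT S S') Φ.map} := by
  have : Finite (X' →ₗ[F] X) := Finite.of_injective (fun φ : X' →ₗ[F] X => (φ : X' → X)) DFunLike.coe_injective
  rw [← Nat.card_prod, ← Nat.card_prod, ← Nat.card_prod]
  refine Nat.card_le_card_of_injective (fun q : BP TS y S S' × (((X ≃ₗ[F] X) × (X' →ₗ[F] X)) × (X' ≃ₗ[F] X')) =>
    (⟨Fr.comp ⟨q.1.2.2.choose, q.1.2.2.choose_spec.1, by
      rw [q.1.2.2.choose_spec.2.1]
      exact q.1.2.1⟩ (tri q.2.1.1 q.2.1.2 q.2.2),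
        q.1.2.2.choose_spec.2.2.2.comp fun m hm => tri_conj hS hS' _ _ _ hm⟩ :
      {Φ : Fr TS (X × X') // Ad y (TT S S') Φ.map})) ?_
  rintro ⟨⟨⟨A, B⟩, hp⟩, ⟨⟨a, c⟩, b⟩⟩ ⟨⟨⟨A', B'⟩, hp'⟩, ⟨⟨a', c'⟩, b'⟩⟩ h
  have h1 : hp.2.choose ∘ₗ ((tri a c b : (X × X') ≃ₗ[F] (X × X')) : (X × X') →ₗ[F] (X × X')) =
      hp'.2.choose ∘ₗ ((tri a' c' b' : (X × X') ≃ₗ[F] (X × X')) : (X × X') →ₗ[F] (X × X')) :=
    congrArg (fun q : {Φ : Fr TS (X × X') // Ad y (TT S S') Φ.map} => q.1.map) h
  have hinl : ∀ (Φ : (X × X') →ₗ[F] V) (a : X ≃ₗ[F] X) (c : X' →ₗ[F] X) (b : X' ≃ₗ[F] X'),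
      LinearMap.range ((Φ ∘ₗ ((tri a c b : (X × X') ≃ₗ[F] (X × X')) : (X × X') →ₗ[F] (X × X'))) ∘ₗ
        LinearMap.inl F X X') = LinearMap.range (Φ ∘ₗ LinearMap.inl F X X') := by
    intro Φ a c b
    ext v
    constructor
    · rintro ⟨x, rfl⟩
      exact ⟨a x, by simp⟩
    · rintro ⟨x, rfl⟩
      exact ⟨a.symm x, by simp only [_root_.LinearMap.coe_comp, _root_.LinearEquiv.coe_coe, _root_.LinearMap.coe_inl, _root_.Function.comp_apply, _root_.Cfsg.Agent.H50.RG.tri_apply, _root_.LinearEquiv.apply_symm_apply, _root_.map_zero, _root_.add_zero]⟩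
  have hA : A = A' := by
    refine hp.2.choose_spec.2.2.1.symm.trans (Eq.trans ?_ hp'.2.choose_spec.2.2.1)
    have e1 := hinl hp.2.choose a c b
    have e2 := hinl hp'.2.choose a' c' b'
    rw [h1] at e1
    exact e1.symm.trans e2
  have hr : ∀ (Φ : (X × X') →ₗ[F] V) (a : X ≃ₗ[F] X) (c : X' →ₗ[F] X) (b : X' ≃ₗ[F] X'),
      LinearMap.range (Φ ∘ₗ ((tri a c b : (X × X') ≃ₗ[F] (X × X')) : (X × X') →ₗ[F] (X × X'))) =
        LinearMap.range Φ := by
    intro Φ a c b
    rw [LinearMap.range_comp, LinearEquiv.range, Submodule.map_top]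
  have hB : B = B' := by
    refine hp.2.choose_spec.2.1.symm.trans (Eq.trans ?_ hp'.2.choose_spec.2.1)
    have e1 := hr hp.2.choose a c b
    have e2 := hr hp'.2.choose a' c' b'
    rw [h1] at e1
    exact e1.symm.trans e2
  subst hA hB
  have h2 : ∀ p, tri a c b p = tri a' c' b' p := fun p => hp.2.choose_spec.1 (LinearMap.congr_fun h1 p)
  have ha : a = a' := by
    ext x
    have := congrArg Prod.fst (h2 (x, 0))
    simpa only [_root_.Cfsg.Agent.H50.RG.tri_apply, _root_.map_zero, _root_.add_zero] using this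
  have hb : b = b' := by
    ext x
    have := congrArg Prod.snd (h2 (0, x))
    simpa only [_root_.Cfsg.Agent.H50.RG.tri_apply, _root_.map_zero, _root_.zero_add] using this
  have hc : c = c' := by
    ext x
    have := congrArg Prod.fst (h2 (0, x))
    simpa using this
  subst ha hb hc
  rfl

instance finite_BP [Finite V] (y : V ≃ₗ[F] V) (S : Set (X ≃ₗ[F] X)) (S' : Set (X' ≃ₗ[F] X')) :
    Finite (BP TS y S S') := by
  have : Finite (Submodule F V) := Finite.of_injective (fun A : Submodule F V => (A : Set V)) SetLike.coe_injective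
  infer_instance

/-- flags on average -/
theorem sum_BP [Finite V] [Finite X] [Finite X'] (h : FT G TS k₀) (hX : finrank F X + finrank F X' ≤ k₀)
    (hT : ∀ g ∈ G, ∀ A, TS A → TS (A.map (g : V →ₗ[F] V))) (hne : Nonempty (Fr TS (X × X')))
    {S : Set (X ≃ₗ[F] X)} (hS : Cj S) {S' : Set (X' ≃ₗ[F] X')} (hS' : Cj S') [Fintype G] :
    (∑ y : G, Nat.card (BP TS (y : V ≃ₗ[F] V) S S')) * (Nat.card (X ≃ₗ[F] X) * Nat.card (X' ≃ₗ[F] X')) ≤
      Nat.card G * (Nat.card S * Nat.card S') := by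
  have : Finite (X' →ₗ[F] X) := Finite.of_injective (fun φ : X' →ₗ[F] X => (φ : X' → X)) DFunLike.coe_injective
  have h2 := sum_card h (by rw [Module.finrank_prod]; exact hX) hT hne (TT S S')
  have h3 : (∑ y : G, Nat.card (BP TS (y : V ≃ₗ[F] V) S S')) *
      (Nat.card (X ≃ₗ[F] X) * Nat.card (X' →ₗ[F] X) * Nat.card (X' ≃ₗ[F] X')) ≤
      Nat.card G * (Nat.card S * Nat.card (X' →ₗ[F] X) * Nat.card S') := by
    refine le_trans ?_ (Nat.mul_le_mul_left _ (card_TT_le S S'))
    rw [← h2, Nat.card_sigma, Finset.sum_mul]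
    exact Finset.sum_le_sum fun y _ => card_BP_le hS hS' _
  have h4 : 0 < Nat.card (X' →ₗ[F] X) := Nat.card_pos
  refine Nat.le_of_mul_le_mul_right ?_ h4
  calc _ = (∑ y : G, Nat.card (BP TS (y : V ≃ₗ[F] V) S S')) *
      (Nat.card (X ≃ₗ[F] X) * Nat.card (X' →ₗ[F] X) * Nat.card (X' ≃ₗ[F] X')) := by ring
    _ ≤ _ := h3
    _ = _ := by ring

end

end Cfsg.Agent.H50.RG
end

-- part: H50/RG/Stat3
section
/-!
# S5714, layer L: good subspaces and frames (third part of `L01`)

* `PP e M` : irreducible automorphisms of `F ^ e` with large primitive part; `mem_AA_iff`;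
* `II X` : irreducible automorphisms; `mem_BP` : the flags;
* `card_PP`, `card_II`, `card_GLX` : comparison with matrices.
-/

set_option autoImplicit false
set_option linter.unusedSectionVars false

namespace Cfsg.Agent.H50.RG

open Module Cfsg.Agent.H847.Bs

section

variable {F V : Type*} [Field F] [AddCommGroup V] [Module F V]
variable {X : Type*} [AddCommGroup X] [Module F X]

/-- irreducible automorphisms -/
def II (F X : Type*) [Field F] [AddCommGroup X] [Module F X] : Set (X ≃ₗ[F] X) := {m | Irr m ⊤}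

/-- irreducible automorphisms with large primitive part -/
def PP (F X : Type*) [Field F] [AddCommGroup X] [Module F X] (e M : ℕ) : Set (X ≃ₗ[F] X) :=
  {m | Irr m ⊤ ∧ ∃ k : ℕ, M ≤ k ∧ (∀ r : ℕ, r.Prime → r ∣ k → orderOf ((Nat.card F : ℕ) : ZMod r) = e) ∧ k ∣ orderOf m}

theorem irr_conj {m t : X ≃ₗ[F] X} (h : Irr m ⊤) : Irr (t⁻¹ * m * t) ⊤ := by
  refine ⟨fun v _ => trivial, h.ne_bot, fun Y _ hY => ?_⟩
  have h1 := h.min (Y.map (t : X →ₗ[F] X)) le_top (by
    rintro _ ⟨v, hv, rfl⟩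
    refine ⟨(t⁻¹ * m * t) v, hY v hv, ?_⟩
    exact t.apply_symm_apply _)
  rcases h1 with h1 | h1
  · left
    exact Submodule.map_eq_bot_iff.1 h1
  · right
    rw [eq_top_iff]
    intro x _
    have : t x ∈ Y.map (t : X →ₗ[F] X) := by rw [h1]; trivial
    obtain ⟨x', hx', e⟩ := this
    rwa [← t.injective e]

theorem cj_II : Cj (II F X) := fun _ hm _ => irr_conj hm

theorem cj_PP (e M : ℕ) : Cj (PP F X e M) := by
  rintro m ⟨hm, k, hk, hr, hd⟩ t
  refine ⟨irr_conj hm, k, hk, hr, ?_⟩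
  have : orderOf (t⁻¹ * m * t) = orderOf m := by
    have := orderOf_injective (MulAut.conj t⁻¹ : MulAut (X ≃ₗ[F] X)).toMonoidHom (MulEquiv.injective _) m
    simpa only [_root_.map_inv, _root_.MulEquiv.toMonoidHom_eq_coe, _root_.MonoidHom.coe_coe, _root_.MulAut.inv_apply, _root_.MulAut.conj_symm_apply] using this
  rw [this]
  exact hd

theorem pow_frame {y : V ≃ₗ[F] V} {φ : X →ₗ[F] V} {m : X ≃ₗ[F] X} (h : ∀ x, y (φ x) = φ (m x)) (k : ℕ) (x : X) :
    (y ^ k) (φ x) = φ ((m ^ k) x) := by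
  induction k generalizing x with
  | zero => rfl
  | succ k ih =>
    rw [pow_succ, pow_succ]
    show (y ^ k) (y (φ x)) = φ ((m ^ k) (m x))
    rw [h, ih]

theorem irr_frame {y : V ≃ₗ[F] V} {φ : X →ₗ[F] V} (hi : Function.Injective φ) {m : X ≃ₗ[F] X}
    (h : ∀ x, y (φ x) = φ (m x)) : Irr m ⊤ ↔ Irr y (LinearMap.range φ) := by
  constructor
  · intro hm
    refine ⟨?_, ?_, fun Y hY hYi => ?_⟩
    · rintro _ ⟨x, rfl⟩
      exact ⟨m x, (h x).symm⟩
    · intro h0
      apply hm.ne_bot
      rw [eq_bot_iff]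
      intro x _
      have : φ x ∈ LinearMap.range φ := ⟨x, rfl⟩
      rw [h0, Submodule.mem_bot] at this
      rw [Submodule.mem_bot]
      exact hi (this.trans (map_zero φ).symm)
    · rcases hm.min (Y.comap φ) le_top (fun x hx => by
        show φ (m x) ∈ Y
        rw [← h]
        exact hYi _ hx) with h1 | h1
      · left
        rw [eq_bot_iff]
        intro v hv
        obtain ⟨x, rfl⟩ := hY hv
        have : x ∈ Y.comap φ := hv
        rw [h1, Submodule.mem_bot] at this
        rw [this, map_zero]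
        exact zero_mem _
      · right
        refine le_antisymm hY ?_
        rintro _ ⟨x, rfl⟩
        have : x ∈ Y.comap φ := by rw [h1]; trivial
        exact this
  · intro hm
    refine ⟨fun _ _ => trivial, ?_, fun Y _ hYi => ?_⟩
    · intro h0
      apply hm.ne_bot
      rw [eq_bot_iff]
      rintro _ ⟨x, rfl⟩
      have : x ∈ (⊤ : Submodule F X) := trivial
      rw [h0, Submodule.mem_bot] at this
      rw [this, map_zero]
      exact zero_mem _
    · rcases hm.min (Y.map φ) (LinearMap.map_le_range) (by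
        rintro _ ⟨x, hx, rfl⟩
        rw [h]
        exact ⟨m x, hYi x hx, rfl⟩) with h1 | h1
      · left
        rw [eq_bot_iff]
        intro x hx
        have : φ x ∈ Y.map φ := ⟨x, hx, rfl⟩
        rw [h1, Submodule.mem_bot] at this
        rw [Submodule.mem_bot]
        exact hi (this.trans (map_zero φ).symm)
      · right
        rw [eq_top_iff]
        intro x _
        have : φ x ∈ Y.map φ := by rw [h1]; exact ⟨x, rfl⟩
        obtain ⟨x', hx', e⟩ := this
        rwa [← hi e]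

/-- the automorphism induced on a frame -/
theorem exists_m [FiniteDimensional F X] {y : V ≃ₗ[F] V} {φ : X →ₗ[F] V} (hi : Function.Injective φ)
    (h : _root_.Cfsg.Agent.H847.Bs.Inv y (LinearMap.range φ)) : ∃ m : X ≃ₗ[F] X, ∀ x, y (φ x) = φ (m x) := by
  let ψ := LinearEquiv.ofInjective φ hi
  let f : X →ₗ[F] X := (ψ.symm : LinearMap.range φ →ₗ[F] X) ∘ₗ
    (((y : V →ₗ[F] V) ∘ₗ φ).codRestrict (LinearMap.range φ) fun x => h _ ⟨x, rfl⟩)
  have hf : ∀ x, φ (f x) = y (φ x) := by
    intro x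
    have h1 : ψ (f x) = (((y : V →ₗ[F] V) ∘ₗ φ).codRestrict (LinearMap.range φ) fun x => h _ ⟨x, rfl⟩) x :=
      ψ.apply_symm_apply _
    exact congrArg Subtype.val h1
  have hfi : Function.Injective f := by
    intro x x' hx
    apply hi
    apply y.injective
    rw [← hf, ← hf, hx]
  exact ⟨LinearEquiv.ofInjectiveEndo f hfi, fun x => (hf x).symm⟩

theorem mem_AA_iff [FiniteDimensional F V] [FiniteDimensional F X] {TS : Submodule F V → Prop} {e M : ℕ}
    (hX : finrank F X = e) {y : V ≃ₗ[F] V} {A : Submodule F V} :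
    A ∈ AA TS y (PP F X e M) ↔ TS A ∧ finrank F A = e ∧ Irr y A ∧ BigOn e M y A := by
  constructor
  · rintro ⟨hA, φ, hi, rfl, m, ⟨hm, k, hk, hr, hd⟩, h⟩
    refine ⟨hA, ?_, (irr_frame hi h).1 hm, k, hk, hr, fun j hj => ?_⟩
    · rw [LinearMap.finrank_range_of_inj hi, hX]
    · refine hd.trans (orderOf_dvd_of_pow_eq_one ?_)
      ext x
      apply hi
      rw [← pow_frame h]
      exact hj _ ⟨x, rfl⟩
  · rintro ⟨hA, hd, hirr, k, hk, hr, hkk⟩
    let θ : X ≃ₗ[F] A := LinearEquiv.ofFinrankEq X A (by rw [hX, hd])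
    let φ : X →ₗ[F] V := A.subtype ∘ₗ (θ : X →ₗ[F] A)
    have hi : Function.Injective φ := A.injective_subtype.comp θ.injective
    have hr' : LinearMap.range φ = A := by
      rw [LinearMap.range_comp, LinearEquiv.range, Submodule.map_top, Submodule.range_subtype]
    obtain ⟨m, hm⟩ := exists_m (y := y) hi (by rw [hr']; exact hirr.inv)
    refine ⟨hA, φ, hi, hr', m, ⟨?_, k, hk, hr, ?_⟩, hm⟩
    · rw [irr_frame hi hm, hr']
      exact hirr
    · refine hkk _ fun a ha => ?_
      rw [← hr'] at ha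
      obtain ⟨x, rfl⟩ := ha
      rw [pow_frame hm, pow_orderOf_eq_one]
      rfl

/-- flags -/
theorem mem_BP [FiniteDimensional F V] [FiniteDimensional F X] {X' : Type*} [AddCommGroup X'] [Module F X']
    [FiniteDimensional F X'] {TS : Submodule F V → Prop} {y : V ≃ₗ[F] V} {S : Set (X ≃ₗ[F] X)} {A B : Submodule F V}
    (hA : A ∈ AA TS y S) (hB : TS B) (hy : _root_.Cfsg.Agent.H847.Bs.Inv y B) (hAB : A < B)
    (hmin : ∀ C, _root_.Cfsg.Agent.H847.Bs.Inv y C → A ≤ C → C ≤ B → C = A ∨ C = B) (hd : finrank F B = finrank F X + finrank F X') :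
    (A, B) ∈ BP TS y S (II F X') := by
  obtain ⟨hA, φ, hi, hr, a₀, ha₀, hφ⟩ := hA
  have hdA : finrank F A = finrank F X := by rw [← hr, LinearMap.finrank_range_of_inj hi]
  -- a complement of `A` in `B`
  obtain ⟨A', hA'1, hA'2⟩ : ∃ A' : Submodule F V, Disjoint A A' ∧ A ⊔ A' = B := by
    obtain ⟨C, hC⟩ := A.exists_isCompl
    refine ⟨C ⊓ B, hC.disjoint.mono_right inf_le_left, ?_⟩
    have h1 : A ⊔ C ⊓ B = (A ⊔ C) ⊓ B := (sup_inf_assoc_of_le C hAB.le).symm
    rw [h1, hC.sup_eq_top, top_inf_eq]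
  have hdA' : finrank F A' = finrank F X' := by
    have h1 := Submodule.finrank_sup_add_finrank_inf_eq A A'
    rw [hA'2, hA'1.eq_bot, finrank_bot, add_zero, hd, hdA] at h1
    omega
  let θ : X' ≃ₗ[F] A' := LinearEquiv.ofFinrankEq X' A' hdA'.symm
  let ψ : X' →ₗ[F] V := A'.subtype ∘ₗ (θ : X' →ₗ[F] A')
  have hψi : Function.Injective ψ := A'.injective_subtype.comp θ.injective
  have hψr : LinearMap.range ψ = A' := by
    rw [LinearMap.range_comp, LinearEquiv.range, Submodule.map_top, Submodule.range_subtype]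
  let Φ : (X × X') →ₗ[F] V := φ.coprod ψ
  have hΦi : Function.Injective Φ := by
    rw [← LinearMap.ker_eq_bot]
    show LinearMap.ker (φ.coprod ψ) = ⊥
    rw [LinearMap.ker_coprod_of_disjoint_range _ _ (by rw [hr, hψr]; exact hA'1), LinearMap.ker_eq_bot.2 hi,
      LinearMap.ker_eq_bot.2 hψi, Submodule.prod_bot]
  have hΦr : LinearMap.range Φ = B := by
    show LinearMap.range (φ.coprod ψ) = B
    rw [LinearMap.range_coprod, hr, hψr, hA'2]
  have hΦ1 : ∀ x, Φ (x, 0) = φ x := fun x => by simp [Φ]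
  have hΦA : LinearMap.range (Φ ∘ₗ LinearMap.inl F X X') = A := by
    rw [← hr]
    congr 1
    ext x
    exact hΦ1 x
  obtain ⟨m, hm⟩ := exists_m (y := y) hΦi (by rw [hΦr]; exact hy)
  -- the blocks of `m`
  have hm1 : ∀ x, m (x, 0) = (a₀ x, 0) := by
    intro x
    apply hΦi
    rw [← hm, hΦ1, hΦ1, hφ]
  let b : X' →ₗ[F] X' := LinearMap.snd F X X' ∘ₗ (m : (X × X') →ₗ[F] (X × X')) ∘ₗ LinearMap.inr F X X'
  let c : X' →ₗ[F] X := LinearMap.fst F X X' ∘ₗ (m : (X × X') →ₗ[F] (X × X')) ∘ₗ LinearMap.inr F X X'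
  have hm2 : ∀ p : X × X', m p = (a₀ p.1 + c p.2, b p.2) := by
    intro p
    have h1 : m p = m (p.1, 0) + m (0, p.2) := by
      rw [← map_add]
      congr 1
      ext <;> simp
    rw [h1, hm1]
    ext
    · rfl
    · show (0 : X') + b p.2 = b p.2
      rw [zero_add]
  have hbs : Function.Surjective b := by
    intro x
    obtain ⟨p, hp⟩ := m.surjective (0, x)
    refine ⟨p.2, ?_⟩
    rw [hm2] at hp
    exact congrArg Prod.snd hp
  let b' : X' ≃ₗ[F] X' := LinearEquiv.ofBijective b ⟨LinearMap.injective_iff_surjective.2 hbs, hbs⟩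
  have hmt : m = tri a₀ c b' := by
    ext p
    · rw [hm2]; rfl
    · rw [hm2]; rfl
  refine ⟨hB, Φ, hΦi, hΦr, hΦA, m, ⟨a₀, ha₀, c, b', ?_, hmt⟩, hm⟩
  -- irreducibility
  refine ⟨fun _ _ => trivial, ?_, fun Y _ hY => ?_⟩
  · intro h0
    have h1 : finrank F X' = 0 := by
      rw [← finrank_top F X', h0, finrank_bot]
    have h2 : finrank F A < finrank F B := Submodule.finrank_lt_finrank_of_lt hAB
    omega
  · let C : Submodule F V := (Submodule.prod ⊤ Y).map Φ
    have hC1 : _root_.Cfsg.Agent.H847.Bs.Inv y C := by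
      rintro _ ⟨p, hp, rfl⟩
      rw [hm, hm2]
      exact ⟨(a₀ p.1 + c p.2, b' p.2), ⟨trivial, hY _ hp.2⟩, rfl⟩
    have hC2 : A ≤ C := by
      rw [← hr]
      rintro _ ⟨x, rfl⟩
      exact ⟨(x, 0), ⟨trivial, zero_mem _⟩, hΦ1 x⟩
    have hC3 : C ≤ B := by
      rw [← hΦr]
      exact LinearMap.map_le_range
    rcases hmin C hC1 hC2 hC3 with h1 | h1
    · left
      rw [eq_bot_iff]
      intro x hx
      have h2 : Φ (0, x) ∈ C := ⟨(0, x), ⟨trivial, hx⟩, rfl⟩
      rw [h1, ← hr] at h2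
      obtain ⟨x', h3⟩ := h2
      rw [← hΦ1] at h3
      have := congrArg Prod.snd (hΦi h3)
      exact this.symm
    · right
      rw [eq_top_iff]
      intro x _
      have h2 : Φ (0, x) ∈ C := by
        rw [h1, ← hΦr]
        exact ⟨_, rfl⟩
      obtain ⟨p, hp, h3⟩ := h2
      have := congrArg Prod.snd (hΦi h3)
      have h4 : p.2 = x := this
      rw [← h4]
      exact hp.2

/-- existence of frames -/
theorem exists_fr [FiniteDimensional F V] [FiniteDimensional F X] {TS : Submodule F V → Prop} {k₀ : ℕ}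
    (hh : ∀ A B, A ≤ B → TS B → TS A) (h : ∃ A, TS A ∧ finrank F A = k₀) (hX : finrank F X ≤ k₀) :
    Nonempty (Fr TS X) := by
  obtain ⟨A, hA, hd⟩ := h
  let b := finBasis F A
  let c := finBasis F X
  have hle : finrank F X ≤ finrank F A := by omega
  let f : X →ₗ[F] A := c.constr F fun i => b (Fin.castLE hle i)
  have hf : Function.Injective f := by
    rw [← LinearMap.ker_eq_bot, eq_bot_iff]
    intro x hx
    rw [LinearMap.mem_ker] at hx
    have h1 : f x = ∑ i, c.equivFun x i • b (Fin.castLE hle i) := c.constr_apply_fintype F _ x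
    have h2 : LinearIndependent F fun i : Fin (finrank F X) => b (Fin.castLE hle i) :=
      b.linearIndependent.comp _ (Fin.castLE_injective hle)
    rw [h1] at hx
    have h3 := Fintype.linearIndependent_iff.1 h2 _ hx
    rw [Submodule.mem_bot]
    have : c.equivFun x = 0 := funext h3
    exact c.equivFun.map_eq_zero_iff.1 this
  refine ⟨⟨A.subtype ∘ₗ f, A.injective_subtype.comp hf, hh _ _ ?_ hA⟩⟩
  rintro _ ⟨x, rfl⟩
  exact (f x).2

end

/-! ### matrices -/

section

variable (F : Type*) [Field F]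

/-- matrices and automorphisms -/
noncomputable def mE (d : ℕ) : GL (Fin d) F ≃* ((Fin d → F) ≃ₗ[F] (Fin d → F)) :=
  Matrix.GeneralLinearGroup.toLin.trans (LinearMap.GeneralLinearGroup.generalLinearEquiv F (Fin d → F))

theorem irrM_iff {d : ℕ} (g : GL (Fin d) F) : IrrM F g ↔ Irr (mE F d g) ⊤ := by
  constructor
  · rintro ⟨h1, h2⟩
    refine ⟨fun _ _ => trivial, ?_, fun Y _ hY => h2 Y hY⟩
    intro h0
    have h3 : finrank F (Fin d → F) = 0 := by rw [← finrank_top, h0, finrank_bot]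
    rw [Module.finrank_fintype_fun_eq_card, Fintype.card_fin] at h3
    omega
  · intro h
    refine ⟨?_, fun Y hY => h.min Y le_top hY⟩
    by_contra hd
    apply h.ne_bot
    have : d = 0 := by omega
    subst this
    exact Subsingleton.elim _ _

theorem card_II (d : ℕ) : Nat.card {g : GL (Fin d) F // IrrM F g} = Nat.card (II F (Fin d → F)) :=
  Nat.card_congr ((mE F d).toEquiv.subtypeEquiv fun g => irrM_iff F g)

theorem card_PP (d M : ℕ) : Nat.card {g : GL (Fin d) F // IrrM F g ∧ BigM F d M g} = Nat.card (PP F (Fin d → F) d M) :=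
  Nat.card_congr ((mE F d).toEquiv.subtypeEquiv fun g => by
    have h : orderOf (mE F d g) = orderOf g := orderOf_injective (mE F d).toMonoidHom (mE F d).injective g
    refine and_congr (irrM_iff F g) ?_
    show (∃ k, _) ↔ ∃ k, _
    have h' : orderOf ((mE F d).toEquiv g) = orderOf g := h
    rw [h'])

theorem card_GLX (d : ℕ) : Nat.card (GL (Fin d) F) = Nat.card ((Fin d → F) ≃ₗ[F] (Fin d → F)) :=
  Nat.card_congr (mE F d).toEquiv

end

end Cfsg.Agent.H50.RG
end
end

-- part: H50/RG/StatMain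
section
prune_inst 0x352001017ee200080000a592b32024756e00049200630400ed670d460d89656289c2a760bfb034155ae6b685403d0020021000000000000000000400011a018010c01204b14800086a009e000104000000000000000000000000000000030000000000000
set_option linter.all false
open scoped Cfsg.Agent.FastGrp

/-!
# S5714, layer L: the second moment argument (`l01 : L01`)
-/

set_option autoImplicit false
set_option linter.unusedSectionVars false

namespace Cfsg.Agent.H50.RG

open Module Cfsg.Agent.H847.Bs

/-- second moment: `R ≥ 0` with mean `≥ (1 - η) S` and second moment `≤ 2 S + S²` -/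
theorem second_moment {ι : Type*} [Fintype ι] (R : ι → ℕ) {S η : ℝ} (hS : 0 ≤ S) (hη0 : 0 ≤ η) (hη1 : η ≤ 1)
    (h1 : (Fintype.card ι : ℝ) * ((1 - η) * S) ≤ ∑ i, (R i : ℝ))
    (h2 : ∑ i, (R i : ℝ) ^ 2 ≤ Fintype.card ι * (2 * S + S ^ 2)) :
    (Nat.card {i // R i = 0} : ℝ) * ((1 - η) * S) ^ 2 ≤ Fintype.card ι * (2 * S + 2 * η * S ^ 2) := by
  classical
  set N : ℝ := (Fintype.card ι : ℝ) with hN
  set n₀ : ℝ := (Nat.card {i // R i = 0} : ℝ) with hn₀
  have hN0 : 0 ≤ N := Nat.cast_nonneg _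
  have hn0 : 0 ≤ n₀ := Nat.cast_nonneg _
  have hle : n₀ ≤ N := by
    rw [hn₀, hN, ← Nat.card_eq_fintype_card]
    exact_mod_cast Nat.card_le_card_of_injective _ Subtype.val_injective
  -- Cauchy-Schwarz
  have h3 : (∑ i, (R i : ℝ)) ^ 2 ≤ (N - n₀) * ∑ i, (R i : ℝ) ^ 2 := by
    have h4 : ∑ i, (R i : ℝ) = ∑ i ∈ Finset.univ.filter (fun i => R i ≠ 0), 1 * (R i : ℝ) := by
      rw [Finset.sum_filter]
      refine Finset.sum_congr rfl fun i _ => ?_
      by_cases h : R i = 0
      · simp [h]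
      · simp [h]
    have h5 := Finset.sum_mul_sq_le_sq_mul_sq (Finset.univ.filter (fun i => R i ≠ 0)) (fun _ => (1 : ℝ))
      (fun i => (R i : ℝ))
    rw [← h4] at h5
    refine h5.trans (mul_le_mul ?_ ?_ (Finset.sum_nonneg fun i _ => sq_nonneg _) (by linarith))
    · have h6 : ((Finset.univ.filter (fun i => R i ≠ 0)).card : ℝ) + n₀ = N := by
        have h7 : Nat.card {i // R i = 0} = (Finset.univ.filter (fun i => R i = 0)).card := by
          rw [Nat.card_eq_fintype_card, Fintype.card_subtype]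
        have h7' := Finset.card_filter_add_card_filter_not (s := (Finset.univ : Finset ι)) (fun i => R i = 0)
        rw [hn₀, h7, hN, ← Finset.card_univ, ← h7']
        push_cast
        ring
      simp only [one_pow, Finset.sum_const, nsmul_eq_mul, mul_one]
      linarith
    · exact Finset.sum_le_sum_of_subset_of_nonneg (Finset.filter_subset _ _) fun i _ _ => sq_nonneg _
  have h8 : (N * ((1 - η) * S)) ^ 2 ≤ (N - n₀) * (N * (2 * S + S ^ 2)) := by
    have h9 : 0 ≤ N * ((1 - η) * S) := mul_nonneg hN0 (mul_nonneg (by linarith) hS)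
    calc (N * ((1 - η) * S)) ^ 2 ≤ (∑ i, (R i : ℝ)) ^ 2 := pow_le_pow_left₀ h9 h1 2
      _ ≤ (N - n₀) * ∑ i, (R i : ℝ) ^ 2 := h3
      _ ≤ _ := mul_le_mul_of_nonneg_left h2 (by linarith)
  rcases hN0.eq_or_lt with h0 | h0
  · have h9 : n₀ = 0 := le_antisymm (by rw [h0]; exact hle) hn0
    rw [h9, ← h0]
    simp
  have h10 : N * ((1 - η) * S) ^ 2 ≤ (N - n₀) * (2 * S + S ^ 2) := by
    have : N * (N * ((1 - η) * S) ^ 2) ≤ N * ((N - n₀) * (2 * S + S ^ 2)) := by linarith only [h8]
    exact le_of_mul_le_mul_left this h0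
  have h11 : ((1 - η) * S) ^ 2 ≤ 2 * S + S ^ 2 := by
    have h12 : (1 - η) * S ≤ S := by nlinarith only [hS, hη0]
    have h13 : 0 ≤ (1 - η) * S := mul_nonneg (by linarith) hS
    nlinarith only [hS, h0, h10, _root_.sq_nonneg (S : ℝ), _root_.Nat.cast_nonneg (α := ℝ) (Nat.card { i // R i = 0 })]
  have h14 : n₀ * ((1 - η) * S) ^ 2 ≤ n₀ * (2 * S + S ^ 2) := mul_le_mul_of_nonneg_left h11 hn0
  have h15 : 0 ≤ N * (η ^ 2 * S ^ 2) := by (clear * - h0; positivity)
  linarith only [h10, h14, h15]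

theorem l01 : L01 := by
  intro F V _ _ _ _ _ G TS k₀ M I x η hh hFT hex hT hI hH1 hH2 hH3 hirr hx hη0 hη hη1
  classical
  have : Finite V := Module.finite_of_finite F
  have : Finite (V ≃ₗ[F] V) := finite_equiv
  have := Fintype.ofFinite G
  have hG0 : (0 : ℝ) < Nat.card G := by exact_mod_cast Nat.card_pos
  -- the sets
  let P : (e : ℕ) → Set ((Fin e → F) ≃ₗ[F] (Fin e → F)) := fun e => PP F (Fin e → F) e M
  let a : ℕ → G → ℕ := fun e y => Nat.card (AA TS (y : V ≃ₗ[F] V) (P e))
  let gd : ℕ → G → Set (Submodule F V) := fun e y => {A | Gd TS e M (y : V ≃ₗ[F] V) A}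
  have hfin : Finite (Submodule F V) :=
    Finite.of_injective (fun A : Submodule F V => (A : Set V)) SetLike.coe_injective
  have hmem : ∀ (e : ℕ) (y : G) (A : Submodule F V), A ∈ AA TS (y : V ≃ₗ[F] V) (P e) ↔
      TS A ∧ finrank F A = e ∧ Irr (y : V ≃ₗ[F] V) A ∧ BigOn e M (y : V ≃ₗ[F] V) A :=
    fun e y A => mem_AA_iff (by simp only [_root_.Module.finrank_fintype_fun_eq_card, _root_.Fintype.card_fin])
  have hsub : ∀ e (y : G), gd e y ⊆ AA TS (y : V ≃ₗ[F] V) (P e) := fun e y A hA =>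
    (hmem e y A).2 ⟨hA.ts, hA.dim, hA.irr, hA.big⟩
  have hgl : ∀ e, (0 : ℝ) < Nat.card ((Fin e → F) ≃ₗ[F] (Fin e → F)) := fun e => by exact_mod_cast Nat.card_pos
  have hxe : ∀ e ∈ I, x e * Nat.card ((Fin e → F) ≃ₗ[F] (Fin e → F)) = Nat.card (P e) := by
    intro e he
    have h1 := hx e he
    rw [card_PP, card_GLX] at h1
    exact h1
  have hx0 : ∀ e ∈ I, 0 ≤ x e := by
    intro e he
    by_contra h
    push Not at h
    have h1 := hxe e he
    have h2 : x e * Nat.card ((Fin e → F) ≃ₗ[F] (Fin e → F)) < 0 := mul_neg_of_neg_of_pos h (hgl e)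
    rw [h1] at h2
    exact absurd (Nat.cast_nonneg (α := ℝ) (Nat.card (P e))) (not_le.2 h2)
  -- first moments
  have hfr : ∀ {X : Type} [AddCommGroup X] [Module F X] [FiniteDimensional F X], finrank F X ≤ k₀ →
      Nonempty (Fr TS X) := fun h => exists_fr hh hex h
  have hfirst : ∀ e ∈ I, (∑ y : G, (a e y : ℝ)) = Nat.card G * x e := by
    intro e he
    have h1 := sum_AA hFT (X := Fin e → F) (by simp only [_root_.Module.finrank_fintype_fun_eq_card, _root_.Fintype.card_fin]; have := (hI e he).2; omega) hT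
      (hfr (by simp only [_root_.Module.finrank_fintype_fun_eq_card, _root_.Fintype.card_fin]; have := (hI e he).2; omega)) (cj_PP (F := F) (X := Fin e → F) e M)
    have h2 : ((∑ y : G, (a e y : ℝ))) * Nat.card ((Fin e → F) ≃ₗ[F] (Fin e → F)) =
        (Nat.card G * x e) * Nat.card ((Fin e → F) ≃ₗ[F] (Fin e → F)) := by
      rw [mul_assoc, hxe e he]
      exact_mod_cast h1
    exact mul_right_cancel₀ (hgl e).ne' h2
  -- mixed moments
  have hcross : ∀ e ∈ I, ∀ e' ∈ I, e ≠ e' → (∑ y : G, (a e y : ℝ) * a e' y) ≤ Nat.card G * (x e * x e') := by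
    intro e he e' he' hne
    have h1 := cross hFT (X := Fin e → F) (X' := Fin e' → F)
      (by simp only [_root_.Module.finrank_fintype_fun_eq_card, _root_.Fintype.card_fin]; have := (hI e he).2; have := (hI e' he').2; omega) hT
      (hfr (by rw [Module.finrank_prod]; simp only [_root_.Module.finrank_fintype_fun_eq_card, _root_.Fintype.card_fin]; have := (hI e he).2; have := (hI e' he').2; omega))
      (cj_PP (F := F) (X := Fin e → F) e M) (cj_PP (F := F) (X := Fin e' → F) e' M) (fun y hy A hA A' hA' => by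
        have hA1 := (hmem e ⟨y, hy⟩ A).1 hA
        have hA2 := (hmem e' ⟨y, hy⟩ A').1 hA'
        refine ⟨?_, hH1 e he e' he' hne y hy A A' hA1.1 hA2.1 hA1.2.2.1 hA2.2.2.1 hA1.2.1 hA2.2.1⟩
        rw [disjoint_iff]
        have hinv : _root_.Cfsg.Agent.H847.Bs.Inv y (A ⊓ A') := fun v hv => ⟨hA1.2.2.1.inv v hv.1, hA2.2.2.1.inv v hv.2⟩
        rcases hA1.2.2.1.min _ inf_le_left hinv with h | h
        · exact h
        · rcases hA2.2.2.1.min _ inf_le_right hinv with h' | h'
          · exact h'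
          · exfalso
            apply hne
            rw [← hA1.2.1, ← hA2.2.1, ← h, h'])
    have h2 : (∑ y : G, (a e y : ℝ) * a e' y) * (Nat.card ((Fin e → F) ≃ₗ[F] (Fin e → F)) *
        Nat.card ((Fin e' → F) ≃ₗ[F] (Fin e' → F))) ≤ (Nat.card G * (x e * x e')) *
          (Nat.card ((Fin e → F) ≃ₗ[F] (Fin e → F)) * Nat.card ((Fin e' → F) ≃ₗ[F] (Fin e' → F))) := by
      have h3 : (Nat.card G * (x e * x e')) * (Nat.card ((Fin e → F) ≃ₗ[F] (Fin e → F)) *
          Nat.card ((Fin e' → F) ≃ₗ[F] (Fin e' → F))) = Nat.card G * ((Nat.card (P e) : ℝ) * Nat.card (P e')) := by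
        rw [← hxe e he, ← hxe e' he']
        ring
      rw [h3]
      exact_mod_cast h1
    exact le_of_mul_le_mul_right h2 (mul_pos (hgl e) (hgl e'))
  -- bad flags
  have hbad : ∀ e ∈ I, ∀ d, 1 ≤ d → e + d ≤ k₀ →
      (∑ y : G, (Nat.card (BP TS (y : V ≃ₗ[F] V) (P e) (II F (Fin d → F))) : ℝ)) ≤ Nat.card G * (x e * (1 / d)) := by
    intro e he d hd hk
    have h1 := sum_BP hFT (X := Fin e → F) (X' := Fin d → F) (by simpa only [_root_.Module.finrank_fintype_fun_eq_card, _root_.Fintype.card_fin] using hk) hT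
      (hfr (by rw [Module.finrank_prod]; simpa using hk)) (cj_PP (F := F) (X := Fin e → F) e M)
      (cj_II (F := F) (X := Fin d → F))
    have h3 := hirr d hd
    rw [card_II, card_GLX] at h3
    have hd0 : (0 : ℝ) < d := by exact_mod_cast hd
    have h2 : (∑ y : G, (Nat.card (BP TS (y : V ≃ₗ[F] V) (P e) (II F (Fin d → F))) : ℝ)) *
        (Nat.card ((Fin e → F) ≃ₗ[F] (Fin e → F)) * Nat.card ((Fin d → F) ≃ₗ[F] (Fin d → F))) ≤
        (Nat.card G * (x e * (1 / d))) *
          (Nat.card ((Fin e → F) ≃ₗ[F] (Fin e → F)) * Nat.card ((Fin d → F) ≃ₗ[F] (Fin d → F))) := by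
      have h4 : (∑ y : G, (Nat.card (BP TS (y : V ≃ₗ[F] V) (P e) (II F (Fin d → F))) : ℝ)) *
        (Nat.card ((Fin e → F) ≃ₗ[F] (Fin e → F)) * Nat.card ((Fin d → F) ≃ₗ[F] (Fin d → F))) ≤
          Nat.card G * ((Nat.card (P e) : ℝ) * Nat.card (II F (Fin d → F))) := by exact_mod_cast h1
      refine h4.trans ?_
      have h5 : (d : ℝ) * Nat.card (II F (Fin d → F)) ≤ Nat.card ((Fin d → F) ≃ₗ[F] (Fin d → F)) := by
        exact_mod_cast h3
      have h6 : (Nat.card (II F (Fin d → F)) : ℝ) ≤ (1 / d) * Nat.card ((Fin d → F) ≃ₗ[F] (Fin d → F)) := by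
        rw [div_mul_eq_mul_div, one_mul, le_div_iff₀ hd0]
        linarith only [h5]
      calc (Nat.card G : ℝ) * ((Nat.card (P e) : ℝ) * Nat.card (II F (Fin d → F))) ≤
          Nat.card G * ((Nat.card (P e) : ℝ) * ((1 / d) * Nat.card ((Fin d → F) ≃ₗ[F] (Fin d → F)))) := by
            gcongr
        _ = _ := by rw [← hxe e he]; ring
    exact le_of_mul_le_mul_right h2 (mul_pos (hgl e) (hgl d))
  -- good subspaces
  have hgd1 : ∀ e (y : G), Nat.card (gd e y) ≤ a e y := fun e y =>
    Nat.card_mono (Set.toFinite _) (hsub e y)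
  have hgd2 : ∀ e ∈ I, ∀ y : G, Nat.card (gd e y) ≤ 2 := by
    intro e he y
    have h1 := hH2 e he y y.2 (Set.toFinite (gd e y)).toFinset (fun A hA => (Set.Finite.mem_toFinset _).1 hA)
    rwa [← Nat.card_eq_card_finite_toFinset] at h1
  have hgd3 : ∀ e ∈ I, ∀ y : G, a e y ≤ Nat.card (gd e y) +
      ∑ j ∈ Finset.range k₀, if e + (j + 1) * e ≤ k₀ then
        Nat.card (BP TS (y : V ≃ₗ[F] V) (P e) (II F (Fin ((j + 1) * e) → F))) else 0 := by
    intro e he y
    have he2 := (hI e he).1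
    -- the other subspaces
    have h1 : a e y ≤ Nat.card (gd e y) + Nat.card ↥(AA TS (y : V ≃ₗ[F] V) (P e) \ gd e y) := by
      have := Set.ncard_le_ncard_sdiff_add_ncard (AA TS (y : V ≃ₗ[F] V) (P e)) (gd e y) (Set.toFinite _)
      rw [add_comm]
      exact this
    refine h1.trans (Nat.add_le_add_left ?_ _)
    have hch : ∀ A : ↥(AA TS (y : V ≃ₗ[F] V) (P e) \ gd e y), ∃ (j : Finset.range k₀) (B : Submodule F V),
        e + (j.1 + 1) * e ≤ k₀ ∧ (A.1, B) ∈ BP TS (y : V ≃ₗ[F] V) (P e) (II F (Fin ((j.1 + 1) * e) → F)) := by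
      rintro ⟨A, hA, hng⟩
      have hA1 := (hmem e y A).1 hA
      have h2 : ¬ ∀ B, TS B → _root_.Cfsg.Agent.H847.Bs.Inv (y : V ≃ₗ[F] V) B → A < B → (∀ C, _root_.Cfsg.Agent.H847.Bs.Inv (y : V ≃ₗ[F] V) C → A ≤ C → C ≤ B →
          C = A ∨ C = B) → ¬ e ∣ finrank F B := fun h => hng ⟨hA1.1, hA1.2.1, hA1.2.2.1, hA1.2.2.2, h⟩
      push Not at h2
      obtain ⟨B, hB, hBi, hAB, hmin, hdiv⟩ := h2
      have h3 := hH3 e he B hB hdiv
      obtain ⟨c, hc⟩ := hdiv
      have h4 : finrank F A < finrank F B := Submodule.finrank_lt_finrank_of_lt hAB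
      rw [hA1.2.1] at h4
      have hc2 : 2 ≤ c := by
        by_contra hc2
        have : c ≤ 1 := by omega
        have : e * c ≤ e * 1 := Nat.mul_le_mul_left _ this
        omega
      obtain ⟨j, rfl⟩ : ∃ j, c = j + 2 := ⟨c - 2, by omega⟩
      have h5 : finrank F B = e + (j + 1) * e := by rw [hc]; ring
      refine ⟨⟨j, Finset.mem_range.2 ?_⟩, B, by rw [← h5]; exact h3, ?_⟩
      · have : (j + 1) * 1 ≤ (j + 1) * e := Nat.mul_le_mul_left _ (by omega)
        omega
      · exact mem_BP hA hB hBi hAB hmin (by simpa only [_root_.Module.finrank_fintype_fun_eq_card, _root_.Fintype.card_fin] using h5)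
    choose j B hjk hB using hch
    have h2 : Nat.card ↥(AA TS (y : V ≃ₗ[F] V) (P e) \ gd e y) ≤ Nat.card (Σ j : Finset.range k₀,
        {p : Submodule F V × Submodule F V // e + (j.1 + 1) * e ≤ k₀ ∧
          p ∈ BP TS (y : V ≃ₗ[F] V) (P e) (II F (Fin ((j.1 + 1) * e) → F))}) := by
      refine Nat.card_le_card_of_injective (fun A => ⟨j A, (A.1, B A), hjk A, hB A⟩) ?_
      intro A A' h
      apply Subtype.ext
      have := congrArg (fun q : (Σ j : Finset.range k₀,
        {p : Submodule F V × Submodule F V // e + (j.1 + 1) * e ≤ k₀ ∧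
          p ∈ BP TS (y : V ≃ₗ[F] V) (P e) (II F (Fin ((j.1 + 1) * e) → F))}) => q.2.1.1) h
      exact this
    refine h2.trans ?_
    rw [Nat.card_sigma, ← Finset.sum_coe_sort (Finset.range k₀)]
    refine Finset.sum_le_sum fun j _ => ?_
    split_ifs with hc
    · refine le_of_eq (Nat.card_congr (Equiv.subtypeEquivRight fun p => by simp [hc]))
    · have : IsEmpty {p : Submodule F V × Submodule F V // e + (j.1 + 1) * e ≤ k₀ ∧
          p ∈ BP TS (y : V ≃ₗ[F] V) (P e) (II F (Fin ((j.1 + 1) * e) → F))} := ⟨fun p => hc p.2.1⟩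
      rw [Nat.card_of_isEmpty]
  have hmean : ∀ e ∈ I, Nat.card G * ((1 - η) * x e) ≤ ∑ y : G, (Nat.card (gd e y) : ℝ) := by
    intro e he
    have he2 := (hI e he).1
    have h1 : (∑ y : G, (a e y : ℝ)) ≤ (∑ y : G, (Nat.card (gd e y) : ℝ)) +
        ∑ j ∈ Finset.range k₀, Nat.card G * (x e * (1 / (((j + 1) * e : ℕ) : ℝ))) := by
      have h2 : (∑ y : G, (a e y : ℝ)) ≤ ∑ y : G, ((Nat.card (gd e y) : ℝ) +
          ∑ j ∈ Finset.range k₀, if e + (j + 1) * e ≤ k₀ then
            (Nat.card (BP TS (y : V ≃ₗ[F] V) (P e) (II F (Fin ((j + 1) * e) → F))) : ℝ) else 0) := by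
        refine Finset.sum_le_sum fun y _ => ?_
        have := hgd3 e he y
        have h3 : ((a e y : ℕ) : ℝ) ≤ ((Nat.card (gd e y) +
          ∑ j ∈ Finset.range k₀, if e + (j + 1) * e ≤ k₀ then
            Nat.card (BP TS (y : V ≃ₗ[F] V) (P e) (II F (Fin ((j + 1) * e) → F))) else 0 : ℕ) : ℝ) := by
          exact_mod_cast this
        push_cast at h3
        exact h3
      refine h2.trans ?_
      rw [Finset.sum_add_distrib, Finset.sum_comm]
      refine add_le_add le_rfl (Finset.sum_le_sum fun j _ => ?_)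
      split_ifs with hc
      · refine (hbad e he ((j + 1) * e) (Nat.mul_pos (by omega) (by omega)) hc)
      · rw [Finset.sum_const_zero]
        have := hx0 e he
        (clear * - he2 this; positivity)
    rw [hfirst e he, ← Finset.mul_sum, ← Finset.mul_sum] at h1
    have h2 := hη e he
    have h3 : x e * ∑ j ∈ Finset.range k₀, 1 / (((j + 1) * e : ℕ) : ℝ) ≤ x e * η :=
      mul_le_mul_of_nonneg_left h2 (hx0 e he)
    have h4 := mul_le_mul_of_nonneg_left h3 hG0.le
    linarith only [h1, h4]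
  -- the random variable
  let R : G → ℕ := fun y => ∑ e ∈ I, Nat.card (gd e y)
  have hS0 : 0 ≤ ∑ e ∈ I, x e := Finset.sum_nonneg hx0
  have hR1 : (Fintype.card G : ℝ) * ((1 - η) * ∑ e ∈ I, x e) ≤ ∑ y : G, (R y : ℝ) := by
    rw [← Nat.card_eq_fintype_card]
    have h1 : ∑ y : G, (R y : ℝ) = ∑ e ∈ I, ∑ y : G, (Nat.card (gd e y) : ℝ) := by
      rw [Finset.sum_comm]
      refine Finset.sum_congr rfl fun y _ => ?_
      simp only [R]
      push_cast
      rfl
    rw [h1, Finset.mul_sum, Finset.mul_sum]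
    exact Finset.sum_le_sum fun e he => hmean e he
  have hR2 : ∑ y : G, (R y : ℝ) ^ 2 ≤ Fintype.card G * (2 * (∑ e ∈ I, x e) + (∑ e ∈ I, x e) ^ 2) := by
    rw [← Nat.card_eq_fintype_card]
    have h1 : ∀ y : G, (R y : ℝ) ^ 2 = ∑ e ∈ I, ∑ e' ∈ I, (Nat.card (gd e y) : ℝ) * Nat.card (gd e' y) := by
      intro y
      simp only [R]
      push_cast
      rw [pow_two, Finset.sum_mul_sum]
    have h2 : ∑ y : G, (R y : ℝ) ^ 2 = ∑ e ∈ I, ∑ e' ∈ I, ∑ y : G, (Nat.card (gd e y) : ℝ) * Nat.card (gd e' y) := by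
      rw [Finset.sum_congr rfl fun y _ => h1 y, Finset.sum_comm]
      refine Finset.sum_congr rfl fun e _ => ?_
      rw [Finset.sum_comm]
    rw [h2]
    have h3 : ∀ e ∈ I, ∀ e' ∈ I, ∑ y : G, (Nat.card (gd e y) : ℝ) * Nat.card (gd e' y) ≤
        Nat.card G * (x e * x e' + if e = e' then 2 * x e else 0) := by
      intro e he e' he'
      by_cases h : e = e'
      · subst h
        rw [if_pos rfl]
        have h4 : ∑ y : G, (Nat.card (gd e y) : ℝ) * Nat.card (gd e y) ≤ ∑ y : G, 2 * (a e y : ℝ) := by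
          refine Finset.sum_le_sum fun y _ => ?_
          have h5 : (Nat.card (gd e y) : ℝ) ≤ 2 := by exact_mod_cast hgd2 e he y
          have h6 : (Nat.card (gd e y) : ℝ) ≤ a e y := by exact_mod_cast hgd1 e y
          exact mul_le_mul h5 h6 (Nat.cast_nonneg _) (by norm_num)
        rw [← Finset.mul_sum, hfirst e he] at h4
        refine h4.trans ?_
        have := mul_nonneg (hx0 e he) (hx0 e he)
        nlinarith only []
      · rw [if_neg h, add_zero]
        refine le_trans ?_ (hcross e he e' he' h)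
        refine Finset.sum_le_sum fun y _ => ?_
        have h5 : (Nat.card (gd e y) : ℝ) ≤ a e y := by exact_mod_cast hgd1 e y
        have h6 : (Nat.card (gd e' y) : ℝ) ≤ a e' y := by exact_mod_cast hgd1 e' y
        exact mul_le_mul h5 h6 (Nat.cast_nonneg _) (Nat.cast_nonneg _)
    refine (Finset.sum_le_sum fun e he => Finset.sum_le_sum fun e' he' => h3 e he e' he').trans (le_of_eq ?_)
    simp only [← Finset.mul_sum, Finset.sum_add_distrib]
    congr 1
    rw [pow_two, Finset.sum_mul_sum, add_comm]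
    congr 1
    · rw [Finset.mul_sum]
      refine Finset.sum_congr rfl fun e he => ?_
      rw [Finset.sum_ite_eq, if_pos he]
    · refine Finset.sum_congr rfl fun e _ => ?_
      rw [Finset.mul_sum]
  have h := second_moment R hS0 hη0 hη1 hR1 hR2
  rw [← Nat.card_eq_fintype_card] at h
  refine le_trans (mul_le_mul_of_nonneg_right ?_ (sq_nonneg _)) h
  have h1 : noG G TS M I ≤ Nat.card {y : G // R y = 0} := by
    unfold noG
    refine Nat.card_le_card_of_injective (fun y => ⟨⟨y.1, y.2.1⟩, ?_⟩) fun y y' h => ?_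
    · show ∑ e ∈ I, Nat.card (gd e ⟨y.1, y.2.1⟩) = 0
      rw [Finset.sum_eq_zero_iff]
      intro e he
      have : IsEmpty (gd e ⟨y.1, y.2.1⟩) := ⟨fun A => y.2.2 ⟨e, he, A.1, A.2⟩⟩
      exact Nat.card_of_isEmpty
    · apply Subtype.ext
      exact congrArg (fun z : {y : G // R y = 0} => (z.1 : V ≃ₗ[F] V)) h
  exact_mod_cast h1

end Cfsg.Agent.H50.RG
end

-- part: H50/RG/Fin
section
prune_inst 0x346001004ec000080000a516b02004147e00040000230400ad6309460d88e7228982a760bdb034055ae68085403d0008111000300040000004000400011801a090c11206b17c0c08400096000104000000000000000000000000000000030000000000000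
set_option linter.all false
open scoped Cfsg.Agent.FastGrp

-- part: H50/RG/Mix
section
/-!
# S5714, layer L: from good subspaces to `MixY`

* `mixY_of_free` : the Frobenius trick for subgroups of `GL(V)`;
* `mix_lin` : linear groups (`L13`, `L16`);
* `mix_form` : groups of isometries (`L14`, `L15` and generation).
-/

set_option autoImplicit false
set_option linter.unusedSectionVars false

namespace Cfsg.Agent.H50.RG

open Module Cfsg.Agent.H847.Bs Cfsg.Agent.LieClassical.OrthCore
open Cfsg.Agent.H440.Bs (perp mem_perp)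

theorem MixY.mono {T : Type*} [Group T] {M R : ℝ} {y : T} (h : MixY M y) (hR : R ≤ M) : MixY R y := fun n ρ h0 =>
  (mul_le_mul_of_nonneg_right hR (Nat.cast_nonneg _)).trans (h n ρ h0)

/-- the Frobenius trick, in a subgroup `G` of an ambient group -/
theorem mixY_of_free {A : Type*} [Group A] [Finite A] {G Z Q₁ Q₂ : Subgroup A} {y : A} (hy : y ∈ G) {M : ℕ}
    (hZ : Z ≤ Subgroup.zpowers y) (hM : M ≤ Nat.card Z) (h1 : Free Z Q₁) (h2 : Free Z Q₂) (hgen : Q₁ ⊔ Q₂ = G)
    {R : ℝ} (hR : R ≤ M) : MixY R (⟨y, hy⟩ : G) := by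
  intro n ρ h0
  have hZG : Z ≤ G := hZ.trans (by rwa [Subgroup.zpowers_le])
  have hQ1 : Q₁ ≤ G := le_sup_left.trans hgen.le
  have hQ2 : Q₂ ≤ G := le_sup_right.trans hgen.le
  have hF : ∀ {Q : Subgroup A}, Free Z Q → (∀ z ∈ Z.subgroupOf G, ∀ q ∈ Q.subgroupOf G, z * q * z⁻¹ ∈ Q.subgroupOf G) ∧
      ∀ z ∈ Z.subgroupOf G, z ≠ 1 → ∀ q ∈ Q.subgroupOf G, z * q = q * z → q = 1 := by
    rintro Q ⟨ha, hb⟩
    refine ⟨fun z hz q hq => ?_, fun z hz hz1 q hq hc => ?_⟩
    · rw [Subgroup.mem_subgroupOf] at hz hq ⊢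
      exact ha _ hz _ hq
    · rw [Subgroup.mem_subgroupOf] at hz hq
      have h3 : (z : A) ≠ 1 := fun h => hz1 (Subtype.ext h)
      have h4 : (z : A) * q = q * z := congrArg Subtype.val hc
      exact Subtype.ext (hb _ hz h3 _ hq (by rw [h4, mul_inv_cancel_right]))
  obtain ⟨ha1, hb1⟩ := hF h1
  obtain ⟨ha2, hb2⟩ := hF h2
  have key := frob_trick ρ (Z.subgroupOf G) (Q₁.subgroupOf G) (Q₂.subgroupOf G) ha1 hb1 ha2 hb2
    (by rw [← Subgroup.subgroupOf_sup hQ1 hQ2, hgen, Subgroup.subgroupOf_self]) h0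
  rw [Nat.card_congr (Subgroup.subgroupOfEquivOfLe hZG).toEquiv, Module.finrank_fintype_fun_eq_card,
    Fintype.card_fin] at key
  have h3 : Z.subgroupOf G ≤ Subgroup.zpowers (⟨y, hy⟩ : G) := by
    intro z hz
    rw [Subgroup.mem_subgroupOf] at hz
    obtain ⟨k, hk⟩ := Subgroup.mem_zpowers_iff.1 (hZ hz)
    exact Subgroup.mem_zpowers_iff.2 ⟨k, Subtype.ext (by simpa using hk)⟩
  have h4 : finrank ℂ (fixd ρ (Subgroup.zpowers (⟨y, hy⟩ : G))) ≤ finrank ℂ (fixd ρ (Z.subgroupOf G)) :=
    Submodule.finrank_mono (fixd_anti ρ h3)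
  have h5 : M * finrank ℂ (fixd ρ (Subgroup.zpowers (⟨y, hy⟩ : G))) ≤ 2 * n :=
    (Nat.mul_le_mul hM h4).trans key
  have h6 : (M : ℝ) * finrank ℂ (fixd ρ (Subgroup.zpowers (⟨y, hy⟩ : G))) ≤ 2 * n := by exact_mod_cast h5
  exact (mul_le_mul_of_nonneg_right hR (Nat.cast_nonneg _)).trans h6

section

variable {F V : Type} [Field F] [Finite F] [AddCommGroup V] [Module F V] [Module.Finite F V]

theorem finite_glV : Finite (V ≃ₗ[F] V) := by
  have : Finite V := Module.finite_of_finite F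
  exact Finite.of_injective (fun φ : V ≃ₗ[F] V => (φ : V → V)) DFunLike.coe_injective

theorem Opp.symm {Φ : Frm F V} {A A' C : Submodule F V} (h : Opp Φ A A' C) : Opp Φ A' A C :=
  ⟨h.ti', h.ti, h.dim.symm, h.disj.symm, by rw [sup_comm]; exact h.compl, h.perp_eq', h.perp_eq⟩

/-- isometries which stabilise `A` normalise the radical -/
theorem rad_conj {Φ : Frm F V} {A : Submodule F V} {z g : V ≃ₗ[F] V} (hz : z ∈ Φ.Iso) (h : _root_.Cfsg.Agent.H847.Bs.Inv z A) (h' : _root_.Cfsg.Agent.H847.Bs.Inv z⁻¹ A)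
    (hg : g ∈ RadG Φ A) : z * g * z⁻¹ ∈ RadG Φ A := by
  obtain ⟨hg0, hg1, hg2, hg3⟩ := hg
  have hzi : ∀ x, z (z⁻¹ x) = x := fun x => z.apply_symm_apply x
  have hzi' : ∀ x, z⁻¹ (z x) = x := fun x => z.symm_apply_apply x
  have hp : ∀ x ∈ perp Φ A, z x ∈ perp Φ A := by
    intro x hx a ha
    have h1 := hx (z⁻¹ a) (h' a ha)
    rw [← hz.1, hzi] at h1
    exact h1
  have hp' : ∀ x ∈ perp Φ A, z⁻¹ x ∈ perp Φ A := by
    intro x hx a ha
    have h1 := hx (z a) (h a ha)
    rw [← hzi x, hz.1] at h1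
    exact h1
  have e : ∀ x, (z * g * z⁻¹) x - x = z (g (z⁻¹ x) - z⁻¹ x) := by
    intro x
    rw [map_sub, hzi]
    rfl
  refine ⟨mul_mem (mul_mem hz hg0) (inv_mem hz), fun x => ?_, fun x hx => ?_, fun a ha => ?_⟩
  · rw [e]
    exact hp _ (hg1 _)
  · rw [e]
    exact h _ (hg2 _ (hp' x hx))
  · show z (g (z⁻¹ a)) = a
    rw [hg3 _ (h' a ha), hzi]

/-- groups of isometries -/
theorem mix_form (h14 : L14) (h15 : L15) {Φ : Frm F V} {G : Subgroup (V ≃ₗ[F] V)} (hG : G ≤ Φ.Iso) {e M : ℕ}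
    (hΦ : Cls Φ e) (hM : 2 ≤ M)
    (hgen : ∀ A A' C : Submodule F V, finrank F A = e → Opp Φ A A' C → (G ⊓ RadG Φ A) ⊔ (G ⊓ RadG Φ A') = G)
    {y : V ≃ₗ[F] V} (hy : y ∈ G) {A : Submodule F V} (h : Gd Φ.TI e M y A) {R : ℝ} (hR : R ≤ M) :
    MixY R (⟨y, hy⟩ : G) := by
  have : Finite (V ≃ₗ[F] V) := finite_glV
  obtain ⟨Z, A', C, hZ, hZM, hO, hZ1, hZ2⟩ := h14 F V Φ e M hΦ hM y (hG hy) A h
  have hZG : ∀ z ∈ Z, z ∈ G := fun z hz => by
    have := hZ hz
    rw [Subgroup.mem_zpowers_iff] at this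
    obtain ⟨k, rfl⟩ := this
    exact zpow_mem hy k
  have hf1 : Free Z (G ⊓ RadG Φ A) := by
    refine ⟨fun z hz g hg => ?_, fun z hz hz1 g hg hc => ?_⟩
    · exact Subgroup.mem_inf.2 ⟨G.mul_mem (G.mul_mem (hZG z hz) hg.1) (G.inv_mem (hZG z hz)),
        rad_conj (hG (hZG z hz)) (hZ1 z hz).2.1 (hZ1 z⁻¹ (inv_mem hz)).2.1 hg.2⟩
    · obtain ⟨h1, h2, h3, h4, h5⟩ := hZ2 z hz hz1
      exact h15 F V Φ e A A' C hΦ h.dim hO z (hG (hZG z hz)) (hZ1 z hz).1 (hZ1 z hz).2.1 (hZ1 z hz).2.2 h1 h2 h3 h4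
        h5 g hg.2 hc
  have hf2 : Free Z (G ⊓ RadG Φ A') := by
    refine ⟨fun z hz g hg => ?_, fun z hz hz1 g hg hc => ?_⟩
    · exact Subgroup.mem_inf.2 ⟨G.mul_mem (G.mul_mem (hZG z hz) hg.1) (G.inv_mem (hZG z hz)),
        rad_conj (hG (hZG z hz)) (hZ1 z hz).2.2 (hZ1 z⁻¹ (inv_mem hz)).2.2 hg.2⟩
    · obtain ⟨h1, h2, h3, h4, h5⟩ := hZ2 z hz hz1
      exact h15 F V Φ e A' A C hΦ (by rw [← hO.dim]; exact h.dim) hO.symm z (hG (hZG z hz)) (hZ1 z hz).1
        (hZ1 z hz).2.2 (hZ1 z hz).2.1 h3 h4 h1 h2 h5 g hg.2 hc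
  exact mixY_of_free hy hZ hZM hf1 hf2 (hgen A A' C h.dim hO) hR

end

end Cfsg.Agent.H50.RG
end

-- part: H50/RG/Fin
section
/-!
# S5714, layer L: the results `LSL`, `LSp`, `LSU`, `LOm` from the pieces
-/

set_option autoImplicit false
set_option linter.unusedSectionVars false

namespace Cfsg.Agent.H50.RG

open Module Cfsg.Agent.H847.Bs Cfsg.Agent.LieClassical.OrthCore
open Cfsg.Agent.H440.Bs (perp mem_perp)

theorem num_fin {ε n₀ N S η : ℝ} (hε : 0 < ε) (hn : 0 ≤ n₀) (hN : 0 ≤ N) (_hη0 : 0 ≤ η) (hη1 : η ≤ 1 / 2)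
    (hη : 16 * η ≤ ε) (hS : 16 / ε ≤ S) (h : n₀ * ((1 - η) * S) ^ 2 ≤ N * (2 * S + 2 * η * S ^ 2)) : n₀ ≤ ε * N := by
  have hS0 : 0 < S := lt_of_lt_of_le (by positivity) hS
  rw [div_le_iff₀ hε] at hS
  have h1 : n₀ * (S ^ 2 / 4) ≤ n₀ * ((1 - η) * S) ^ 2 := by
    refine mul_le_mul_of_nonneg_left ?_ hn
    have h2 : (1 / 2) * S ≤ (1 - η) * S := by nlinarith only [hε, hη1, hS]
    have h3 := pow_le_pow_left₀ (by positivity) h2 2
    calc S ^ 2 / 4 = (1 / 2 * S) ^ 2 := by ring
      _ ≤ _ := h3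
  have h2 : N * (2 * S + 2 * η * S ^ 2) ≤ N * (ε * S ^ 2 / 4) := by
    refine mul_le_mul_of_nonneg_left ?_ hN
    have h3 : 2 * S ≤ ε * S ^ 2 / 8 := by nlinarith only [hε, hS]
    have h4 : 2 * η * S ^ 2 ≤ ε * S ^ 2 / 8 := by
      have : 0 ≤ S ^ 2 := sq_nonneg S
      nlinarith only [hη]
    linarith
  have h3 : (S ^ 2 / 4) * n₀ ≤ (S ^ 2 / 4) * (ε * N) := by linarith
  exact le_of_mul_le_mul_left h3 (by positivity)

/-- the common part: `k₀` is the bound for the frames, `par` the parity -/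
theorem common (h02 : L02) (h03 : L03) (h20 : L20) (ε : ℝ) (C par : ℕ) (hε : 0 < ε) : ∃ N₀ : ℕ,
    ∀ (F V : Type) [Field F] [Finite F] [AddCommGroup V] [Module F V] [Module.Finite F V]
    (G : Subgroup (V ≃ₗ[F] V)) (TS : Submodule F V → Prop) (k₀ : ℕ), N₀ ≤ finrank F V → k₀ ≤ finrank F V →
    (finrank F V - 3) / 2 ≤ k₀ →
    (∀ A B, A ≤ B → TS B → TS A) → FT G TS k₀ → (∃ A, TS A ∧ finrank F A = k₀) →
    (∀ g ∈ G, ∀ A, TS A → TS (A.map (g : V →ₗ[F] V))) →
    (∀ y ∈ G, ∀ A A', TS A → TS A' → Irr y A → Irr y A' → finrank F A ≠ finrank F A' →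
      finrank F A + finrank F A' < finrank F V → TS (A ⊔ A')) →
    (∀ e M, 3 ≤ e → e % 2 = par % 2 → 2 * e < finrank F V → 2 ≤ M → ∀ y ∈ G, ∀ s : Finset (Submodule F V),
      (∀ A ∈ s, Gd TS e M y A) → s.card ≤ 2) →
    (∀ e, ¬ e ∣ (finrank F V - 1) / 2 → ¬ e ∣ (finrank F V + 1) / 2 → ∀ B, TS B → e ∣ finrank F B →
      finrank F B ≤ k₀) →
    (∀ e M, 3 ≤ e → e % 2 = par % 2 → 4 * e + 8 ≤ finrank F V → ¬ e ∣ finrank F V → 2 ≤ M →
      ∀ (y : V ≃ₗ[F] V) (hy : y ∈ G) (A : Submodule F V), Gd TS e M y A → ∀ R : ℝ, R ≤ M → MixY R (⟨y, hy⟩ : G)) →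
    (Nat.card {y : G // ¬ MixY (((finrank F V : ℝ) ^ 2 * Real.log (Nat.card F)) ^ C) y} : ℝ) ≤ ε * Nat.card G := by
  set η : ℝ := min (1 / 2) (ε / 16) with hηdef
  have hη0 : 0 < η := by positivity
  obtain ⟨N₀, hN₀⟩ := h20 (16 / ε) η C par hη0
  refine ⟨N₀, fun F V _ _ _ _ _ G TS k₀ hn hk1 hk2 hh hFT hex hT hH1 hH2 hH3 hmix => ?_⟩
  have hfin : Finite (V ≃ₗ[F] V) := finite_glV
  have hq : 2 ≤ Nat.card F := Finite.one_lt_card
  obtain ⟨I, M, hM2, hRM, hI, hK⟩ := hN₀ (finrank F V) (Nat.card F) hn hq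
  set x : ℕ → ℝ := fun e => (Nat.card {g : GL (Fin e) F // IrrM F g ∧ BigM F e M g} : ℝ) / Nat.card (GL (Fin e) F)
    with hx
  have hGL : ∀ e, (0 : ℝ) < Nat.card (GL (Fin e) F) := fun e => by exact_mod_cast Nat.card_pos
  have h1 := l01 F V G TS k₀ M I x η hh hFT hex hT
    (fun e he => by
      obtain ⟨a1, a2, a3, -⟩ := hI e he
      (clear * - hk2 a1 a3; omega))
    (fun e he e' he' hne y hy A A' hA hA' hi hi' hd hd' => hH1 y hy A A' hA hA' hi hi' (by omega) (by
      obtain ⟨a1, a2, a3, -⟩ := hI e he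
      obtain ⟨b1, b2, b3, -⟩ := hI e' he'
      (clear * - hd hd' a3 b3; omega)))
    (fun e he y hy s hs => by
      obtain ⟨a1, a2, a3, -⟩ := hI e he
      exact hH2 e M a1 a2 (by omega) hM2 y hy s hs)
    (fun e he B hB hdiv => by
      obtain ⟨a1, a2, a3, a4, a5, a6, -⟩ := hI e he
      exact hH3 e a5 a6 B hB hdiv)
    (fun d hd => h02 F d hd)
    (fun e he => by
      rw [hx]
      exact div_mul_cancel₀ _ (hGL e).ne')
    hη0.le
    (fun e he => by
      obtain ⟨a1, a2, a3, a4, a5, a6, a7, a8⟩ := hI e he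
      refine le_trans (Finset.sum_le_sum_of_subset_of_nonneg (Finset.range_mono hk1) fun i _ _ => ?_) a8
      (clear * - a1; positivity))
    ((min_le_left _ _).trans (by norm_num))
  have hS : 16 / ε ≤ ∑ e ∈ I, x e := by
    refine hK.trans (Finset.sum_le_sum fun e he => ?_)
    obtain ⟨a1, a2, a3, a4, a5, a6, a7, a8⟩ := hI e he
    have h2 := h03 F e M a1 hM2 a7
    have h3 : (Nat.card (GL (Fin e) F) : ℝ) ≤ 2 * e * Nat.card {g : GL (Fin e) F // IrrM F g ∧ BigM F e M g} := by
      exact_mod_cast h2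
    have he0 : (0 : ℝ) < e := by exact_mod_cast (show 0 < e by omega)
    rw [hx]
    rw [div_le_div_iff₀ (by positivity) (hGL e)]
    linarith only [h3]
  have h2 := num_fin hε (Nat.cast_nonneg _) (Nat.cast_nonneg _) hη0.le (min_le_left _ _) (by
    have : η ≤ ε / 16 := min_le_right _ _
    linarith only [this]) hS h1
  refine le_trans ?_ h2
  have h3 : Nat.card {y : G // ¬ MixY (((finrank F V : ℝ) ^ 2 * Real.log (Nat.card F)) ^ C) y} ≤ noG G TS M I := by
    unfold noG
    refine Nat.card_le_card_of_injective (fun y => ⟨y.1.1, y.1.2, ?_⟩) fun y y' h => ?_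
    · rintro ⟨e, he, A, hA⟩
      obtain ⟨a1, a2, a3, a4, a5, a6, a7, a8⟩ := hI e he
      exact y.2 (hmix e M a1 a2 a3 a4 hM2 y.1.1 y.1.2 A hA _ hRM)
    · have h4 : (y.1 : V ≃ₗ[F] V) = y'.1 := congrArg
        (fun z : {y : V ≃ₗ[F] V // y ∈ G ∧ ¬ ∃ e ∈ I, ∃ A, Gd TS e M y A} => z.1) h
      exact Subtype.ext (Subtype.ext h4)
  exact_mod_cast h3

/-! ### linear groups -/

theorem exists_sub {F V : Type} [Field F] [AddCommGroup V] [Module F V] [Module.Finite F V] {k : ℕ}
    (hk : k ≤ finrank F V) : ∃ A : Submodule F V, finrank F A = k := by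
  let b := finBasis F V
  refine ⟨Submodule.span F (Set.range (b ∘ Fin.castLE hk)), ?_⟩
  rw [finrank_span_eq_card (b.linearIndependent.comp _ (Fin.castLE_injective hk)), Fintype.card_fin]

/-! ### groups of isometries -/

section

variable {F V : Type} [Field F] [Finite F] [AddCommGroup V] [Module F V] [Module.Finite F V]

theorem ti_map {Φ : Frm F V} {g : V ≃ₗ[F] V} (hg : g ∈ Φ.Iso) {A : Submodule F V} (hA : Φ.TI A) :
    Φ.TI (A.map (g : V →ₗ[F] V)) := by
  constructor
  · rintro _ ⟨x, hx, rfl⟩ _ ⟨x', hx', rfl⟩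
    exact (hg.1 x x').trans (hA.1 x hx x' hx')
  · rintro _ ⟨x, hx, rfl⟩
    exact (hg.2 x).trans (hA.2 x hx)

theorem ti_mono {Φ : Frm F V} {A B : Submodule F V} (h : A ≤ B) (hB : Φ.TI B) : Φ.TI A :=
  ⟨fun x hx y hy => hB.1 x (h hx) y (h hy), fun x hx => hB.2 x (h hx)⟩

end

/-- the common part for the groups of isometries -/
theorem common_form (h02 : L02) (h03 : L03) (h08 : L08) (h09 : L09) (h11 : L11) (h14 : L14) (h15 : L15) (h20 : L20)
    (ε : ℝ) (C par : ℕ) (hε : 0 < ε) : ∃ N₀ : ℕ,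
    ∀ (F V : Type) [Field F] [Finite F] [AddCommGroup V] [Module F V] [Module.Finite F V] (Φ : Frm F V)
    (G : Subgroup (V ≃ₗ[F] V)), N₀ ≤ finrank F V → G ≤ Φ.Iso →
    (IsSp Φ ∨ (∃ r, IsHerm r Φ) ∨ (∃ Q : QuadraticForm F V, (frmQ Q).Nd ∧ Φ = frmQ Q)) →
    (∀ e, 3 ≤ e → e % 2 = par % 2 → Cls Φ e) →
    (∀ k₀, 2 * k₀ + 3 ≤ finrank F V → FT G Φ.TI k₀) →
    (∀ A A' C : Submodule F V, 3 ≤ finrank F A → 4 * finrank F A + 8 ≤ finrank F V → Opp Φ A A' C → C ≠ ⊥ →
      (G ⊓ RadG Φ A) ⊔ (G ⊓ RadG Φ A') = G) →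
    (Nat.card {y : G // ¬ MixY (((finrank F V : ℝ) ^ 2 * Real.log (Nat.card F)) ^ C) y} : ℝ) ≤ ε * Nat.card G := by
  obtain ⟨N₀, h⟩ := common h02 h03 h20 ε C par hε
  refine ⟨N₀ + 10, fun F V _ _ _ _ _ Φ G hn hG hty hcls hFT hgen => ?_⟩
  have hNd : Φ.Nd := (hcls (3 + (par + 1) % 2) (by omega) (by omega)).1
  obtain ⟨hex, hbd⟩ := h08 F V Φ hty
  refine h F V G Φ.TI ((finrank F V - 3) / 2) (by omega) (by omega) le_rfl (fun A B hAB hB => ti_mono hAB hB)
    (hFT _ (by omega)) (hex _ (by omega)) (fun g hg A hA => ti_map (hG hg) hA) ?_ ?_ ?_ ?_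
  · intro y hy A A' hA hA' hi hi' hne _
    exact h09 F V Φ hNd y (hG hy) A A' hA hA' hi hi' hne
  · intro e M he hpar _ hM y hy s hs
    exact h11 F V Φ e M (hcls e he hpar) hM y (hG hy) s hs
  · intro e h1 h2 B hB hdiv
    have h3 := hbd B hB
    by_contra hlt
    have h4 : finrank F B = (finrank F V - 1) / 2 ∨ finrank F B = (finrank F V + 1) / 2 := by omega
    rcases h4 with h4 | h4
    · exact h1 (h4 ▸ hdiv)
    · exact h2 (h4 ▸ hdiv)
  · intro e M he hpar hle _ hM y hy A hA R hR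
    refine mix_form h14 h15 hG (hcls e he hpar) hM (fun A A' C hd hO => hgen A A' C (by omega) (by omega) hO ?_) hy hA hR
    rintro rfl
    have h1 : A ⊔ A' = ⊤ := by simpa only [_root_.bot_le, _root_.sup_of_le_left] using hO.compl.codisjoint.eq_top
    have h2 := Submodule.finrank_add_le_finrank_add_finrank A A'
    rw [h1, finrank_top, ← hO.dim] at h2
    omega

end Cfsg.Agent.H50.RG
end
end

-- part: H127/RG/L13
section
prune_inst 0x156031455ac000080018a516c02000155c000500000084002c270d4209096222a9c3a8400d80251d4a328081080500081310003000400000040004000001010010e8120431500c0842009e000104000000000000000000000000000000030000000000000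
set_option linter.all false
open scoped Cfsg.Agent.FastGrp

-- part: H127/RG/Zpart
section
/-!
# S5714, RG-L23, RG-L24, RG-L13: a cyclic group acting freely on two opposite unipotent radicals
-/

set_option autoImplicit false

namespace Cfsg.Agent.H127.RG

open Module Cfsg.Agent.H847.Bs Cfsg.Agent.H50.RG

/-- the part of `N` for the primes dividing `m` -/
theorem exists_split (m : ℕ) : ∀ N : ℕ, N ≠ 0 →
    ∃ a b : ℕ, N = a * b ∧ Nat.Coprime m b ∧ ∀ r : ℕ, r.Prime → r ∣ a → r ∣ m := by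
  intro N
  induction N using Nat.strong_induction_on with
  | _ N ih =>
    intro hN
    by_cases h : Nat.Coprime m N
    · exact ⟨1, N, by simp, h, fun r hr h1 => absurd (Nat.dvd_one.1 h1) hr.one_lt.ne'⟩
    · obtain ⟨r, hr, h1, h2⟩ := Nat.Prime.not_coprime_iff_dvd.1 h
      obtain ⟨N', rfl⟩ := h2
      have h3 : N' ≠ 0 := fun h0 => hN (by rw [h0, mul_zero])
      have h4 : N' < r * N' := by
        have := hr.one_lt
        have h5 : 0 < N' := Nat.pos_of_ne_zero h3
        nlinarith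
      obtain ⟨a, b, h5, h6, h7⟩ := ih N' h4 h3
      refine ⟨r * a, b, by rw [mul_assoc, ← h5], h6, ?_⟩
      intro s hs h8
      rcases (Nat.Prime.dvd_mul hs).1 h8 with h9 | h9
      · rwa [(Nat.prime_dvd_prime_iff_eq hs hr).1 h9]
      · exact h7 s hs h9

/-- in a group: an element `x` of finite order outside `H` has a power of prime power order outside `H` -/
theorem exists_prime_part {G : Type*} [Group G] {x : G} (hx : orderOf x ≠ 0) {H : Subgroup G} (h : x ∉ H) :
    ∃ r k j : ℕ, r.Prime ∧ r ∣ orderOf x ∧ (x ^ j) ^ r ^ k = 1 ∧ x ^ j ∉ H := by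
  classical
  have hex : ∃ j : ℕ, 0 < j ∧ x ^ j ∈ H := ⟨orderOf x, Nat.pos_of_ne_zero hx, by
    rw [pow_orderOf_eq_one]; exact one_mem _⟩
  set o := Nat.find hex with ho
  obtain ⟨ho1, ho2⟩ := Nat.find_spec hex
  rw [← ho] at ho1 ho2
  have hdvd : ∀ j : ℕ, x ^ j ∈ H → o ∣ j := by
    intro j hj
    have h1 : x ^ (j % o) ∈ H := by
      have h2 : x ^ j = (x ^ o) ^ (j / o) * x ^ (j % o) := by
        rw [← pow_mul, ← pow_add, Nat.div_add_mod]
      rw [h2] at hj
      exact (Subgroup.mul_mem_cancel_left H (pow_mem ho2 _)).1 hj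
    by_contra h3
    have h4 : 0 < j % o := Nat.pos_of_ne_zero fun h5 => h3 (Nat.dvd_of_mod_eq_zero h5)
    exact Nat.find_min hex (Nat.mod_lt j ho1) ⟨h4, h1⟩
  have ho3 : o ≠ 1 := fun h1 => h (by rw [h1, pow_one] at ho2; exact ho2)
  have hr := Nat.minFac_prime ho3
  obtain ⟨k, b, hb, hk⟩ := Nat.exists_eq_pow_mul_and_not_dvd hx o.minFac hr.ne_one
  refine ⟨o.minFac, k, b, hr, (Nat.minFac_dvd o).trans (hdvd _ (by
    rw [pow_orderOf_eq_one]; exact one_mem _)), ?_, ?_⟩
  · rw [← pow_mul, mul_comm, ← hk, pow_orderOf_eq_one]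
  · intro h1
    exact hb ((Nat.minFac_dvd o).trans (hdvd b h1))

section

variable {F V : Type*} [Field F] [AddCommGroup V] [Module F V]

theorem Inv.pow {y : V ≃ₗ[F] V} {A : Submodule F V} (h : _root_.Cfsg.Agent.H847.Bs.Inv y A) (j : ℕ) : _root_.Cfsg.Agent.H847.Bs.Inv (y ^ j) A := by
  induction j with
  | zero => intro v hv; exact hv
  | succ j ih =>
    intro v hv
    rw [pow_succ]
    exact ih _ (h v hv)

theorem Inv.of_zpowers [Finite (V ≃ₗ[F] V)] {y z : V ≃ₗ[F] V} {A : Submodule F V} (h : _root_.Cfsg.Agent.H847.Bs.Inv y A)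
    (hz : z ∈ Subgroup.zpowers y) : _root_.Cfsg.Agent.H847.Bs.Inv z A := by
  obtain ⟨j, rfl⟩ := (isOfFinOrder_of_finite y).mem_powers_iff_mem_zpowers.2 hz
  exact Inv.pow h j

theorem comm_of_zpowers {y z : V ≃ₗ[F] V} (hz : z ∈ Subgroup.zpowers y) (v : V) : z (y v) = y (z v) := by
  obtain ⟨j, rfl⟩ := hz
  have h : y ^ j * y = y * y ^ j := (Commute.refl y).zpow_left j |>.eq
  exact congrArg (fun g : V ≃ₗ[F] V => g v) h

/-- a nontrivial power of `y` has no nonzero fixed point on an irreducible section `B / A` -/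
theorem fix_quot {y z : V ≃ₗ[F] V} (hz : z ∈ Subgroup.zpowers y) {A B : Submodule F V} (hA : _root_.Cfsg.Agent.H847.Bs.Inv y A)
    (hB : _root_.Cfsg.Agent.H847.Bs.Inv y B) (hAB : A ≤ B) (hmin : ∀ C, _root_.Cfsg.Agent.H847.Bs.Inv y C → A ≤ C → C ≤ B → C = A ∨ C = B)
    (hzA : _root_.Cfsg.Agent.H847.Bs.Inv z A) (hn : ¬ ∀ b ∈ B, z b - b ∈ A) : ∀ b ∈ B, z b - b ∈ A → b ∈ A := by
  set C : Submodule F V := B ⊓ A.comap ((z : V →ₗ[F] V) - LinearMap.id) with hC
  have hmem : ∀ v, v ∈ C ↔ v ∈ B ∧ z v - v ∈ A := fun v => Iff.rfl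
  have h1 : _root_.Cfsg.Agent.H847.Bs.Inv y C := by
    intro v hv
    rw [hmem] at hv ⊢
    refine ⟨hB v hv.1, ?_⟩
    rw [comm_of_zpowers hz, ← map_sub]
    exact hA _ hv.2
  have h2 : A ≤ C := fun a ha => (hmem a).2 ⟨hAB ha, A.sub_mem (hzA a ha) ha⟩
  rcases hmin C h1 h2 inf_le_left with h3 | h3
  · intro b hb hzb
    rw [← h3]
    exact (hmem b).2 ⟨hb, hzb⟩
  · exact absurd (fun b hb => ((hmem b).1 (h3 ▸ hb)).2) hn

theorem fix_bot {y z : V ≃ₗ[F] V} (hz : z ∈ Subgroup.zpowers y) {A : Submodule F V} (hA : Irr y A)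
    (hn : ¬ ∀ a ∈ A, z a = a) : ∀ a ∈ A, z a = a → a = 0 := by
  intro a ha hza
  have h := fix_quot hz (A := ⊥) (B := A) (fun v hv => by
    rw [Submodule.mem_bot] at hv ⊢; rw [hv, map_zero]) hA.inv bot_le (fun C hC _ h2 => hA.min C h2 hC)
    (fun v hv => by rw [Submodule.mem_bot] at hv ⊢; rw [hv, map_zero])
    (fun h => hn fun b hb => sub_eq_zero.1 ((Submodule.mem_bot F).1 (h b hb))) a ha
    (by rw [hza, sub_self]; exact Submodule.zero_mem _)
  exact (Submodule.mem_bot F).1 h

variable [Finite F] [Module.Finite F V]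

/-- a linear map of `r`-power order without fixed points in `B` outside `A` -/
theorem card_modEq {r k : ℕ} [Fact r.Prime] {z : V ≃ₗ[F] V} (hz : z ^ r ^ k = 1) {A B : Submodule F V}
    (hAB : A ≤ B) (hA : _root_.Cfsg.Agent.H847.Bs.Inv z A) (hB : _root_.Cfsg.Agent.H847.Bs.Inv z B) (hf : ∀ b ∈ B, z b = b → b ∈ A) :
    Nat.card B ≡ Nat.card A [MOD r] := by
  classical
  have hfin : Finite V := Module.finite_of_finite F
  have key : ∀ (S : Submodule F V) (hS : _root_.Cfsg.Agent.H847.Bs.Inv z S),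
      Nat.card S ≡ Nat.card {v : V // v ∈ S ∧ z v = v} [MOD r] := by
    intro S hS
    have : Fintype S := Fintype.ofFinite S
    let f : Function.End S := fun v => ⟨z v, hS v v.2⟩
    have hfv : ∀ v : S, ((f v : S) : V) = z v := fun v => rfl
    have hfp : ∀ (n : ℕ) (v : S), (((f ^ n : Function.End S) v : S) : V) = (z ^ n) v := by
      intro n
      induction n with
      | zero => intro v; rfl
      | succ n ih =>
        intro v
        rw [pow_succ, pow_succ]
        exact ih (f v)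
    have h1 : f ^ r ^ k = 1 := by
      funext v
      apply Subtype.ext
      rw [hfp, hz]
      rfl
    have h2 := Equiv.Perm.card_fixedPoints_modEq h1
    rw [Nat.card_eq_fintype_card]
    refine h2.trans ?_
    rw [← Nat.card_eq_fintype_card]
    apply Nat.ModEq.symm
    have h3 : Nat.card {v : V // v ∈ S ∧ z v = v} = Nat.card (Function.fixedPoints f) := by
      refine Nat.card_congr
        { toFun := fun v => ⟨⟨v.1, v.2.1⟩, Subtype.ext v.2.2⟩
          invFun := fun v => ⟨v.1.1, v.1.2, congrArg Subtype.val v.2⟩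
          left_inv := fun v => rfl
          right_inv := fun v => rfl }
    rw [h3]
  have h4 : Nat.card {v : V // v ∈ B ∧ z v = v} = Nat.card {v : V // v ∈ A ∧ z v = v} := by
    congr 1
    congr 1
    funext v
    apply propext
    constructor
    · rintro ⟨h1, h2⟩
      exact ⟨hf v h1 h2, h2⟩
    · rintro ⟨h1, h2⟩
      exact ⟨hAB h1, h2⟩
  exact (key B hB).trans (h4 ▸ (key A hA).symm)

theorem dvd_sub_of {e r k : ℕ} (he : 2 ≤ e) (hr : r.Prime) (hord : orderOf ((Nat.card F : ℕ) : ZMod r) = e)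
    {z : V ≃ₗ[F] V} (hz : z ^ r ^ k = 1) {A B : Submodule F V}
    (hAB : A ≤ B) (hA : _root_.Cfsg.Agent.H847.Bs.Inv z A) (hB : _root_.Cfsg.Agent.H847.Bs.Inv z B) (hf : ∀ b ∈ B, z b = b → b ∈ A) :
    e ∣ finrank F B - finrank F A := by
  have : Fact r.Prime := ⟨hr⟩
  have h1 := card_modEq hz hAB hA hB hf
  rw [Module.natCard_eq_pow_finrank (K := F) (V := B), Module.natCard_eq_pow_finrank (K := F) (V := A)] at h1
  have h2 : finrank F A ≤ finrank F B := Submodule.finrank_mono hAB
  have h3 : ((Nat.card F : ℕ) : ZMod r) ^ finrank F B = ((Nat.card F : ℕ) : ZMod r) ^ finrank F A := by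
    have := (ZMod.natCast_eq_natCast_iff _ _ _).2 h1
    push_cast at this
    exact this
  have h0 : ((Nat.card F : ℕ) : ZMod r) ≠ 0 := by
    intro h0
    rw [h0, orderOf_zero] at hord
    omega
  have h4 : ((Nat.card F : ℕ) : ZMod r) ^ (finrank F B - finrank F A) = 1 := by
    have h5 : ((Nat.card F : ℕ) : ZMod r) ^ finrank F B =
        ((Nat.card F : ℕ) : ZMod r) ^ (finrank F B - finrank F A) * ((Nat.card F : ℕ) : ZMod r) ^ finrank F A := by
      rw [← pow_add, Nat.sub_add_cancel h2]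
    rw [h5] at h3
    exact mul_right_cancel₀ (pow_ne_zero _ h0) (by rw [h3, one_mul])
  rw [← hord]
  exact orderOf_dvd_of_pow_eq_one h4

/-- the part `z` of `y` for the primes `r` with `ord_r(q) = e` -/
theorem exists_gen {e M : ℕ} {y : V ≃ₗ[F] V} {A : Submodule F V} (hM : 2 ≤ M) (h : BigOn e M y A) :
    ∃ z ∈ Subgroup.zpowers y, M ≤ orderOf z ∧
      (∀ r : ℕ, r.Prime → r ∣ orderOf z → orderOf ((Nat.card F : ℕ) : ZMod r) = e) ∧ ¬ ∀ a ∈ A, z a = a := by
  have hfV : Finite V := Module.finite_of_finite F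
  have hfG : Finite (V ≃ₗ[F] V) := Finite.of_injective (fun g : V ≃ₗ[F] V => (g : V → V)) DFunLike.coe_injective
  obtain ⟨m, hm, hpr, hk⟩ := h
  have hN : orderOf y ≠ 0 := (orderOf_pos y).ne'
  have hmN : m ∣ orderOf y := hk _ (fun a _ => by rw [pow_orderOf_eq_one]; rfl)
  obtain ⟨a, b, hab, hcop, hpa⟩ := exists_split m _ hN
  have ha0 : a ≠ 0 := fun h0 => hN (by rw [hab, h0, zero_mul])
  have hb0 : b ≠ 0 := fun h0 => hN (by rw [hab, h0, mul_zero])
  have hord : orderOf (y ^ b) = a := by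
    rw [orderOf_pow_of_dvd hb0 (hab ▸ dvd_mul_left b a), hab, Nat.mul_div_cancel _ (Nat.pos_of_ne_zero hb0)]
  have hma : m ∣ a := by
    rw [hab] at hmN
    exact hcop.dvd_of_dvd_mul_right hmN
  refine ⟨y ^ b, ⟨b, by simp⟩, ?_, ?_, ?_⟩
  · rw [hord]
    exact hm.trans (Nat.le_of_dvd (Nat.pos_of_ne_zero ha0) hma)
  · intro r hr h1
    rw [hord] at h1
    exact hpr r hr (hpa r hr h1)
  · intro h1
    have h2 := hk b h1
    have h3 : m = 1 := Nat.Coprime.eq_one_of_dvd hcop h2
    omega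

end

end Cfsg.Agent.H127.RG
end

-- part: H127/RG/L13
section
/-!
# S5714: RG-L23, RG-L24, RG-L13
-/

set_option autoImplicit false

namespace Cfsg.Agent.H127.RG

open Module Cfsg.Agent.H847.Bs Cfsg.Agent.H50.RG

section

variable {F V : Type*} [Field F] [AddCommGroup V] [Module F V] [Finite F] [Module.Finite F V]

theorem finite_gl (F V : Type*) [Field F] [AddCommGroup V] [Module F V] [Finite F] [Module.Finite F V] :
    Finite (V ≃ₗ[F] V) := by
  have hfV : Finite V := Module.finite_of_finite F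
  exact Finite.of_injective (fun g : V ≃ₗ[F] V => (g : V → V)) DFunLike.coe_injective

/-- a stronger form of L23: `Z` acts nontrivially on `A` -/
theorem l23' {e M : ℕ} {y : V ≃ₗ[F] V} {A : Submodule F V} (hM : 2 ≤ M) (h : BigOn e M y A) :
    ∃ z : V ≃ₗ[F] V, Subgroup.zpowers z ≤ Subgroup.zpowers y ∧ M ≤ Nat.card (Subgroup.zpowers z) ∧
      (∀ w ∈ Subgroup.zpowers z, ∀ r : ℕ, r.Prime → r ∣ orderOf w →
        orderOf ((Nat.card F : ℕ) : ZMod r) = e) ∧ ¬ ∀ a ∈ A, z a = a := by
  obtain ⟨z, h1, h2, h3, h4⟩ := exists_gen hM h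
  refine ⟨z, ?_, ?_, ?_, h4⟩
  · rw [Subgroup.zpowers_le]
    exact h1
  · rw [Nat.card_zpowers]
    exact h2
  · intro w hw r hr hrw
    obtain ⟨j, rfl⟩ := hw
    exact h3 r hr (hrw.trans (orderOf_dvd_of_mem_zpowers ⟨j, rfl⟩))

end

section

variable {F V : Type*} [Field F] [AddCommGroup V] [Module F V] [Finite F] [Module.Finite F V]

theorem exists_pow_prime {z : V ≃ₗ[F] V} {r : ℕ} (hr : r.Prime) (hrz : r ∣ orderOf z) :
    ∃ j : ℕ, (z ^ j) ^ r ^ 1 = 1 ∧ z ^ j ≠ 1 := by
  have hG := finite_gl F V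
  obtain ⟨j, hj⟩ := hrz
  have h0 : orderOf z ≠ 0 := (orderOf_pos z).ne'
  have hj0 : j ≠ 0 := fun h => h0 (by rw [hj, h, mul_zero])
  refine ⟨j, ?_, ?_⟩
  · rw [pow_one, ← pow_mul, mul_comm, ← hj, pow_orderOf_eq_one]
  · intro h1
    have h2 := orderOf_dvd_of_pow_eq_one h1
    rw [hj] at h2
    have h3 := Nat.le_of_dvd (Nat.pos_of_ne_zero hj0) h2
    have h4 := hr.two_le
    have h5 : 0 < j := Nat.pos_of_ne_zero hj0
    nlinarith only [h3, h4, h5]

end

theorem l24 : L24 := by
  intro F X _ _ _ _ _ e r y z he hy hz hr hrz hord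
  have hG := finite_gl F X
  have hbotInv : ∀ w : X ≃ₗ[F] X, _root_.Cfsg.Agent.H847.Bs.Inv w ⊥ := fun w v hv => by
    rw [Submodule.mem_bot] at hv ⊢; rw [hv, map_zero]
  have hfp : ∀ w ∈ Subgroup.zpowers y, w ≠ 1 → ∀ x : X, w x = x → x = 0 := by
    intro w hw hw1 x hx
    refine fix_bot hw hy (fun h => hw1 ?_) x Submodule.mem_top hx
    exact LinearEquiv.ext fun v => h v Submodule.mem_top
  have hz1 : z ≠ 1 := by
    intro h
    rw [h, orderOf_one] at hrz
    exact hr.one_lt.ne' (Nat.dvd_one.1 hrz)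
  obtain ⟨j, hj, hj1⟩ := exists_pow_prime hr hrz
  have hdim : ∀ Y : Submodule F X, _root_.Cfsg.Agent.H847.Bs.Inv z Y → e ∣ finrank F Y := by
    intro Y hY
    have h := dvd_sub_of he hr hord hj (bot_le : ⊥ ≤ Y) (hbotInv _) (Inv.pow hY j)
      (fun b _ hb => by rw [hfp _ (pow_mem hz j) hj1 b hb]; exact Submodule.zero_mem _)
    rwa [finrank_bot, Nat.sub_zero] at h
  have htop := hdim ⊤ (fun _ _ => Submodule.mem_top)
  rw [finrank_top] at htop
  refine ⟨htop, fun hX => ⟨fun _ _ => Submodule.mem_top, hy.ne_bot, ?_⟩, hfp z hz hz1⟩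
  intro Y _ hY
  rcases Nat.eq_zero_or_pos (finrank F Y) with h0 | h0
  · left
    exact Submodule.finrank_eq_zero.1 h0
  · right
    apply Submodule.eq_top_of_finrank_eq
    have h1 := Nat.le_of_dvd h0 (hdim Y hY)
    have h2 := Submodule.finrank_le Y
    omega

section

variable {F V : Type*} [Field F] [AddCommGroup V] [Module F V]

/-- the elements acting trivially on `V / A` -/
def TrQ (A : Submodule F V) : Subgroup (V ≃ₗ[F] V) where
  carrier := {g | ∀ x, g x - x ∈ A}
  mul_mem' := by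
    intro g h hg hh x
    show g (h x) - x ∈ A
    have h1 : g (h x) - x = (g (h x) - h x) + (h x - x) := by abel
    rw [h1]
    exact A.add_mem (hg _) (hh _)
  one_mem' := fun x => by simp
  inv_mem' := by
    intro g hg x
    have h1 := hg (g⁻¹ x)
    have h : g (g⁻¹ x) = x := g.apply_symm_apply x
    rw [h] at h1
    have h2 : g⁻¹ x - x = -(x - g⁻¹ x) := by abel
    rw [h2]
    exact A.neg_mem h1

theorem natCast_ne_zero_of [Finite F] {e r : ℕ} (he : 2 ≤ e) (hr : r.Prime)
    (hord : orderOf ((Nat.card F : ℕ) : ZMod r) = e) : (r : F) ≠ 0 := by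
  intro h
  have : Fact r.Prime := ⟨hr⟩
  have h0 : CharP F r := by
    obtain ⟨p, hp⟩ := CharP.exists F
    have h1 : p ∣ r := (CharP.cast_eq_zero_iff F p r).1 h
    rcases (Nat.dvd_prime hr).1 h1 with h2 | h2
    · subst h2
      have h3 : ((1 : ℕ) : F) = 0 := (CharP.cast_eq_zero_iff F 1 1).2 dvd_rfl
      rw [Nat.cast_one] at h3
      exact absurd h3 one_ne_zero
    · rwa [← h2]
  have hd : r ∣ Nat.card F := by
    have : Fintype F := Fintype.ofFinite F
    obtain ⟨n, _, hn⟩ := FiniteField.card F r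
    rw [Nat.card_eq_fintype_card, hn]
    exact dvd_pow_self r n.ne_zero
  rw [(ZMod.natCast_eq_zero_iff _ _).2 hd, orderOf_zero] at hord
  omega

/-- the average: `b` fixed modulo `A` and `b ∈ A + [V, z]` implies `b ∈ A` -/
theorem mem_of_avg {z : V ≃ₗ[F] V} {n : ℕ} (hz : z ^ n = 1) (hn : (n : F) ≠ 0) {A : Submodule F V}
    (hA : _root_.Cfsg.Agent.H847.Bs.Inv z A) {b : V} (hb : z b - b ∈ A)
    (hbD : ∃ a ∈ A, ∃ v, b = a + (z v - v)) : b ∈ A := by
  obtain ⟨a, ha, v, hv⟩ := hbD
  have h1 : ∀ i : ℕ, (z ^ i) b - b ∈ A := by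
    intro i
    induction i with
    | zero => simp
    | succ i ih =>
      have h2 : (z ^ (i + 1)) b - b = (z ^ i) (z b - b) + ((z ^ i) b - b) := by
        rw [pow_succ, map_sub]
        show (z ^ i) (z b) - b = _
        abel
      rw [h2]
      exact A.add_mem (Inv.pow hA i _ hb) ih
  have h2 : ∑ i ∈ Finset.range n, (z ^ i) b ∈ A := by
    have h3 : ∀ m : ℕ, ∑ i ∈ Finset.range m, (z ^ i) (z v - v) = (z ^ m) v - v := by
      intro m
      induction m with
      | zero => simp only [_root_.Finset.range_zero, _root_.map_sub, _root_.Finset.sum_sub_distrib, _root_.Finset.sum_empty, _root_.sub_self, _root_.pow_zero, _root_.LinearEquiv.coe_one, _root_.id_eq]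
      | succ m ih =>
        rw [Finset.sum_range_succ, ih, pow_succ, map_sub]
        show _ = (z ^ m) (z v) - v
        abel
    have h4 : ∑ i ∈ Finset.range n, (z ^ i) b = ∑ i ∈ Finset.range n, (z ^ i) a + ((z ^ n) v - v) := by
      rw [← h3, ← Finset.sum_add_distrib]
      refine Finset.sum_congr rfl fun i _ => ?_
      rw [hv, map_add]
    rw [h4, hz]
    have h5 : (1 : V ≃ₗ[F] V) v - v = 0 := by simp
    rw [h5, add_zero]
    exact A.sum_mem fun i _ => Inv.pow hA i a ha
  have h3 : (n : F) • b ∈ A := by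
    have h4 : (n : F) • b = ∑ i ∈ Finset.range n, (z ^ i) b - ∑ i ∈ Finset.range n, ((z ^ i) b - b) := by
      rw [← Finset.sum_sub_distrib]
      simp only [_root_.sub_sub_cancel, _root_.Finset.sum_const, _root_.Finset.card_range]
      rw [Nat.cast_smul_eq_nsmul]
    rw [h4]
    exact A.sub_mem h2 (A.sum_mem fun i _ => h1 i)
  have h4 := A.smul_mem (n : F)⁻¹ h3
  rwa [smul_smul, inv_mul_cancel₀ hn, one_smul] at h4

/-- minimal invariant subspaces above `A` inside `D` -/
theorem exists_min [Module.Finite F V] {y : V ≃ₗ[F] V} {A D : Submodule F V} (hD : _root_.Cfsg.Agent.H847.Bs.Inv y D) (hAD : A < D) :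
    ∃ B, _root_.Cfsg.Agent.H847.Bs.Inv y B ∧ A < B ∧ B ≤ D ∧ ∀ C, _root_.Cfsg.Agent.H847.Bs.Inv y C → A ≤ C → C ≤ B → C = A ∨ C = B := by
  classical
  have hex : ∃ n : ℕ, ∃ B : Submodule F V, finrank F B = n ∧ _root_.Cfsg.Agent.H847.Bs.Inv y B ∧ A < B ∧ B ≤ D :=
    ⟨_, D, rfl, hD, hAD, le_rfl⟩
  obtain ⟨B, hB1, hB2, hB3, hB4⟩ := Nat.find_spec hex
  refine ⟨B, hB2, hB3, hB4, fun C hC hAC hCB => ?_⟩
  by_contra hcon
  rw [not_or] at hcon
  have h1 : A < C := lt_of_le_of_ne hAC (Ne.symm hcon.1)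
  have h2 : C < B := lt_of_le_of_ne hCB hcon.2
  have h3 := Submodule.finrank_lt_finrank_of_lt h2
  rw [hB1] at h3
  exact Nat.find_min hex h3 ⟨C, rfl, hC, h1, hCB.trans hB4⟩

/-- a nontrivial action of the part of `y` on `V / A` gives a section of dimension divisible by `e` -/
theorem exists_section [Finite F] [Module.Finite F V] {e : ℕ} (he : 2 ≤ e) {y z : V ≃ₗ[F] V} (hz : z ∈ Subgroup.zpowers y)
    (hpr : ∀ r : ℕ, r.Prime → r ∣ orderOf z → orderOf ((Nat.card F : ℕ) : ZMod r) = e) {A : Submodule F V}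
    (hA : _root_.Cfsg.Agent.H847.Bs.Inv y A) (hn : z ∉ TrQ A) :
    ∃ B, _root_.Cfsg.Agent.H847.Bs.Inv y B ∧ A < B ∧ (∀ C, _root_.Cfsg.Agent.H847.Bs.Inv y C → A ≤ C → C ≤ B → C = A ∨ C = B) ∧
      e ∣ finrank F B - finrank F A := by
  have hG := finite_gl F V
  obtain ⟨r, k, j, hr, hrz, hk, hj⟩ := exists_prime_part (orderOf_pos z).ne' hn
  have hord := hpr r hr hrz
  set w := z ^ j with hw
  have hwy : w ∈ Subgroup.zpowers y := pow_mem hz j
  have hwA : _root_.Cfsg.Agent.H847.Bs.Inv w A := Inv.of_zpowers hA hwy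
  set D : Submodule F V := A ⊔ LinearMap.range ((w : V →ₗ[F] V) - LinearMap.id) with hDdef
  have hDmem : ∀ b, b ∈ D ↔ ∃ a ∈ A, ∃ v, b = a + (w v - v) := by
    intro b
    rw [hDdef, Submodule.mem_sup]
    constructor
    · rintro ⟨a, ha, c, ⟨v, rfl⟩, rfl⟩
      exact ⟨a, ha, v, rfl⟩
    · rintro ⟨a, ha, v, rfl⟩
      exact ⟨a, ha, _, ⟨v, rfl⟩, rfl⟩
  have hD : _root_.Cfsg.Agent.H847.Bs.Inv y D := by
    intro b hb
    rw [hDmem] at hb ⊢
    obtain ⟨a, ha, v, rfl⟩ := hb
    refine ⟨y a, hA a ha, y v, ?_⟩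
    rw [map_add, map_sub, comm_of_zpowers hwy]
  have hAD : A < D := by
    refine lt_of_le_of_ne le_sup_left fun h => hj fun x => ?_
    rw [h, hDmem]
    exact ⟨0, A.zero_mem, x, by rw [zero_add]⟩
  obtain ⟨B, hB1, hB2, hB3, hB4⟩ := exists_min hD hAD
  have hrk : ((r ^ k : ℕ) : F) ≠ 0 := by
    rw [Nat.cast_pow]
    exact pow_ne_zero _ (natCast_ne_zero_of he hr hord)
  have hnB : ¬ ∀ b ∈ B, w b - b ∈ A := by
    intro h
    refine hB2.not_ge fun b hb => ?_
    exact mem_of_avg hk hrk hwA (h b hb) ((hDmem b).1 (hB3 hb))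
  have hfix := fix_quot hwy hA hB1 hB2.le hB4 hwA hnB
  refine ⟨B, hB1, hB2, hB4, ?_⟩
  exact dvd_sub_of he hr hord hk hB2.le hwA (Inv.of_zpowers hB1 hwy)
    (fun b hb hwb => hfix b hb (by rw [hwb, sub_self]; exact A.zero_mem))

end

end Cfsg.Agent.H127.RG
end
end

-- part: H886/BR/Cls
section
prune_inst 0x46010015ae200080018a59473201c731a000002004b8400c5260d0405c8ac4229c30620b990251c1a820045483c0068131000a0424000000e000400011901a0808050028208a10c660089800100000000000000000000000000000000000004000000000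
set_option linter.all false
open scoped Cfsg.Agent.FastGrp

-- part: H110/BR/SZ
section
/-!
# Schwartz-Zippel for finite groups generated by one-parameter groups (helper110, S5715 (SZ))

`sz` : `G` a finite group generated by one-parameter groups `x i : F → G`, `F` a finite subfield of `K` with `q`
elements; `P` a space of functions `G → K`, invariant under the right translations by the `x i t`, such that
`t ↦ f (g * x i t)` is a polynomial of degree `≤ D` in `t` for `f ∈ P`. Then `q * #{g | f g = 0} ≤ D * dim P * |G|` for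
`0 ≠ f ∈ P`.
-/

set_option autoImplicit false
set_option linter.unusedSectionVars false

namespace Cfsg.Agent.H110.BR

section Sz

variable {G K ι : Type*} [Group G] [Finite G] [Field K] (F : Subfield K) [Finite F]

/-- the common zeros -/
def Zer (U : Submodule K (G → K)) : Set G := {g | ∀ f ∈ U, f g = 0}

/-- a nonzero polynomial of degree `≤ D` has at most `D` roots -/
theorem card_roots_le {D : ℕ} {p : Polynomial K} (hp : p ≠ 0) (hdeg : p.natDegree ≤ D) :
    {t : F | p.eval (t : K) = 0}.ncard ≤ D := by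
  classical
  have h1 : (Subtype.val) '' {t : F | p.eval (t : K) = 0} ⊆ (p.roots.toFinset : Set K) := by
    rintro _ ⟨t, ht, rfl⟩
    rw [Finset.mem_coe, Multiset.mem_toFinset, Polynomial.mem_roots hp]
    exact ht
  calc {t : F | p.eval (t : K) = 0}.ncard
      = ((Subtype.val) '' {t : F | p.eval (t : K) = 0}).ncard :=
        (Set.ncard_image_of_injective _ Subtype.val_injective).symm
    _ ≤ (p.roots.toFinset : Set K).ncard := Set.ncard_le_ncard h1 (Finset.finite_toSet _)
    _ = p.roots.toFinset.card := Set.ncard_coe_finset _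
    _ ≤ p.roots.card := Multiset.toFinset_card_le _
    _ ≤ p.natDegree := p.card_roots'
    _ ≤ D := hdeg

/-- the double counting -/
theorem card_bad {u : F → G} (hu : ∀ s t, u (s + t) = u s * u t) {D : ℕ} {f : G → K}
    (hfc : ∀ g, ∃ p : Polynomial K, p.natDegree ≤ D ∧ ∀ t : F, f (g * u t) = p.eval (t : K)) {B : Set G}
    (hB : ∀ g ∈ B, f g = 0 ∧ ∃ t, f (g * u t) ≠ 0) : Nat.card F * B.ncard ≤ D * Nat.card G := by
  classical
  have := Fintype.ofFinite G
  have := Fintype.ofFinite F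
  let s : Finset (F × G) := Finset.univ ×ˢ B.toFinite.toFinset
  have h1 : s.card = Nat.card F * B.ncard := by
    rw [Finset.card_product, Finset.card_univ, Set.ncard_eq_toFinset_card B, Nat.card_eq_fintype_card]
  have h2 : s.card ≤ D * (Finset.univ : Finset G).card := by
    refine Finset.card_le_mul_card_image_of_maps_to (f := fun x : F × G => x.2 * u x.1)
      (fun _ _ => Finset.mem_univ _) D fun h _ => ?_
    by_cases hne : ((s.filter fun x => x.2 * u x.1 = h)).Nonempty
    · obtain ⟨⟨t₀, g₀⟩, h3⟩ := hne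
      rw [Finset.mem_filter, Finset.mem_product, Set.Finite.mem_toFinset] at h3
      obtain ⟨⟨-, h4⟩, h5⟩ := h3
      have h5' : g₀ * u t₀ = h := h5
      obtain ⟨-, t₁, hk⟩ := hB g₀ h4
      obtain ⟨p, hpd, hp⟩ := hfc g₀
      have hp0 : p ≠ 0 := by
        rintro rfl
        rw [hp, Polynomial.eval_zero] at hk
        exact hk rfl
      refine le_trans ?_ (card_roots_le F hp0 hpd)
      rw [← Set.ncard_coe_finset]
      refine Set.ncard_le_ncard_of_injOn (fun x => t₀ - x.1) ?_ ?_ (Set.toFinite _)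
      · rintro ⟨t, g⟩ hx
        rw [Finset.mem_coe, Finset.mem_filter, Finset.mem_product, Set.Finite.mem_toFinset] at hx
        obtain ⟨⟨-, hg⟩, e⟩ := hx
        have e' : g * u t = h := e
        show p.eval ((t₀ - t : F) : K) = 0
        rw [← hp]
        have h7 : g₀ * u (t₀ - t) = g := by
          have h8 : u t₀ = u (t₀ - t) * u t := by rw [← hu, sub_add_cancel]
          rw [← e', h8, ← mul_assoc] at h5'
          exact mul_right_cancel h5'
        rw [h7]
        exact (hB g hg).1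
      · rintro ⟨t, g⟩ hx ⟨t', g'⟩ hx' e
        rw [Finset.mem_coe, Finset.mem_filter] at hx hx'
        have e1 : t = t' := sub_right_injective e
        have e2 : g * u t = g' * u t' := hx.2.trans hx'.2.symm
        rw [e1] at e2
        rw [Prod.mk.injEq]
        exact ⟨e1, mul_right_cancel e2⟩
    · rw [Finset.not_nonempty_iff_eq_empty] at hne
      rw [hne]
      simp
  rw [h1, Finset.card_univ, ← Nat.card_eq_fintype_card (α := G)] at h2
  exact h2

theorem sz_aux {x : ι → F → G} (hx : ∀ i s t, x i (s + t) = x i s * x i t)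
    (hgen : Subgroup.closure {g | ∃ i t, g = x i t} = ⊤) {P : Submodule K (G → K)}
    (hP : ∀ f ∈ P, ∀ i t, (fun g => f (g * x i t)) ∈ P) {D : ℕ}
    (hpoly : ∀ f ∈ P, ∀ g i, ∃ p : Polynomial K, p.natDegree ≤ D ∧ ∀ t : F, f (g * x i t) = p.eval (t : K)) (n : ℕ) :
    ∀ U : Submodule K (G → K), U ≤ P → U ≠ ⊥ → Module.finrank K P - Module.finrank K U = n →
      Nat.card F * (Zer U).ncard ≤ n * (D * Nat.card G) := by
  classical
  induction n using Nat.strong_induction_on with
  | _ n ih =>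
  intro U hUP hU0 hn
  by_cases hinv : ∀ f ∈ U, ∀ i t, (fun g => f (g * x i t)) ∈ U
  · -- `U` is invariant
    have h1 : ∀ h : G, ∀ f ∈ U, (fun g => f (g * h)) ∈ U := by
      intro h
      have hh : h ∈ Subgroup.closure {g | ∃ i t, g = x i t} := by rw [hgen]; exact Subgroup.mem_top h
      induction hh using Subgroup.closure_induction with
      | mem y hy =>
        obtain ⟨i, t, rfl⟩ := hy
        exact fun f hf => hinv f hf i t
      | one => intro f hf; simpa using hf
      | mul y z _ _ hy hz =>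
        intro f hf
        have h2 := hy _ (hz f hf)
        have e : (fun g => f (g * (y * z))) = fun g => (fun g => f (g * z)) (g * y) := by
          funext g
          simp only [mul_assoc]
        rw [e]
        exact h2
      | inv y _ hy =>
        intro f hf
        -- a finite group: `y⁻¹ = y ^ m`
        have h2 : ∀ m : ℕ, (fun g => f (g * y ^ m)) ∈ U := by
          intro m
          induction m with
          | zero => simpa using hf
          | succ m ihm =>
            have h3 := hy _ ihm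
            have e : (fun g => f (g * y ^ (m + 1))) = fun g => (fun g => f (g * y ^ m)) (g * y) := by
              funext g
              simp only [pow_succ', mul_assoc]
            rw [e]
            exact h3
        have h4 : y⁻¹ = y ^ (orderOf y - 1) := by
          rw [inv_eq_iff_mul_eq_one, ← pow_succ', Nat.sub_add_cancel (orderOf_pos y), pow_orderOf_eq_one]
        rw [h4]
        exact h2 _
    have h2 : Zer U = ∅ := by
      rw [Set.eq_empty_iff_forall_notMem]
      intro g hg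
      apply hU0
      rw [eq_bot_iff]
      intro f hf
      rw [Submodule.mem_bot]
      funext y
      have h3 := hg _ (h1 (g⁻¹ * y) f hf)
      have h4 : f (g * (g⁻¹ * y)) = 0 := h3
      rw [mul_inv_cancel_left] at h4
      exact h4
    rw [h2, Set.ncard_empty, mul_zero]
    exact Nat.zero_le _
  · push Not at hinv
    obtain ⟨f, hf, i, t₀, hfi⟩ := hinv
    let U' : Submodule K (G → K) := U ⊔ Submodule.span K (Set.range fun t : F => fun g => f (g * x i t))
    have hU'P : U' ≤ P := sup_le hUP (Submodule.span_le.2 (by rintro _ ⟨t, rfl⟩; exact hP f (hUP hf) i t))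
    have hck : ∀ t, (fun g => f (g * x i t)) ∈ U' := fun t =>
      Submodule.mem_sup_right (Submodule.subset_span ⟨t, rfl⟩)
    have hlt : U < U' := lt_of_le_of_ne le_sup_left fun h => hfi (by rw [h]; exact hck t₀)
    have := Fintype.ofFinite G
    have hfin1 : Module.finrank K U < Module.finrank K U' := Submodule.finrank_lt_finrank_of_lt hlt
    have hfin2 : Module.finrank K U' ≤ Module.finrank K P := Submodule.finrank_mono hU'P
    have hU'0 : U' ≠ ⊥ := fun h => hU0 (le_bot_iff.1 (h ▸ le_sup_left))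
    have h1 := ih (Module.finrank K P - Module.finrank K U') (by omega) U' hU'P hU'0 rfl
    -- the difference
    have h2 : Nat.card F * (Zer U \ Zer U').ncard ≤ D * Nat.card G := by
      refine card_bad F (hx i) (fun g => hpoly f (hUP hf) g i) fun g hg => ⟨hg.1 f hf, ?_⟩
      by_contra hcon
      push Not at hcon
      apply hg.2
      intro f' hf'
      have h3 : U' ≤ LinearMap.ker (LinearMap.proj g : (G → K) →ₗ[K] K) := by
        refine sup_le (fun f'' h4 => ?_) (Submodule.span_le.2 ?_)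
        · exact hg.1 f'' h4
        · rintro _ ⟨t, rfl⟩
          exact hcon t
      exact h3 hf'
    have h3 : (Zer U).ncard ≤ (Zer U \ Zer U').ncard + (Zer U').ncard := by
      refine (Set.ncard_le_ncard (t := (Zer U \ Zer U') ∪ Zer U') (fun g hg => ?_) (Set.toFinite _)).trans
        (Set.ncard_union_le _ _)
      by_cases h4 : g ∈ Zer U'
      · exact Or.inr h4
      · exact Or.inl ⟨hg, h4⟩
    calc Nat.card F * (Zer U).ncard
        ≤ Nat.card F * ((Zer U \ Zer U').ncard + (Zer U').ncard) := Nat.mul_le_mul_left _ h3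
      _ = Nat.card F * (Zer U \ Zer U').ncard + Nat.card F * (Zer U').ncard := mul_add _ _ _
      _ ≤ D * Nat.card G + (Module.finrank K P - Module.finrank K U') * (D * Nat.card G) := add_le_add h2 h1
      _ = (1 + (Module.finrank K P - Module.finrank K U')) * (D * Nat.card G) := by ring
      _ ≤ n * (D * Nat.card G) := Nat.mul_le_mul_right _ (by omega)

/-- **Schwartz-Zippel.** -/
theorem sz {x : ι → F → G} (hx : ∀ i s t, x i (s + t) = x i s * x i t)
    (hgen : Subgroup.closure {g | ∃ i t, g = x i t} = ⊤) {P : Submodule K (G → K)}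
    (hP : ∀ f ∈ P, ∀ i t, (fun g => f (g * x i t)) ∈ P) {D : ℕ}
    (hpoly : ∀ f ∈ P, ∀ g i, ∃ p : Polynomial K, p.natDegree ≤ D ∧ ∀ t : F, f (g * x i t) = p.eval (t : K))
    {f : G → K} (hf : f ∈ P) (hf0 : ∃ g, f g ≠ 0) :
    Nat.card F * Nat.card {g : G // f g = 0} ≤ D * Module.finrank K P * Nat.card G := by
  have h1 := sz_aux F hx hgen hP hpoly _ (Submodule.span K {f}) (Submodule.span_le.2 (by simpa using hf))
    (by
      rw [Ne, Submodule.span_singleton_eq_bot]
      rintro rfl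
      obtain ⟨g, hg⟩ := hf0
      exact hg rfl) rfl
  have h2 : Zer (Submodule.span K {f}) = {g | f g = 0} := by
    ext g
    constructor
    · intro h
      exact h f (Submodule.mem_span_singleton_self f)
    · intro h f' hf'
      obtain ⟨a, rfl⟩ := Submodule.mem_span_singleton.1 hf'
      have h' : f g = 0 := h
      rw [Pi.smul_apply, h', smul_zero]
  rw [h2] at h1
  have h3 : {g | f g = 0}.ncard = Nat.card {g : G // f g = 0} := rfl
  rw [h3] at h1
  refine h1.trans ?_
  calc (Module.finrank K P - Module.finrank K (Submodule.span K {f})) * (D * Nat.card G)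
      ≤ Module.finrank K P * (D * Nat.card G) := Nat.mul_le_mul_right _ (Nat.sub_le _ _)
    _ = D * Module.finrank K P * Nat.card G := by ring

end Sz

end Cfsg.Agent.H110.BR
end

-- part: H886/BR/Cls
section
/-!
# HUB BR (S5715, S5716): consequences of Schwartz-Zippel, general tools (helper886)

* `polyDeg_ad` (A1);
* `sz_pow` : Schwartz-Zippel for the powers `E ^ N` of a translation invariant space `E` of functions;
* `Cls E k Θ` : all coordinates of `Θ : Γ → End V` lie in `E ^ k`;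
* words.
-/

set_option autoImplicit false

namespace Cfsg.Agent.H886.BR

open Cfsg.Agent.H883.BR

universe u v w

/-- A1 -/
theorem polyDeg_ad {K : Type u} [Field K] {F : Subfield K} {G : Type w} [Group G] {ι : Type*} {x : ι → F → G}
    {V : Type v} [AddCommGroup V] [Module K V] {ρ : G →* Module.End K V} {e : ℕ} (hx : OneP F x)
    (h : PolyDeg ρ F x e) : PolyDeg (ad ρ) F x (2 * e) := by
  classical
  intro i
  obtain ⟨c, hc⟩ := h i
  have h0 : x i 0 = 1 := by
    have h1 := hx.add i 0 0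
    rw [add_zero] at h1
    exact (mul_eq_left.1 h1.symm)
  have hinv : ∀ t : F, (x i t)⁻¹ = x i (-t) := by
    intro t
    rw [inv_eq_iff_mul_eq_one, ← hx.add, add_neg_cancel, h0]
  let L : ℕ × ℕ → Module.End K (Module.End K V) := fun p =>
    (-1 : K) ^ p.2 • (LinearMap.mulLeft K (c p.1) ∘ₗ LinearMap.mulRight K (c p.2))
  have hL : ∀ p X, L p X = (-1 : K) ^ p.2 • (c p.1 * (X * c p.2)) := fun p X => rfl
  let s := Finset.range (e + 1) ×ˢ Finset.range (e + 1)
  refine ⟨fun l => ∑ p ∈ s.filter (fun p => p.1 + p.2 = l), L p, fun t => ?_⟩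
  have h1 : ad ρ (x i t) = ∑ p ∈ s, (t : K) ^ (p.1 + p.2) • L p := by
    apply LinearMap.ext
    intro X
    rw [ad_apply, hinv, hc, hc, LinearMap.sum_apply, Finset.sum_mul, Finset.sum_mul, Finset.sum_product]
    refine Finset.sum_congr rfl fun j _ => ?_
    rw [Finset.mul_sum]
    refine Finset.sum_congr rfl fun k _ => ?_
    rw [LinearMap.smul_apply, hL, smul_smul, smul_mul_assoc, smul_mul_assoc, mul_smul_comm, smul_smul, mul_assoc]
    congr 1
    rw [show (((-t : F) : F) : K) = -(t : K) from rfl, neg_pow, pow_add]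
    ring
  rw [h1, ← Finset.sum_fiberwise_of_maps_to (t := Finset.range (2 * e + 1)) (g := fun p : ℕ × ℕ => p.1 + p.2)]
  · refine Finset.sum_congr rfl fun l _ => ?_
    rw [Finset.smul_sum]
    refine Finset.sum_congr rfl fun p hp => ?_
    rw [(Finset.mem_filter.1 hp).2]
  · intro p hp
    rw [Finset.mem_product, Finset.mem_range, Finset.mem_range] at hp
    rw [Finset.mem_range]
    omega

section pow

variable {K : Type*} [Field K] {Γ : Type*}

theorem finrank_pow_le [Finite Γ] (E : Submodule K (Γ → K)) (N : ℕ) :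
    Module.finrank K ↥(E ^ N) ≤ Module.finrank K E ^ N := by
  classical
  obtain ⟨s, hs1, hs2⟩ : ∃ s : Finset (Γ → K), Submodule.span K (s : Set (Γ → K)) = E ∧
      s.card ≤ Module.finrank K E := by
    let b := Module.finBasis K E
    refine ⟨Finset.univ.image fun i => (b i : Γ → K), ?_, ?_⟩
    · rw [Finset.coe_image, Finset.coe_univ, Set.image_univ]
      have h1 : (Set.range fun i => (b i : Γ → K)) = E.subtype '' Set.range b := by
        rw [← Set.range_comp]
        rfl
      rw [h1, Submodule.span_image, b.span_eq, Submodule.map_top, Submodule.range_subtype]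
    · refine Finset.card_image_le.trans ?_
      rw [Finset.card_univ, Fintype.card_fin]
  rw [← hs1, Submodule.span_pow, ← Finset.coe_pow]
  refine (finrank_span_finset_le_card _).trans (Finset.card_pow_le.trans ?_)
  rw [hs1]
  exact Nat.pow_le_pow_left hs2 N

/-- right translation -/
def trn [Group Γ] (h : Γ) : (Γ → K) →ₐ[K] (Γ → K) where
  toFun f g := f (g * h)
  map_one' := rfl
  map_mul' _ _ := rfl
  map_zero' := rfl
  map_add' _ _ := rfl
  commutes' _ := rfl

theorem trn_mem_pow [Group Γ] {E : Submodule K (Γ → K)} {h : Γ} (hE : ∀ f ∈ E, (fun g => f (g * h)) ∈ E) (N : ℕ)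
    {f : Γ → K} (hf : f ∈ E ^ N) : (fun g => f (g * h)) ∈ E ^ N := by
  have h1 : E.map (trn (K := K) h).toLinearMap ≤ E := by
    rintro _ ⟨f, hf, rfl⟩
    exact hE f hf
  have h2 : (E ^ N).map (trn (K := K) h).toLinearMap ≤ E ^ N := by
    rw [Submodule.map_pow]
    exact pow_le_pow_left' h1 N
  exact h2 ⟨f, hf, rfl⟩

theorem poly_pow [Group Γ] {F : Subfield K} {E : Submodule K (Γ → K)} {g : Γ} {y : F → Γ} {D : ℕ}
    (hE : ∀ f ∈ E, ∃ p : Polynomial K, p.natDegree ≤ D ∧ ∀ t : F, f (g * y t) = p.eval (t : K)) (N : ℕ) :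
    ∀ f ∈ E ^ N, ∃ p : Polynomial K, p.natDegree ≤ N * D ∧ ∀ t : F, f (g * y t) = p.eval (t : K) := by
  induction N with
  | zero =>
    intro f hf
    rw [pow_zero, Submodule.mem_one] at hf
    obtain ⟨c, rfl⟩ := hf
    exact ⟨Polynomial.C c, by simp, fun t => by simp⟩
  | succ N ih =>
    intro f hf
    rw [pow_succ] at hf
    refine Submodule.mul_induction_on hf ?_ ?_
    · intro f₁ h₁ f₂ h₂
      obtain ⟨p, hp, hp'⟩ := ih f₁ h₁
      obtain ⟨p', hq, hq'⟩ := hE f₂ h₂
      refine ⟨p * p', Polynomial.natDegree_mul_le.trans ?_, fun t => ?_⟩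
      · calc _ ≤ N * D + D := add_le_add hp hq
          _ = _ := by ring
      · rw [Pi.mul_apply, hp', hq', Polynomial.eval_mul]
    · rintro f₁ f₂ ⟨p, hp, hp'⟩ ⟨p', hq, hq'⟩
      refine ⟨p + p', (Polynomial.natDegree_add_le _ _).trans (max_le hp hq), fun t => ?_⟩
      rw [Pi.add_apply, hp', hq', Polynomial.eval_add]

/-- **Schwartz-Zippel for the powers of `E`** -/
theorem sz_pow [Group Γ] [Finite Γ] {F : Subfield K} [Finite F] {ι : Type*} {x : ι → F → Γ} (hx : OneP F x)
    {E : Submodule K (Γ → K)} (hE : ∀ f ∈ E, ∀ i t, (fun g => f (g * x i t)) ∈ E) {D : ℕ}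
    (hD : ∀ f ∈ E, ∀ g i, ∃ p : Polynomial K, p.natDegree ≤ D ∧ ∀ t : F, f (g * x i t) = p.eval (t : K))
    {M : ℕ} (hM : Module.finrank K E ≤ M) {N : ℕ} {f : Γ → K} (hf : f ∈ E ^ N) (hf0 : ∃ g, f g ≠ 0) :
    Nat.card F * Nat.card {g : Γ // f g = 0} ≤ N * D * M ^ N * Nat.card Γ := by
  have hgen : Subgroup.closure {g : Γ | ∃ i t, g = x i t} = ⊤ := by
    rw [← hx.gen]
    congr 1
    ext g
    simp only [Set.mem_ofPred_eq, eq_comm]
  refine (Cfsg.Agent.H110.BR.sz F hx.add hgen (P := E ^ N) (D := N * D)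
    (fun f hf i t => trn_mem_pow (fun f hf => hE f hf i t) N hf)
    (fun f hf g i => poly_pow (fun f hf => hD f hf g i) N f hf) hf hf0).trans ?_
  exact Nat.mul_le_mul_right _ (Nat.mul_le_mul_left _
    ((finrank_pow_le E N).trans (Nat.pow_le_pow_left hM N)))

theorem pow_mono_right {E : Submodule K (Γ → K)} (h1 : (1 : Γ → K) ∈ E) {a b : ℕ} (hab : a ≤ b) :
    E ^ a ≤ E ^ b := by
  obtain ⟨c, rfl⟩ := Nat.exists_eq_add_of_le hab
  intro f hf
  rw [pow_add]
  have h2 : (1 : Γ → K) ∈ E ^ c := by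
    have := Submodule.pow_mem_pow E h1 c
    rwa [one_pow] at this
  have := Submodule.mul_mem_mul hf h2
  rwa [mul_one] at this

variable {V : Type*} [AddCommGroup V] [Module K V]

/-- all coordinates of `Θ` lie in `E ^ k` -/
def Cls (E : Submodule K (Γ → K)) (k : ℕ) (Θ : Γ → V) : Prop :=
  ∀ l : Module.Dual K V, (fun z => l (Θ z)) ∈ E ^ k

theorem Cls.mono {E : Submodule K (Γ → K)} (h1 : (1 : Γ → K) ∈ E) {a b : ℕ} (hab : a ≤ b) {Θ : Γ → V}
    (h : Cls E a Θ) : Cls E b Θ := fun l => pow_mono_right h1 hab (h l)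

theorem cls_const (E : Submodule K (Γ → K)) (X : V) : Cls E 0 (fun _ => X) := by
  intro l
  rw [pow_zero, Submodule.mem_one]
  exact ⟨l X, rfl⟩

theorem Cls.map {E : Submodule K (Γ → K)} {k : ℕ} {Θ : Γ → V} (h : Cls E k Θ) {V' : Type*} [AddCommGroup V']
    [Module K V'] (L : V →ₗ[K] V') : Cls E k (fun z => L (Θ z)) := fun l => h (l ∘ₗ L)

theorem Cls.add {E : Submodule K (Γ → K)} {k : ℕ} {Θ Θ' : Γ → V} (h : Cls E k Θ) (h' : Cls E k Θ') :
    Cls E k (fun z => Θ z + Θ' z) := by
  intro l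
  have e : (fun z => l (Θ z + Θ' z)) = (fun z => l (Θ z)) + fun z => l (Θ' z) := by
    funext z
    exact map_add l _ _
  rw [e]
  exact (E ^ k).add_mem (h l) (h' l)

theorem Cls.smul {E : Submodule K (Γ → K)} {k : ℕ} {Θ : Γ → V} (c : K) (h : Cls E k Θ) :
    Cls E k (fun z => c • Θ z) := (h.map (c • LinearMap.id) :)

/-- products -/
theorem Cls.mul {A : Type*} [Ring A] [Algebra K A] [Module.Finite K A] {E : Submodule K (Γ → K)} {a b : ℕ}
    {Θ Θ' : Γ → A} (h : Cls E a Θ) (h' : Cls E b Θ') : Cls E (a + b) (fun z => Θ z * Θ' z) := by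
  intro l
  let B := Module.finBasis K A
  have e : (fun z => l (Θ z * Θ' z)) =
      ∑ p, ∑ q, (l (B p * B q)) • ((fun z => B.coord p (Θ z)) * fun z => B.coord q (Θ' z)) := by
    funext z
    rw [Finset.sum_apply]
    conv_lhs => rw [← B.sum_repr (Θ z), ← B.sum_repr (Θ' z), Finset.sum_mul, map_sum]
    refine Finset.sum_congr rfl fun p _ => ?_
    rw [Finset.mul_sum, map_sum, Finset.sum_apply]
    refine Finset.sum_congr rfl fun q _ => ?_
    rw [smul_mul_assoc, mul_smul_comm, smul_smul, map_smul, smul_eq_mul, Pi.smul_apply, Pi.mul_apply, smul_eq_mul,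
      Module.Basis.coord_apply, Module.Basis.coord_apply, mul_comm]
  rw [e]
  refine Submodule.sum_mem _ fun p _ => Submodule.sum_mem _ fun q _ => Submodule.smul_mem _ _ ?_
  rw [pow_add]
  exact Submodule.mul_mem_mul (h _) (h' _)

/-- determinants -/
theorem det_mem {E : Submodule K (Γ → K)} {k r : ℕ} {A : Γ → Matrix (Fin r) (Fin r) K}
    (hA : ∀ i j, (fun z => A z i j) ∈ E ^ k) : (fun z => (A z).det) ∈ E ^ (k * r) := by
  classical
  have h1 : ∀ (s : Finset (Fin r)) (φ : Fin r → Γ → K), (∀ i, φ i ∈ E ^ k) → ∏ i ∈ s, φ i ∈ E ^ (k * s.card) := by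
    intro s φ hφ
    induction s using Finset.induction_on with
    | empty => simpa only [_root_.Finset.card_empty, _root_.MulZeroClass.mul_zero, _root_.pow_zero, _root_.Finset.prod_empty, _root_.Submodule.mem_one] using (Submodule.mem_one.2 ⟨1, map_one _⟩ : (1 : Γ → K) ∈ (1 : Submodule K (Γ → K)))
    | insert a s ha ih =>
      rw [Finset.prod_insert ha, Finset.card_insert_of_notMem ha, mul_add, mul_one, add_comm, pow_add]
      exact Submodule.mul_mem_mul (hφ a) ih
  have e : (fun z => (A z).det) = ∑ σ : Equiv.Perm (Fin r), ((Equiv.Perm.sign σ : ℤ) : K) • ∏ i, fun z => A z (σ i) i := by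
    funext z
    rw [Matrix.det_apply', Finset.sum_apply]
    refine Finset.sum_congr rfl fun σ _ => ?_
    rw [Pi.smul_apply, Finset.prod_apply, smul_eq_mul]
  rw [e]
  refine Submodule.sum_mem _ fun σ _ => Submodule.smul_mem _ _ ?_
  have := h1 Finset.univ (fun i z => A z (σ i) i) (fun i => hA _ _)
  rwa [Finset.card_univ, Fintype.card_fin] at this

end pow

/-! ## words -/

section word

/-- the word `w` in `X`, `Y` -/
def wd {M : Type*} [Monoid M] (X Y : M) (w : List Bool) : M := (w.map fun c => cond c X Y).prod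

theorem wd_nil {M : Type*} [Monoid M] (X Y : M) : wd X Y [] = 1 := rfl

theorem wd_cons {M : Type*} [Monoid M] (X Y : M) (c : Bool) (w : List Bool) :
    wd X Y (c :: w) = cond c X Y * wd X Y w := by
  rw [wd, List.map_cons, List.prod_cons]
  rfl

theorem wd_append {M : Type*} [Monoid M] (X Y : M) (w w' : List Bool) : wd X Y (w ++ w') = wd X Y w * wd X Y w' := by
  rw [wd, List.map_append, List.prod_append]
  rfl

theorem map_wd {M M' : Type*} [Monoid M] [Monoid M'] (R : M →* M') (X Y : M) (w : List Bool) :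
    R (wd X Y w) = wd (R X) (R Y) w := by
  induction w with
  | nil => rw [wd_nil, wd_nil, map_one]
  | cons c w ih => rw [wd_cons, wd_cons, map_mul, ih]; cases c <;> rfl

theorem wd_mem {G : Type*} [Group G] (a b : G) (w : List Bool) : wd a b w ∈ Subgroup.closure {a, b} := by
  induction w with
  | nil => exact one_mem _
  | cons c w ih =>
    rw [wd_cons]
    refine mul_mem ?_ ih
    cases c
    · exact Subgroup.subset_closure (Or.inr rfl)
    · exact Subgroup.subset_closure (Or.inl rfl)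

/-- in a finite group the subgroup generated by `a`, `b` consists of words -/
theorem exists_wd {G : Type*} [Group G] [Finite G] {a b g : G} (hg : g ∈ Subgroup.closure {a, b}) :
    ∃ w : List Bool, g = wd a b w := by
  induction hg using Subgroup.closure_induction with
  | mem y hy =>
    rcases hy with rfl | hy
    · exact ⟨[true], by rw [wd_cons, wd_nil, mul_one]; rfl⟩
    · rw [Set.mem_singleton_iff] at hy
      exact ⟨[false], by rw [wd_cons, wd_nil, mul_one, hy]; rfl⟩
  | one => exact ⟨[], rfl⟩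
  | mul y z _ _ hy hz =>
    obtain ⟨w, rfl⟩ := hy
    obtain ⟨w', rfl⟩ := hz
    exact ⟨w ++ w', (wd_append _ _ _ _).symm⟩
  | inv y _ hy =>
    obtain ⟨w, rfl⟩ := hy
    have h2 : ∀ m : ℕ, ∃ w', wd a b w ^ m = wd a b w' := by
      intro m
      induction m with
      | zero => exact ⟨[], by rw [pow_zero, wd_nil]⟩
      | succ m ih =>
        obtain ⟨w', hw'⟩ := ih
        exact ⟨w' ++ w, by rw [pow_succ, hw', wd_append]⟩
    have h4 : (wd a b w)⁻¹ = wd a b w ^ (orderOf (wd a b w) - 1) := by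
      rw [inv_eq_iff_mul_eq_one, ← pow_succ', Nat.sub_add_cancel (orderOf_pos _), pow_orderOf_eq_one]
    rw [h4]
    exact h2 _

/-- the words of length `≤ dim A` span all words -/
theorem wd_mem_span {K A : Type*} [Field K] [Ring A] [Algebra K A] [Module.Finite K A] (X Y : A) {N : ℕ}
    (hN : Module.finrank K A ≤ N) (w : List Bool) :
    wd X Y w ∈ Submodule.span K {Z : A | ∃ w' : List Bool, w'.length ≤ N ∧ Z = wd X Y w'} := by
  let U : ℕ → Submodule K A := fun k => Submodule.span K {Z : A | ∃ w' : List Bool, w'.length ≤ k ∧ Z = wd X Y w'}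
  have hmono : ∀ {a b : ℕ}, a ≤ b → U a ≤ U b := by
    intro a b hab
    refine Submodule.span_mono ?_
    rintro _ ⟨w', hw', rfl⟩
    exact ⟨w', hw'.trans hab, rfl⟩
  have hmul : ∀ k (c : Bool), ∀ Z ∈ U k, cond c X Y * Z ∈ U (k + 1) := by
    intro k c Z hZ
    refine Submodule.span_induction (p := fun Z _ => cond c X Y * Z ∈ U (k + 1)) ?_ ?_ ?_ ?_ hZ
    · rintro _ ⟨w', hw', rfl⟩
      exact Submodule.subset_span ⟨c :: w', by rw [List.length_cons]; omega, (wd_cons _ _ _ _).symm⟩
    · rw [mul_zero]; exact zero_mem _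
    · intro Z Z' _ _ h h'
      rw [mul_add]; exact add_mem h h'
    · intro r Z _ h
      rw [mul_smul_comm]; exact Submodule.smul_mem _ _ h
  -- the chain stabilises
  obtain ⟨j, hjN, hj⟩ : ∃ j ≤ N, U j = U (j + 1) := by
    by_contra hcon
    push Not at hcon
    have h1 : ∀ k ≤ N + 1, k ≤ Module.finrank K (U k) := by
      intro k
      induction k with
      | zero => intro _; exact Nat.zero_le _
      | succ k ih =>
        intro hk
        have h2 := ih (by omega)
        have h3 : U k < U (k + 1) := lt_of_le_of_ne (hmono (Nat.le_succ k)) (hcon k (by omega))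
        have h4 := Submodule.finrank_lt_finrank_of_lt h3
        omega
    have h2 := h1 (N + 1) le_rfl
    have h3 := Submodule.finrank_le (U (N + 1))
    omega
  have hall : ∀ w : List Bool, wd X Y w ∈ U j := by
    intro w
    induction w with
    | nil => exact Submodule.subset_span ⟨[], Nat.zero_le _, rfl⟩
    | cons c w ih =>
      rw [wd_cons, hj]
      exact hmul j c _ ih
  exact hmono hjN (hall w)

theorem Cls.wd {K Γ : Type*} [Field K] {A : Type*} [Ring A] [Algebra K A] [Module.Finite K A]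
    {E : Submodule K (Γ → K)} {c : ℕ} {Θ Θ' : Γ → A} (h : Cls E c Θ) (h' : Cls E c Θ') (w : List Bool) :
    Cls E (c * w.length) (fun z => wd (Θ z) (Θ' z) w) := by
  induction w with
  | nil => simpa [wd_nil] using cls_const E (1 : A)
  | cons b w ih =>
    have e : (fun z => BR.wd (Θ z) (Θ' z) (b :: w)) = fun z => cond b (Θ z) (Θ' z) * BR.wd (Θ z) (Θ' z) w := by
      funext z
      rw [wd_cons]
    rw [e, List.length_cons, mul_add, mul_one, add_comm]
    cases b
    · exact h'.mul ih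
    · exact h.mul ih

end word

end Cfsg.Agent.H886.BR
end

private theorem dce_2d56ede952ae : _root_.True := by
  try have : _root_.True := by simp only [_root_.Cfsg.Agent.H886.BR.wd.eq_1]
  exact _root_.True.intro
end

-- part: H383/RG/Count
section
prune_inst 0x304035057ec0000000182504c2001c33ba000002004b8400e50708440d896c0389438e20b330230959f220e4483c4048111000a9024000000e000400411b018010c0400020400008460018000100000000000000000000000000000000030000000000000
set_option linter.all false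
open scoped Cfsg.Agent.FastGrp

/-!
# S5714, layer L: irreducible matrices and generators of the field with `q ^ d` elements (helper383)

`rg_L25 : L25`, `rg_L02 : L02`.
-/

set_option autoImplicit false
set_option linter.unusedSectionVars false

namespace Cfsg.Agent.H383.RG

open Module Polynomial
open Cfsg.Agent.H50.RG (IrrM L25 L02)
open scoped Matrix

section

variable {F : Type} [Field F] [Finite F] {d : ℕ}

/-- the kernel of a polynomial in an irreducible matrix -/
theorem ker_cases {g : GL (Fin d) F} (h : IrrM F g) (p : F[X]) :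
    aeval (g : Matrix (Fin d) (Fin d) F) p = 0 ∨
      ∀ v, (aeval (g : Matrix (Fin d) (Fin d) F) p) *ᵥ v = 0 → v = 0 := by
  have hcomm : (g : Matrix (Fin d) (Fin d) F) * aeval (g : Matrix (Fin d) (Fin d) F) p =
      aeval (g : Matrix (Fin d) (Fin d) F) p * (g : Matrix (Fin d) (Fin d) F) := by
    have h1 : aeval (g : Matrix (Fin d) (Fin d) F) ((X : F[X]) * p) = aeval (g : Matrix (Fin d) (Fin d) F) (p * X) := by
      rw [mul_comm]
    rwa [map_mul, map_mul, aeval_X] at h1
  rcases h.2 (LinearMap.ker (Matrix.toLin' (aeval (g : Matrix (Fin d) (Fin d) F) p))) (by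
    intro v hv
    rw [LinearMap.mem_ker, Matrix.toLin'_apply] at hv ⊢
    rw [Matrix.mulVec_mulVec, ← hcomm, ← Matrix.mulVec_mulVec, hv, Matrix.mulVec_zero]) with h1 | h1
  · right
    intro v hv
    have h2 : v ∈ LinearMap.ker (Matrix.toLin' (aeval (g : Matrix (Fin d) (Fin d) F) p)) := by
      rw [LinearMap.mem_ker, Matrix.toLin'_apply]
      exact hv
    rw [h1] at h2
    exact (Submodule.mem_bot F).1 h2
  · left
    apply Matrix.toLin'.injective
    rw [map_zero]
    exact LinearMap.ker_eq_top.1 h1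

theorem minpoly_irreducible {g : GL (Fin d) F} (h : IrrM F g) :
    Irreducible (minpoly F (g : Matrix (Fin d) (Fin d) F)) := by
  have hd : Nonempty (Fin d) := ⟨⟨0, h.1⟩⟩
  have hint : IsIntegral F (g : Matrix (Fin d) (Fin d) F) := IsIntegral.of_finite F _
  have hmon := minpoly.monic hint
  have hne1 : minpoly F (g : Matrix (Fin d) (Fin d) F) ≠ 1 := minpoly.ne_one F _
  rw [hmon.irreducible_iff_natDegree' ]
  refine ⟨hne1, fun a b ha hb hab hm => ?_⟩
  rw [Finset.mem_Ioc] at hm
  have hdeg : a.natDegree + b.natDegree = (minpoly F (g : Matrix (Fin d) (Fin d) F)).natDegree := by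
    rw [← hab, ha.natDegree_mul hb]
  have key : ∀ c : F[X], c.Monic → c.natDegree < (minpoly F (g : Matrix (Fin d) (Fin d) F)).natDegree →
      aeval (g : Matrix (Fin d) (Fin d) F) c ≠ 0 := by
    intro c hc hlt h0
    have h1 := minpoly.min F (g : Matrix (Fin d) (Fin d) F) hc h0
    have h2 := Polynomial.natDegree_le_natDegree h1
    omega
  have h1 := (ker_cases h a).resolve_left (key a ha (by omega))
  have h2 := key b hb (by omega)
  apply h2
  apply Matrix.toLin'.injective
  apply LinearMap.ext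
  intro v
  rw [Matrix.toLin'_apply, map_zero, LinearMap.zero_apply]
  apply h1
  rw [Matrix.mulVec_mulVec, ← map_mul, hab, minpoly.aeval, Matrix.zero_mulVec]

theorem natDegree_minpoly {g : GL (Fin d) F} (h : IrrM F g) :
    (minpoly F (g : Matrix (Fin d) (Fin d) F)).natDegree = d := by
  have hd : Nonempty (Fin d) := ⟨⟨0, h.1⟩⟩
  set A : Matrix (Fin d) (Fin d) F := (g : Matrix (Fin d) (Fin d) F) with hA
  have hint : IsIntegral F A := IsIntegral.of_finite F _
  apply le_antisymm
  · have h1 := Polynomial.natDegree_le_of_dvd (Matrix.minpoly_dvd_charpoly A) (Matrix.charpoly_monic A).ne_zero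
    rwa [Matrix.charpoly_natDegree_eq_dim, Fintype.card_fin] at h1
  · have hf0 : minpoly F A ≠ 0 := minpoly.ne_zero hint
    let pb := AdjoinRoot.powerBasis hf0
    have hg : pb.gen = AdjoinRoot.root (minpoly F A) := AdjoinRoot.powerBasis_gen hf0
    let φ : AdjoinRoot (minpoly F A) →ₐ[F] Matrix (Fin d) (Fin d) F := pb.lift A (by
      rw [hg, AdjoinRoot.minpoly_root hf0, (minpoly.monic hint).leadingCoeff, inv_one, map_one, mul_one,
        minpoly.aeval])
    have hφ : φ (AdjoinRoot.root (minpoly F A)) = A := by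
      rw [← hg]
      exact pb.lift_gen _ _
    let v : Fin d → F := fun _ => 1
    have hv : v ≠ 0 := by
      intro h0
      have := congrFun h0 (Classical.arbitrary (Fin d))
      simp [v] at this
    let T : AdjoinRoot (minpoly F A) →ₗ[F] (Fin d → F) :=
      { toFun := fun k => φ k *ᵥ v
        map_add' := fun x y => by rw [map_add, Matrix.add_mulVec]
        map_smul' := fun c x => by rw [map_smul, Matrix.smul_mulVec, RingHom.id_apply] }
    have hT : LinearMap.range T = ⊤ := by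
      refine (h.2 _ ?_).resolve_left ?_
      · rintro _ ⟨k, rfl⟩
        refine ⟨AdjoinRoot.root (minpoly F A) * k, ?_⟩
        show φ (_ * k) *ᵥ v = A *ᵥ (φ k *ᵥ v)
        rw [map_mul, hφ, Matrix.mulVec_mulVec]
      · intro h0
        have h1 : T 1 ∈ LinearMap.range T := ⟨1, rfl⟩
        rw [h0, Submodule.mem_bot] at h1
        have h2 : φ 1 *ᵥ v = 0 := h1
        rw [map_one, Matrix.one_mulVec] at h2
        exact hv h2
    have := pb.finite
    have h1 := LinearMap.finrank_range_le T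
    rw [hT, finrank_top, Module.finrank_fintype_fun_eq_card, Fintype.card_fin, pb.finrank,
      AdjoinRoot.powerBasis_dim] at h1
    exact h1

/-- the conjugation form of an embedding -/
theorem orderOf_hom {K : Type} [Field K] [Algebra F K] (hd : 1 ≤ d) (φ : K →ₐ[F] Matrix (Fin d) (Fin d) F)
    {g : GL (Fin d) F} {u : Kˣ} (h : φ u = (g : Matrix (Fin d) (Fin d) F)) : orderOf g = orderOf u := by
  have hne : Nonempty (Fin d) := ⟨⟨0, hd⟩⟩
  have hinj : Function.Injective φ := φ.toRingHom.injective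
  rw [← orderOf_units, ← h, ← orderOf_units]
  exact orderOf_injective φ.toMonoidHom hinj _

variable {K : Type} [Field K] [Finite K] [Algebra F K]

theorem exists_root (hK : finrank F K = d) {g : GL (Fin d) F} (h : IrrM F g) :
    ∃ u : K, aeval u (minpoly F (g : Matrix (Fin d) (Fin d) F)) = 0 := by
  have hd : Nonempty (Fin d) := ⟨⟨0, h.1⟩⟩
  set f := minpoly F (g : Matrix (Fin d) (Fin d) F) with hf
  have hirr := minpoly_irreducible h
  have hfact : Fact (Irreducible f) := ⟨hirr⟩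
  let pb := AdjoinRoot.powerBasis hirr.ne_zero
  have hfin : Module.Finite F (AdjoinRoot f) := pb.finite
  have hfin' : Finite (AdjoinRoot f) := Module.finite_of_finite F
  have hrk : finrank F (AdjoinRoot f) = d := by
    rw [pb.finrank, AdjoinRoot.powerBasis_dim, natDegree_minpoly h]
  obtain ⟨ψ⟩ := FiniteField.nonempty_algHom_of_finrank_dvd (F := F) (K := AdjoinRoot f) (L := K) (by rw [hrk, hK])
  refine ⟨ψ (AdjoinRoot.root f), ?_⟩
  rw [Polynomial.aeval_algHom_apply, AdjoinRoot.aeval_eq, AdjoinRoot.mk_self, map_zero]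

theorem minpoly_of_root {g : GL (Fin d) F} (h : IrrM F g) {u : K}
    (hu : aeval u (minpoly F (g : Matrix (Fin d) (Fin d) F)) = 0) :
    minpoly F u = minpoly F (g : Matrix (Fin d) (Fin d) F) :=
  (minpoly.eq_of_irreducible_of_monic (minpoly_irreducible h) hu (minpoly.monic (IsIntegral.of_finite F _))).symm

theorem adjoin_of_root (hK : finrank F K = d) {g : GL (Fin d) F} (h : IrrM F g) {u : K}
    (hu : aeval u (minpoly F (g : Matrix (Fin d) (Fin d) F)) = 0) : Algebra.adjoin F {u} = ⊤ := by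
  have hfd : FiniteDimensional F K := Module.Finite.of_finite
  have h1 : IntermediateField.adjoin F {u} = ⊤ := by
    rw [Field.primitive_element_iff_minpoly_natDegree_eq, minpoly_of_root h hu, natDegree_minpoly h, hK]
  rw [← IntermediateField.adjoin_simple_toSubalgebra_of_isAlgebraic (IsIntegral.of_finite F u).isAlgebraic, h1,
    IntermediateField.top_toSubalgebra]

/-- the fibre over an irreducible matrix -/
theorem card_fibre (hK : finrank F K = d) {g : GL (Fin d) F} (h : IrrM F g) :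
    Nat.card {z : (K →ₐ[F] Matrix (Fin d) (Fin d) F) × Kˣ //
      Algebra.adjoin F {(z.2 : K)} = ⊤ ∧ z.1 (z.2 : K) = (g : Matrix (Fin d) (Fin d) F)} = d := by
  have hne : Nonempty (Fin d) := ⟨⟨0, h.1⟩⟩
  have hfd : FiniteDimensional F K := Module.Finite.of_finite
  have := Fintype.ofFinite K
  set f := minpoly F (g : Matrix (Fin d) (Fin d) F) with hf
  have hirr := minpoly_irreducible h
  have hsep : f.Separable := PerfectField.separable_of_irreducible hirr
  obtain ⟨u₀, hu₀⟩ := exists_root (K := K) hK h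
  have hsplit : (f.map (algebraMap F K)).Splits := by
    rw [hf, ← minpoly_of_root h hu₀]
    exact Normal.splits inferInstance u₀
  have hcard := card_rootSet_eq_natDegree (K := K) hsep hsplit
  rw [natDegree_minpoly h] at hcard
  have hmem : ∀ u : K, u ∈ f.rootSet K ↔ aeval u f = 0 := fun u => by
    rw [mem_rootSet]
    exact and_iff_right hirr.ne_zero
  have haev : ∀ (φ : K →ₐ[F] Matrix (Fin d) (Fin d) F) (u : K), φ u = (g : Matrix (Fin d) (Fin d) F) →
      aeval u f = 0 := by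
    intro φ u hu
    apply φ.toRingHom.injective
    rw [map_zero]
    show φ (aeval u f) = 0
    rw [← Polynomial.aeval_algHom_apply, hu, minpoly.aeval]
  refine Eq.trans ?_ hcard
  rw [← Nat.card_eq_fintype_card]
  apply Nat.card_congr
  refine Equiv.ofBijective (fun z => ⟨(z.1.2 : K), (hmem _).2 (haev z.1.1 _ z.2.2)⟩) ⟨?_, ?_⟩
  · rintro ⟨⟨φ, u⟩, h1, h2⟩ ⟨⟨φ', u'⟩, h1', h2'⟩ heq
    have h3 : (u : K) = u' := congrArg Subtype.val heq
    have h4 : u = u' := Units.ext h3
    subst h4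
    have h5 : φ = φ' := by
      apply AlgHom.ext_of_adjoin_eq_top h1
      intro x hx
      rw [Set.mem_singleton_iff.1 hx]
      exact h2.trans h2'.symm
    subst h5
    rfl
  · rintro ⟨u, hu⟩
    rw [hmem] at hu
    have hu0 : u ≠ 0 := by
      rintro rfl
      have h1 := minpoly_of_root h hu
      rw [minpoly.zero] at h1
      have h2 := minpoly.aeval F (g : Matrix (Fin d) (Fin d) F)
      rw [← h1, aeval_X] at h2
      exact g.ne_zero h2
    have had := adjoin_of_root hK h hu
    let pb := PowerBasis.ofAdjoinEqTop (IsIntegral.of_finite F u) had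
    have hg : pb.gen = u := rfl
    let φ : K →ₐ[F] Matrix (Fin d) (Fin d) F := pb.lift (g : Matrix (Fin d) (Fin d) F) (by
      rw [hg, minpoly_of_root h hu, minpoly.aeval])
    have hφ : φ u = (g : Matrix (Fin d) (Fin d) F) := pb.lift_gen _ _
    exact ⟨⟨⟨φ, Units.mk0 u hu0⟩, had, hφ⟩, rfl⟩

/-- the matrices of the multiplications -/
theorem exists_frame (hK : finrank F K = d) :
    ∃ (e : K ≃ₗ[F] (Fin d → F)) (L : K →ₐ[F] Matrix (Fin d) (Fin d) F), ∀ x y, L x *ᵥ e y = e (x * y) := by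
  have hfd : FiniteDimensional F K := Module.Finite.of_finite
  let b : Basis (Fin d) F K := Module.finBasisOfFinrankEq F K hK
  exact ⟨b.equivFun, Algebra.leftMulMatrix b, fun x y => Algebra.leftMulMatrix_mulVec_repr b x y⟩

/-- `GL_d` and the embeddings of `K` -/
theorem card_GL (hd : 1 ≤ d) (hK : finrank F K = d) :
    Nat.card (GL (Fin d) F) = Nat.card (K →ₐ[F] Matrix (Fin d) (Fin d) F) * (Nat.card F ^ d - 1) := by
  classical
  have hne : Nonempty (Fin d) := ⟨⟨0, hd⟩⟩
  obtain ⟨e, L, hL⟩ := exists_frame (F := F) (K := K) hK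
  have hv : Nat.card {v : Fin d → F // v ≠ 0} = Nat.card F ^ d - 1 := by
    have := Fintype.ofFinite F
    rw [Nat.card_eq_fintype_card, Fintype.card_subtype_compl, Fintype.card_subtype_eq, Fintype.card_fun,
      Fintype.card_fin, Nat.card_eq_fintype_card]
  rw [← hv, ← Nat.card_prod]
  have he1 : e 1 ≠ 0 := by
    rw [Ne, LinearEquiv.map_eq_zero_iff]
    exact one_ne_zero
  let conj (h : GL (Fin d) F) : K →ₐ[F] Matrix (Fin d) (Fin d) F :=
    { toFun := fun k => (h : Matrix (Fin d) (Fin d) F) * L k * ((h⁻¹ : GL (Fin d) F) : Matrix (Fin d) (Fin d) F)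
      map_one' := by rw [map_one, mul_one, ← Units.val_mul, mul_inv_cancel, Units.val_one]
      map_mul' := fun x y => by
        rw [map_mul]
        have h1 : ((h⁻¹ : GL (Fin d) F) : Matrix (Fin d) (Fin d) F) * (h : Matrix (Fin d) (Fin d) F) = 1 := by
          rw [← Units.val_mul, inv_mul_cancel, Units.val_one]
        calc _ = (h : Matrix (Fin d) (Fin d) F) * L x * 1 * L y * ((h⁻¹ : GL (Fin d) F) : Matrix _ _ F) := by
              rw [mul_one, mul_assoc (h : Matrix (Fin d) (Fin d) F) (L x) (L y)]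
          _ = _ := by rw [← h1]; simp only [mul_assoc]
      map_zero' := by rw [map_zero, mul_zero, zero_mul]
      map_add' := fun x y => by rw [map_add, mul_add, add_mul]
      commutes' := fun c => by
        rw [AlgHom.commutes, ← Algebra.commutes, mul_assoc, ← Units.val_mul, mul_inv_cancel, Units.val_one, mul_one] }
  have hconj : ∀ h k, conj h k * (h : Matrix (Fin d) (Fin d) F) = (h : Matrix (Fin d) (Fin d) F) * L k := by
    intro h k
    show (h : Matrix (Fin d) (Fin d) F) * L k * ((h⁻¹ : GL (Fin d) F) : Matrix (Fin d) (Fin d) F) *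
      (h : Matrix (Fin d) (Fin d) F) = _
    rw [mul_assoc, ← Units.val_mul, inv_mul_cancel, Units.val_one, mul_one]
  have hval : ∀ (h : GL (Fin d) F) (k : K), (h : Matrix (Fin d) (Fin d) F) *ᵥ e k =
      conj h k *ᵥ ((h : Matrix (Fin d) (Fin d) F) *ᵥ e 1) := by
    intro h k
    rw [Matrix.mulVec_mulVec, hconj, ← Matrix.mulVec_mulVec, hL, mul_one]
  apply Nat.card_congr
  refine Equiv.ofBijective (fun h => (conj h, ⟨(h : Matrix (Fin d) (Fin d) F) *ᵥ e 1, ?_⟩)) ⟨?_, ?_⟩
  · intro h0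
    apply he1
    have h1 := congrArg (fun v => ((h⁻¹ : GL (Fin d) F) : Matrix (Fin d) (Fin d) F) *ᵥ v) h0
    simp only [Matrix.mulVec_mulVec, ← Units.val_mul, inv_mul_cancel, Units.val_one, Matrix.one_mulVec,
      Matrix.mulVec_zero] at h1
    exact h1
  · intro h h' heq
    have h1 : conj h = conj h' := congrArg Prod.fst heq
    have h2 : (h : Matrix (Fin d) (Fin d) F) *ᵥ e 1 = (h' : Matrix (Fin d) (Fin d) F) *ᵥ e 1 :=
      congrArg (fun z => (z.2 : Fin d → F)) heq
    apply Units.ext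
    apply Matrix.toLin'.injective
    apply LinearMap.ext
    intro v
    obtain ⟨k, rfl⟩ := e.surjective v
    rw [Matrix.toLin'_apply, Matrix.toLin'_apply, hval h, hval h', h1, h2]
  · rintro ⟨φ, ⟨v, hv0⟩⟩
    let T : (Fin d → F) →ₗ[F] (Fin d → F) :=
      { toFun := fun w => φ (e.symm w) *ᵥ v
        map_add' := fun x y => by rw [map_add, map_add, Matrix.add_mulVec]
        map_smul' := fun c x => by rw [map_smul, map_smul, Matrix.smul_mulVec, RingHom.id_apply] }
    have hinj : Function.Injective T := by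
      rw [← LinearMap.ker_eq_bot, LinearMap.ker_eq_bot']
      intro w hw
      by_contra hw0
      have hk : e.symm w ≠ 0 := by
        rw [Ne, LinearEquiv.map_eq_zero_iff]
        exact hw0
      apply hv0
      have h1 : φ (e.symm w) *ᵥ v = 0 := hw
      have h2 := congrArg (fun u => φ (e.symm w)⁻¹ *ᵥ u) h1
      simp only [Matrix.mulVec_mulVec, ← map_mul, inv_mul_cancel₀ hk, map_one, Matrix.one_mulVec,
        Matrix.mulVec_zero] at h2
      exact h2
    have hunit : IsUnit (LinearMap.toMatrix' T) := by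
      have h1 : IsUnit T := (LinearMap.isUnit_iff_ker_eq_bot T).2 (LinearMap.ker_eq_bot.2 hinj)
      exact h1.map (LinearMap.toMatrixAlgEquiv' : ((Fin d → F) →ₗ[F] (Fin d → F)) ≃ₐ[F] Matrix (Fin d) (Fin d) F)
    obtain ⟨h, hh⟩ := hunit
    have hT : ∀ k, (h : Matrix (Fin d) (Fin d) F) *ᵥ e k = φ k *ᵥ v := by
      intro k
      rw [hh, LinearMap.toMatrix'_mulVec]
      show φ (e.symm (e k)) *ᵥ v = _
      rw [e.symm_apply_apply]
    have hv1 : (h : Matrix (Fin d) (Fin d) F) *ᵥ e 1 = v := by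
      rw [hT, map_one, Matrix.one_mulVec]
    refine ⟨h, Prod.ext ?_ (Subtype.ext hv1)⟩
    apply AlgHom.ext
    intro k
    have h1 : conj h k * (h : Matrix (Fin d) (Fin d) F) = φ k * (h : Matrix (Fin d) (Fin d) F) := by
      apply Matrix.toLin'.injective
      apply LinearMap.ext
      intro w
      obtain ⟨x, rfl⟩ := e.surjective w
      rw [Matrix.toLin'_apply, Matrix.toLin'_apply, hconj, ← Matrix.mulVec_mulVec, hL, hT, ← Matrix.mulVec_mulVec,
        hT, Matrix.mulVec_mulVec, map_mul]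
    have h2 := congrArg (fun z => z * ((h⁻¹ : GL (Fin d) F) : Matrix (Fin d) (Fin d) F)) h1
    simp only [mul_assoc, ← Units.val_mul, mul_inv_cancel, Units.val_one, mul_one] at h2
    exact h2

/-- the pairs -/
theorem card_pairs (hK : finrank F K = d) (hd : 1 ≤ d) (P : ℕ → Prop) :
    Nat.card (K →ₐ[F] Matrix (Fin d) (Fin d) F) *
      Nat.card {u : Kˣ // Algebra.adjoin F {(u : K)} = ⊤ ∧ P (orderOf u)} =
    Nat.card {g : GL (Fin d) F // IrrM F g ∧ P (orderOf g)} * d := by
  classical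
  have hne : Nonempty (Fin d) := ⟨⟨0, hd⟩⟩
  have hfd : FiniteDimensional F K := Module.Finite.of_finite
  have hfin : Finite (K →ₐ[F] Matrix (Fin d) (Fin d) F) :=
    Finite.of_injective (fun φ => (φ : K → Matrix (Fin d) (Fin d) F)) DFunLike.coe_injective
  rw [← Nat.card_prod]
  -- the map to the irreducible matrices
  have hirr : ∀ (φ : K →ₐ[F] Matrix (Fin d) (Fin d) F) (u : Kˣ), Algebra.adjoin F {(u : K)} = ⊤ →
      ∀ g : GL (Fin d) F, φ u = (g : Matrix (Fin d) (Fin d) F) → IrrM F g := by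
    intro φ u hu g hg
    refine ⟨hd, fun Y hY => ?_⟩
    by_cases hY0 : Y = ⊥
    · exact Or.inl hY0
    right
    obtain ⟨v, hvY, hv0⟩ := (Submodule.ne_bot_iff Y).1 hY0
    have hall : ∀ k : K, ∀ w ∈ Y, φ k *ᵥ w ∈ Y := by
      intro k
      have hk : k ∈ Algebra.adjoin F {(u : K)} := by rw [hu]; trivial
      induction hk using Algebra.adjoin_induction with
      | mem x hx =>
        intro w hw
        rw [Set.mem_singleton_iff.1 hx, hg]
        exact hY w hw
      | algebraMap r =>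
        intro w hw
        rw [AlgHom.commutes, Algebra.algebraMap_eq_smul_one, Matrix.smul_mulVec, Matrix.one_mulVec]
        exact Y.smul_mem r hw
      | add x y _ _ hx hy =>
        intro w hw
        rw [map_add, Matrix.add_mulVec]
        exact Y.add_mem (hx w hw) (hy w hw)
      | mul x y _ _ hx hy =>
        intro w hw
        rw [map_mul, ← Matrix.mulVec_mulVec]
        exact hx _ (hy w hw)
    let T : K →ₗ[F] Y :=
      { toFun := fun k => ⟨φ k *ᵥ v, hall k v hvY⟩
        map_add' := fun x y => Subtype.ext (by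
          show φ (x + y) *ᵥ v = φ x *ᵥ v + φ y *ᵥ v
          rw [map_add, Matrix.add_mulVec])
        map_smul' := fun c x => Subtype.ext (by
          show φ (c • x) *ᵥ v = c • (φ x *ᵥ v)
          rw [map_smul, Matrix.smul_mulVec]) }
    have hinj : Function.Injective T := by
      rw [← LinearMap.ker_eq_bot, LinearMap.ker_eq_bot']
      intro k hk
      by_contra hk0
      apply hv0
      have h1 : φ k *ᵥ v = 0 := congrArg Subtype.val hk
      have h2 := congrArg (fun u => φ k⁻¹ *ᵥ u) h1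
      simp only [Matrix.mulVec_mulVec, ← map_mul, inv_mul_cancel₀ hk0, map_one, Matrix.one_mulVec,
        Matrix.mulVec_zero] at h2
      exact h2
    have h1 := LinearMap.finrank_le_finrank_of_injective hinj
    rw [hK] at h1
    apply Submodule.eq_top_of_finrank_eq
    have h2 := Submodule.finrank_le Y
    rw [Module.finrank_fintype_fun_eq_card, Fintype.card_fin] at h2 ⊢
    omega
  let gl (φ : K →ₐ[F] Matrix (Fin d) (Fin d) F) (u : Kˣ) : GL (Fin d) F := Units.map φ.toMonoidHom u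
  have hgl : ∀ φ u, ((gl φ u : GL (Fin d) F) : Matrix (Fin d) (Fin d) F) = φ u := fun φ u => rfl
  let Ψ : (K →ₐ[F] Matrix (Fin d) (Fin d) F) × {u : Kˣ // Algebra.adjoin F {(u : K)} = ⊤ ∧ P (orderOf u)} →
      {g : GL (Fin d) F // IrrM F g ∧ P (orderOf g)} := fun z =>
    ⟨gl z.1 z.2.1, hirr z.1 z.2.1 z.2.2.1 _ (hgl _ _).symm, by
      rw [orderOf_hom hd z.1 (hgl z.1 z.2.1).symm]
      exact z.2.2.2⟩
  have hfib : ∀ g : {g : GL (Fin d) F // IrrM F g ∧ P (orderOf g)}, Nat.card {z // Ψ z = g} = d := by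
    rintro ⟨g, hg, hP⟩
    refine Eq.trans (Nat.card_congr ?_) (card_fibre (K := K) hK hg)
    refine Equiv.ofBijective (fun z => ⟨(z.1.1, z.1.2.1), z.1.2.2.1, ?_⟩) ⟨?_, ?_⟩
    · have h1 := congrArg (fun x => ((x.1 : GL (Fin d) F) : Matrix (Fin d) (Fin d) F)) z.2
      exact h1
    · rintro ⟨⟨φ, ⟨u, h1⟩⟩, h2⟩ ⟨⟨φ', ⟨u', h1'⟩⟩, h2'⟩ heq
      have h3 : (φ, u) = (φ', u') := congrArg Subtype.val heq
      obtain ⟨rfl, rfl⟩ := Prod.mk.inj h3
      rfl
    · rintro ⟨⟨φ, u⟩, h1, h2⟩
      have h3 : P (orderOf u) := by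
        rw [← orderOf_hom hd φ h2]
        exact hP
      exact ⟨⟨(φ, ⟨u, h1, h3⟩), Subtype.ext (Units.ext h2)⟩, rfl⟩
  rw [Nat.card_congr (Equiv.sigmaFiberEquiv Ψ).symm]
  have hf1 : Finite {g : GL (Fin d) F // IrrM F g ∧ P (orderOf g)} := inferInstance
  have := Fintype.ofFinite {g : GL (Fin d) F // IrrM F g ∧ P (orderOf g)}
  rw [Nat.card_sigma, Finset.sum_congr rfl fun g _ => hfib g, Finset.sum_const, Finset.card_univ, smul_eq_mul,
    Nat.card_eq_fintype_card]

end

/-- **RG-L25** -/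
theorem rg_L25 : L25 := by
  intro F K _ _ _ _ _ d hd hK P
  have h1 := card_pairs hK hd P
  rw [card_GL hd hK, mul_assoc (Nat.card (K →ₐ[F] Matrix (Fin d) (Fin d) F)), mul_comm (Nat.card F ^ d - 1), ← mul_assoc,
    h1, mul_comm d]

/-- **RG-L02** -/
theorem rg_L02 : L02 := by
  intro F _ _ d hd
  obtain ⟨K, _, _, _, hrk⟩ : ∃ (K : Type) (_ : Field K) (_ : Finite K) (_ : Algebra F K), finrank F K = d := by
    obtain ⟨p, hp⟩ := CharP.exists F
    have hpr : Fact p.Prime := ⟨CharP.char_is_prime F p⟩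
    have hd0 : NeZero d := ⟨by omega⟩
    exact ⟨FiniteField.Extension F p d, inferInstance, inferInstance, inferInstance,
      FiniteField.finrank_extension F p d⟩
  have h1 := rg_L25 F K d hd hrk (fun _ => True)
  simp only [and_true] at h1
  have hq : 1 < Nat.card F := Finite.one_lt_card
  have hpos : 0 < Nat.card F ^ d - 1 := by
    have := Nat.one_lt_pow (n := d) (by omega) hq
    omega
  have h2 : Nat.card {u : Kˣ // Algebra.adjoin F {(u : K)} = ⊤} ≤ Nat.card F ^ d - 1 := by
    have h3 : Nat.card {u : Kˣ // Algebra.adjoin F {(u : K)} = ⊤} ≤ Nat.card Kˣ :=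
      Nat.card_le_card_of_injective _ Subtype.val_injective
    rw [Nat.card_units, Module.natCard_eq_pow_finrank (K := F) (V := K), hrk] at h3
    exact h3
  apply Nat.le_of_mul_le_mul_right _ hpos
  rw [h1]
  exact Nat.mul_le_mul_left _ h2

end Cfsg.Agent.H383.RG
end

-- part: H343/RG/Res
section
prune_inst 0x30000000000000
set_option linter.all false
open scoped Cfsg.Agent.FastGrp

/-!
# Restrictions and sections of a linear automorphism (helper343, for S5714, task RG-L14)

* `rs y Y h` : the restriction of `y` to the invariant subspace `Y`;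
* `qs` : the automorphism induced on `B / A`, `A ≤ B` invariant;
* `exists_sing` : the vectors with `q = 0` in a subspace with `B = 0`.
-/

set_option autoImplicit false
set_option linter.unusedSectionVars false
set_option linter.unusedVariables false

namespace Cfsg.Agent.H343.RG

open Module Cfsg.Agent.H847.Bs Cfsg.Agent.H50.RG Cfsg.Agent.LieClassical.OrthCore
open Cfsg.Agent.H440.Bs (perp mem_perp mem_perp' finrank_perp)

section Res

variable {F V : Type} [Field F] [AddCommGroup V] [Module F V] [Module.Finite F V]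

/-- restriction to an invariant subspace -/
noncomputable def rs (y : V ≃ₗ[F] V) (Y : Submodule F V) (h : _root_.Cfsg.Agent.H847.Bs.Inv y Y) : Y ≃ₗ[F] Y :=
  LinearEquiv.ofInjectiveEndo ((y : V →ₗ[F] V).restrict h) (by
    intro a b hab
    apply Subtype.ext
    exact y.injective (congrArg Subtype.val hab))

variable {y : V ≃ₗ[F] V} {Y : Submodule F V} (h : _root_.Cfsg.Agent.H847.Bs.Inv y Y)

theorem rs_apply (a : Y) : ((rs y Y h a : Y) : V) = y a := rfl

theorem rs_pow (k : ℕ) (a : Y) : (((rs y Y h ^ k) a : Y) : V) = (y ^ k) a := by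
  induction k generalizing a with
  | zero => rfl
  | succ k ih =>
    rw [pow_succ, pow_succ]
    show (((rs y Y h ^ k) (rs y Y h a) : Y) : V) = (y ^ k) (y a)
    rw [ih]
    rfl

theorem Inv.pow {z : V ≃ₗ[F] V} {W : Submodule F V} (h : _root_.Cfsg.Agent.H847.Bs.Inv z W) (k : ℕ) : _root_.Cfsg.Agent.H847.Bs.Inv (z ^ k) W := by
  induction k with
  | zero => exact fun v hv => hv
  | succ k ih =>
    intro v hv
    rw [pow_succ]
    exact ih _ (h v hv)

theorem mem_of_apply_mem (h : _root_.Cfsg.Agent.H847.Bs.Inv y Y) {v : V} (hv : y v ∈ Y) : v ∈ Y := by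
  obtain ⟨a, ha⟩ := (rs y Y h).surjective ⟨y v, hv⟩
  have h1 : y a = y v := congrArg Subtype.val ha
  rw [← y.injective h1]
  exact a.2

/-- irreducibility of the restriction -/
theorem irr_rs (hi : Irr y Y) : Irr (rs y Y hi.inv) ⊤ := by
  refine ⟨fun _ _ => Submodule.mem_top, ?_, fun W _ hW => ?_⟩
  · intro h0
    apply hi.ne_bot
    rw [Submodule.eq_bot_iff]
    intro v hv
    have : (⟨v, hv⟩ : Y) ∈ (⊤ : Submodule F Y) := Submodule.mem_top
    rw [h0, Submodule.mem_bot] at this
    exact congrArg Subtype.val this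
  · rcases hi.min (W.map Y.subtype) (Submodule.map_subtype_le _ _) (by
      rintro _ ⟨w, hw, rfl⟩
      exact ⟨_, hW w hw, rfl⟩) with h1 | h1
    · left
      rw [Submodule.eq_bot_iff]
      intro w hw
      have : (w : V) ∈ W.map Y.subtype := ⟨w, hw, rfl⟩
      rw [h1, Submodule.mem_bot] at this
      exact Subtype.ext this
    · right
      rw [eq_top_iff]
      rintro w -
      have : (w : V) ∈ W.map Y.subtype := by rw [h1]; exact w.2
      obtain ⟨w', hw', h2⟩ := this
      rw [← Subtype.ext h2]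
      exact hw'

/-- from the restriction of a power back to `V` -/
theorem min_of_irr {z : Y ≃ₗ[F] Y} {w : V ≃ₗ[F] V} (hz : ∀ a : Y, ((z a : Y) : V) = w a) (hi : Irr z ⊤) :
    ∀ W ≤ Y, _root_.Cfsg.Agent.H847.Bs.Inv w W → W = ⊥ ∨ W = Y := by
  intro W hW hi2
  rcases hi.min (W.comap Y.subtype) le_top (by
    intro a ha
    show ((z a : Y) : V) ∈ W
    rw [hz]
    exact hi2 _ ha) with h1 | h1
  · left
    rw [Submodule.eq_bot_iff]
    intro v hv
    have : (⟨v, hW hv⟩ : Y) ∈ W.comap Y.subtype := hv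
    rw [h1, Submodule.mem_bot] at this
    exact congrArg Subtype.val this
  · right
    refine le_antisymm hW fun v hv => ?_
    have : (⟨v, hv⟩ : Y) ∈ W.comap Y.subtype := by rw [h1]; exact Submodule.mem_top
    exact this

end Res

section Quot

variable {F V : Type} [Field F] [AddCommGroup V] [Module F V] [Module.Finite F V] {y : V ≃ₗ[F] V}
  {A B : Submodule F V}

/-- the quotient `B / A` -/
abbrev QQ (A B : Submodule F V) : Type := ↥B ⧸ A.submoduleOf B

theorem le_comap (hA : _root_.Cfsg.Agent.H847.Bs.Inv y A) (hB : _root_.Cfsg.Agent.H847.Bs.Inv y B) :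
    A.submoduleOf B ≤ (A.submoduleOf B).comap (rs y B hB : B →ₗ[F] B) := fun b hb => hA _ hb

/-- the automorphism induced on `B / A` -/
noncomputable def qs (hA : _root_.Cfsg.Agent.H847.Bs.Inv y A) (hB : _root_.Cfsg.Agent.H847.Bs.Inv y B) : QQ A B ≃ₗ[F] QQ A B :=
  LinearEquiv.ofInjectiveEndo (Submodule.mapQ _ _ (rs y B hB : B →ₗ[F] B) (le_comap hA hB)) (by
    rw [← LinearMap.ker_eq_bot, LinearMap.ker_eq_bot']
    intro x hx
    obtain ⟨b, rfl⟩ := Submodule.mkQ_surjective _ x
    rw [Submodule.mkQ_apply, Submodule.mapQ_apply, Submodule.Quotient.mk_eq_zero] at hx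
    rw [Submodule.mkQ_apply, Submodule.Quotient.mk_eq_zero]
    exact mem_of_apply_mem hA hx)

theorem qs_mk (hA : _root_.Cfsg.Agent.H847.Bs.Inv y A) (hB : _root_.Cfsg.Agent.H847.Bs.Inv y B) (b : B) :
    qs hA hB (Submodule.Quotient.mk b : QQ A B) = Submodule.Quotient.mk (rs y B hB b) := rfl

theorem qs_pow (hA : _root_.Cfsg.Agent.H847.Bs.Inv y A) (hB : _root_.Cfsg.Agent.H847.Bs.Inv y B) (k : ℕ) (b : B) :
    (qs hA hB ^ k) (Submodule.Quotient.mk b : QQ A B) = Submodule.Quotient.mk ((rs y B hB ^ k) b) := by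
  induction k generalizing b with
  | zero => rfl
  | succ k ih =>
    rw [pow_succ, pow_succ]
    show (qs hA hB ^ k) (qs hA hB (Submodule.Quotient.mk b)) = _
    rw [qs_mk, ih]
    rfl

theorem irr_qs (hA : _root_.Cfsg.Agent.H847.Bs.Inv y A) (hB : _root_.Cfsg.Agent.H847.Bs.Inv y B) (hAB : A < B)
    (hm : ∀ C, _root_.Cfsg.Agent.H847.Bs.Inv y C → A ≤ C → C ≤ B → C = A ∨ C = B) : Irr (qs hA hB) ⊤ := by
  refine ⟨fun _ _ => Submodule.mem_top, ?_, fun W _ hW => ?_⟩
  · intro h0
    apply hAB.not_ge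
    intro b hb
    have : (Submodule.Quotient.mk (⟨b, hb⟩ : B) : QQ A B) ∈ (⊤ : Submodule F (QQ A B)) := Submodule.mem_top
    rw [h0, Submodule.mem_bot, Submodule.Quotient.mk_eq_zero] at this
    exact this
  · have hmem : ∀ v : V, v ∈ (W.comap (A.submoduleOf B).mkQ).map B.subtype ↔
        ∃ hv : v ∈ B, (Submodule.Quotient.mk (⟨v, hv⟩ : B) : QQ A B) ∈ W := by
      intro v
      constructor
      · rintro ⟨b, hb, rfl⟩
        exact ⟨b.2, hb⟩
      · rintro ⟨hv, h1⟩
        exact ⟨⟨v, hv⟩, h1, rfl⟩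
    rcases hm ((W.comap (A.submoduleOf B).mkQ).map B.subtype) (by
      intro v hv
      obtain ⟨h1, h2⟩ := (hmem v).1 hv
      refine (hmem _).2 ⟨hB v h1, ?_⟩
      exact hW _ h2) (by
      intro a ha
      refine (hmem a).2 ⟨hAB.le ha, ?_⟩
      have : (Submodule.Quotient.mk (⟨a, hAB.le ha⟩ : B) : QQ A B) = 0 := by
        rw [Submodule.Quotient.mk_eq_zero]
        exact ha
      rw [this]
      exact zero_mem _) (Submodule.map_subtype_le _ _) with h1 | h1
    · left
      rw [Submodule.eq_bot_iff]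
      intro x hx
      obtain ⟨⟨b, hb⟩, rfl⟩ := Submodule.mkQ_surjective _ x
      have h2 : b ∈ (W.comap (A.submoduleOf B).mkQ).map B.subtype := (hmem b).2 ⟨hb, hx⟩
      rw [h1] at h2
      rw [Submodule.mkQ_apply, Submodule.Quotient.mk_eq_zero]
      exact h2
    · right
      rw [eq_top_iff]
      rintro x -
      obtain ⟨⟨b, hb⟩, rfl⟩ := Submodule.mkQ_surjective _ x
      have h2 : b ∈ (W.comap (A.submoduleOf B).mkQ).map B.subtype := by rw [h1]; exact hb
      exact ((hmem b).1 h2).2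

theorem finrank_QQ (hAB : A ≤ B) : finrank F (QQ A B) + finrank F A = finrank F B := by
  rw [← (Submodule.submoduleOfEquivOfLe hAB).finrank_eq]
  exact Submodule.finrank_quotient_add_finrank _

/-- minimal overspaces -/
theorem exists_min {P : Submodule F V} (hP : _root_.Cfsg.Agent.H847.Bs.Inv y P) (hA : _root_.Cfsg.Agent.H847.Bs.Inv y A) (hAP : A < P) :
    ∃ B, _root_.Cfsg.Agent.H847.Bs.Inv y B ∧ A < B ∧ B ≤ P ∧ ∀ C, _root_.Cfsg.Agent.H847.Bs.Inv y C → A ≤ C → C ≤ B → C = A ∨ C = B := by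
  induction hn : finrank F P using Nat.strong_induction_on generalizing P with
  | _ n ih =>
    by_cases h : ∀ C, _root_.Cfsg.Agent.H847.Bs.Inv y C → A ≤ C → C ≤ P → C = A ∨ C = P
    · exact ⟨P, hP, hAP, le_rfl, h⟩
    · push Not at h
      obtain ⟨C, hC, hAC, hCP, h1, h2⟩ := h
      obtain ⟨B, h3, h4, h5, h6⟩ := ih _ (hn ▸ Submodule.finrank_lt_finrank_of_lt (lt_of_le_of_ne hCP h2)) hC
        (lt_of_le_of_ne hAC (Ne.symm h1)) rfl
      exact ⟨B, h3, h4, h5.trans hCP, h6⟩

end Quot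

section Sing

variable {F V : Type} [Field F] [Finite F] [AddCommGroup V] [Module F V] [Module.Finite F V]

/-- the vectors with `q = 0` in a totally isotropic subspace -/
theorem exists_sing {Φ : Frm F V} {e : ℕ} (hΦ : Cls Φ e) {Y : Submodule F V} (hB : ∀ x ∈ Y, ∀ w ∈ Y, Φ.B x w = 0) :
    ∃ S ≤ Y, (∀ x, x ∈ S ↔ x ∈ Y ∧ Φ.q x = 0) ∧ finrank F Y ≤ finrank F S + 1 := by
  have hq0 : (∀ x, Φ.q x = 0) → ∃ S ≤ Y, (∀ x, x ∈ S ↔ x ∈ Y ∧ Φ.q x = 0) ∧ finrank F Y ≤ finrank F S + 1 :=
    fun h => ⟨Y, le_rfl, fun x => ⟨fun hx => ⟨hx, h x⟩, fun hx => hx.1⟩, Nat.le_succ _⟩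
  rcases hΦ.2.2 with ⟨h, -⟩ | ⟨r, h, -⟩ | ⟨Q, rfl, -⟩
  · exact hq0 h.q
  · exact hq0 h.q
  · have hadd : ∀ x ∈ Y, ∀ w ∈ Y, Q (x + w) = Q x + Q w := fun x hx w hw => (frmQ Q).q_add x w (hB x hx w hw)
    let S : Submodule F V :=
      { carrier := {x | x ∈ Y ∧ Q x = 0}
        add_mem' := fun {x w} hx hw => ⟨add_mem hx.1 hw.1, by rw [hadd x hx.1 w hw.1, hx.2, hw.2, add_zero]⟩
        zero_mem' := ⟨zero_mem _, QuadraticMap.map_zero Q⟩
        smul_mem' := fun c x hx => ⟨Y.smul_mem c hx.1, by rw [QuadraticMap.map_smul, hx.2, smul_zero]⟩ }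
    have hmem : ∀ x, x ∈ S ↔ x ∈ Y ∧ Q x = 0 := fun x => Iff.rfl
    refine ⟨S, fun x hx => hx.1, hmem, ?_⟩
    by_cases hS : ∀ x ∈ Y, Q x = 0
    · exact (Submodule.finrank_mono fun x hx => (hmem x).2 ⟨hx, hS x hx⟩).trans (Nat.le_succ _)
    · push Not at hS
      obtain ⟨x, hx, hx0⟩ := hS
      have h2 : ringChar F = 2 := by
        by_contra hc
        apply hx0
        have h3 : (2 : F) ≠ 0 := Ring.two_ne_zero hc
        have h4 : QuadraticMap.polar Q x x = 0 := hB x hx x hx
        rw [QuadraticMap.polar_self, two_smul, ← two_mul] at h4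
        exact (mul_eq_zero.1 h4).resolve_left h3
      have : Fintype F := Fintype.ofFinite F
      have hle : Y ≤ S ⊔ Submodule.span F {x} := by
        intro v hv
        obtain ⟨c, hc⟩ := FiniteField.isSquare_of_char_two h2 (-(Q v) * (Q x)⁻¹)
        have h5 : v + c • x ∈ S := by
          refine (hmem _).2 ⟨add_mem hv (Y.smul_mem c hx), ?_⟩
          rw [hadd v hv _ (Y.smul_mem c hx), QuadraticMap.map_smul, smul_eq_mul, ← hc, mul_assoc,
            inv_mul_cancel₀ hx0, mul_one, add_neg_cancel]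
        have h6 : v = (v + c • x) + (-c) • x := by rw [neg_smul, add_neg_cancel_right]
        rw [h6]
        exact Submodule.add_mem_sup h5 (Submodule.smul_mem _ _ (Submodule.mem_span_singleton_self x))
      calc finrank F Y ≤ finrank F (S ⊔ Submodule.span F {x} : Submodule F V) := Submodule.finrank_mono hle
        _ ≤ finrank F S + finrank F (Submodule.span F {x}) := Submodule.finrank_add_le_finrank_add_finrank _ _
        _ ≤ finrank F S + 1 := by
          have := finrank_span_singleton (K := F) (v := x) (by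
            rintro rfl
            exact hx0 (QuadraticMap.map_zero Q))
          omega

end Sing

end Cfsg.Agent.H343.RG
end

-- part: H883/BR/Fam
section
prune_inst 0x30000000000000
set_option linter.all false

/-!
# HUB BR: the interface between the generic part and the families of classical groups
-/

set_option autoImplicit false

namespace Cfsg.Agent.H883.BR

universe u v w

/-- **The input of one family** (all families except `Sp_{2m}(2^f)`).

`n = dim V`, `ρ : G → GL(V)` the natural representation over `K`, `F` the field of the root groups (`q` elements),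
`x` the root groups, `σ : G → GL(W)` the "adjoint" representation: `sl / scalars` for `SL_n`, `SU_n`; `Sym² V = 𝔰𝔭` for
`Sp`, `q` odd; `Λ² V = 𝔰𝔬` for `Ω`, `q` odd; the non-trivial factor of `Λ² V` for `Ω`, `q` even. -/
structure Fam (p n d q : ℕ) {K : Type u} [Field K] (F : Subfield K) {G : Type w} [Group G] {V W : Type u}
    [AddCommGroup V] [Module K V] [AddCommGroup W] [Module K W] (ρ : G →* Module.End K V)
    (σ : G →* Module.End K W) : Prop where
  prime : p.Prime
  char : CharP K p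
  closed : IsAlgClosed K
  /-- every finite subset of `K` lies in a finite subfield -/
  locfin : ∀ S : Set K, S.Finite → ∃ E : Subfield K, Finite E ∧ S ⊆ E
  finF : Finite F
  cardF : Nat.card F = q
  finG : Finite G
  qs : QS G
  fdV : FiniteDimensional K V
  fdW : FiniteDimensional K W
  dimV : Module.finrank K V = n
  two_le : 2 ≤ n
  dimW : Module.finrank K W ≤ n ^ 2
  inj : Function.Injective ρ
  irr : Irr ρ ⊤
  tprim : TPrim ρ
  /-- root groups -/
  root : ∃ (ι : Type w) (x : ι → F → G), OneP F x ∧ PolyDeg ρ F x 1 ∧ PolyDeg σ F x 2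
  /-- `σ` is an irreducible subquotient of `ad ρ` -/
  inh : ∀ M : Subgroup G, Dns (ad ρ) M → Irr σ M
  cen : ∀ (z : G) (c : K), ρ z = c • 1 → σ z = 1
  /-- a root element from the centre of `U`, if `U` has a line of fixed points in `W` -/
  ext : ∀ M U : Subgroup G, U ≤ M → IsPGroup p U → U ≠ ⊥ → Dns (ad ρ) M → ∀ w : W, w ≠ 0 →
    (∀ v : W, (∀ u ∈ U, σ u v = v) ↔ ∃ c : K, v = c • w) →
    ∃ z ∈ U, ∃ a : Module.End K V, a ≠ 0 ∧ a * a = 0 ∧ ρ z = 1 + a ∧
      (∀ b ∈ M, (∀ u ∈ U, b * u * b⁻¹ ∈ U) → ∀ c : K, σ b w = c • w → ad ρ b a = c • a) ∧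
      ∀ S : Submodule K (Module.End K V), Inv (ad ρ) ⊤ S → a ∈ S → d ≤ Module.finrank K S
  /-- the traces of the adjoint module lie in `F` -/
  trF : ∀ g : G, LinearMap.trace K W (σ g) ∈ F
  count : ∀ M : Subgroup G, M ≠ ⊤ → Nat.card M < Nat.choose (q - 1 + d) d
  trn : ∃ g h : G, (LinearMap.trace K W (σ g)) ^ Module.finrank K W ≠
    (LinearMap.trace K W (σ h)) ^ Module.finrank K W
  pw : ∀ k, 0 < k → 2 * k + 1 < q → ∃ g : G, ad ρ (g ^ k) ≠ 1

/-- `G` has the data of a family (`n` the dimension, `q` the size of the field of the root groups) -/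
def HasFam (n q : ℕ) (G : Type w) [Group G] : Prop :=
  ∃ (p d : ℕ) (K : Type u) (_ : Field K) (F : Subfield K) (V W : Type u) (_ : AddCommGroup V) (_ : Module K V)
    (_ : AddCommGroup W) (_ : Module K W) (ρ : G →* Module.End K V) (σ : G →* Module.End K W), Fam p n d q F ρ σ

end Cfsg.Agent.H883.BR
end

-- part: H621/BR/Grp
section
prune_inst 0x156035050e8000080018a014f0201c73b2000402004880000066010005c18c0020828820a930211818b0044500350028131000204040000004000000011901801040000090080108420008000100000000000000000000000000000000030000000000000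
set_option linter.all false
open scoped Cfsg.Agent.FastGrp

-- part: H621/BR/So
section
/-!
# HUB BR, orthogonal groups of odd characteristic: the module `so(V)` (helper621)

`B` a symmetric nondegenerate form on the `K`-space `V`.
* `rt B x y : z ↦ B y z • x - B x z • y`;
* `so B` : the skew endomorphisms;
* `bracket_rt` : `[X, rt x y] = rt (X x) y + rt x (X y)` for `X ∈ so B`;
* `mem_of_rt` : a subspace which contains all `rt x y` contains `so B`;
* `soBasis`, `finrank_so` : the basis `rt (b i) (b j)`, `i < j`, of `so B`; the dimension.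
-/

set_option autoImplicit false

namespace Cfsg.Agent.H621.BR

open Module

variable {K : Type*} [Field K] {V : Type*} [AddCommGroup V] [Module K V] (B : LinearMap.BilinForm K V)

/-- the elements `x ∧ y` of `so(V)` -/
def rt (x y : V) : Module.End K V := (B y).smulRight x - (B x).smulRight y

theorem rt_apply (x y z : V) : rt B x y z = B y z • x - B x z • y := rfl

theorem rt_self (x : V) : rt B x x = 0 := by
  ext z
  rw [rt_apply, sub_self]
  rfl

theorem rt_swap (x y : V) : rt B y x = - rt B x y := by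
  ext z
  rw [LinearMap.neg_apply, rt_apply, rt_apply, neg_sub]

theorem rt_add_left (x x' y : V) : rt B (x + x') y = rt B x y + rt B x' y := by
  ext z
  rw [LinearMap.add_apply, rt_apply, rt_apply, rt_apply, map_add, LinearMap.add_apply]
  module

theorem rt_smul_left (c : K) (x y : V) : rt B (c • x) y = c • rt B x y := by
  ext z
  rw [LinearMap.smul_apply, rt_apply, rt_apply, map_smul, LinearMap.smul_apply, smul_eq_mul]
  module

theorem rt_add_right (x y y' : V) : rt B x (y + y') = rt B x y + rt B x y' := by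
  rw [rt_swap B (y + y') x, rt_add_left, rt_swap B y x, rt_swap B y' x]
  abel

theorem rt_smul_right (c : K) (x y : V) : rt B x (c • y) = c • rt B x y := by
  rw [rt_swap B (c • y) x, rt_smul_left, rt_swap B y x, smul_neg]

/-- the bilinear map `(x, y) ↦ rt x y` -/
def rtHom : V →ₗ[K] V →ₗ[K] Module.End K V :=
  LinearMap.mk₂ K (rt B) (rt_add_left B) (rt_smul_left B) (rt_add_right B) (rt_smul_right B)

@[simp] theorem rtHom_apply (x y : V) : rtHom B x y = rt B x y := rfl

theorem rt_sub_right (x y y' : V) : rt B x (y - y') = rt B x y - rt B x y' := by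
  simp only [← rtHom_apply, map_sub]

theorem rt_neg_right (x y : V) : rt B x (-y) = - rt B x y := by
  simp only [← rtHom_apply, map_neg]

/-- the skew endomorphisms -/
def so : Submodule K (Module.End K V) where
  carrier := {X | ∀ v w, B (X v) w = - B v (X w)}
  zero_mem' := fun v w => by simp
  add_mem' := fun {X Y} hX hY v w => by
    rw [LinearMap.add_apply, LinearMap.add_apply, map_add, map_add, LinearMap.add_apply, hX, hY]
    ring
  smul_mem' := fun c X hX v w => by
    rw [LinearMap.smul_apply, LinearMap.smul_apply, map_smul, map_smul, LinearMap.smul_apply, hX, smul_eq_mul,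
      smul_eq_mul]
    ring

variable {B}
variable (hs : ∀ x y, B x y = B y x)

include hs

theorem rt_mem_so (x y : V) : rt B x y ∈ so B := by
  intro v w
  simp only [rt_apply, rt_apply, map_sub, map_smul, map_smul, map_sub, map_smul, map_smul, LinearMap.sub_apply,
    LinearMap.smul_apply, LinearMap.smul_apply, smul_eq_mul, smul_eq_mul, smul_eq_mul, smul_eq_mul, hs v x, hs v y]
  ring

omit hs in
theorem bracket_rt {X : Module.End K V} (hX : X ∈ so B) (x y : V) :
    X * rt B x y - rt B x y * X = rt B (X x) y + rt B x (X y) := by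
  ext z
  rw [LinearMap.sub_apply, Module.End.mul_apply, Module.End.mul_apply, LinearMap.add_apply, rt_apply, rt_apply,
    rt_apply, rt_apply, map_sub, map_smul, map_smul, hX x z, hX y z]
  module

omit hs in
/-- `a X a` for `a = rt x y` -/
theorem rt_mul_mul (X : Module.End K V) (x y z : V) :
    (rt B x y * X * rt B x y) z =
      (B y z * B y (X x) - B x z * B y (X y)) • x - (B y z * B x (X x) - B x z * B x (X y)) • y := by
  rw [Module.End.mul_apply, Module.End.mul_apply, rt_apply, rt_apply]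
  simp only [map_sub, map_smul, smul_eq_mul]

theorem skew_self (h2 : (2 : K) ≠ 0) {X : Module.End K V} (hX : X ∈ so B) (x : V) : B x (X x) = 0 := by
  have h1 := hX x x
  rw [hs (X x) x] at h1
  have h3 : (2 : K) * B x (X x) = 0 := by linear_combination h1
  exact (mul_eq_zero.1 h3).resolve_left h2

/-- `a X a = B (y, X x) a` for skew `X` -/
theorem rt_mul_mul_skew (h2 : (2 : K) ≠ 0) {X : Module.End K V} (hX : X ∈ so B) (x y : V) :
    rt B x y * X * rt B x y = B y (X x) • rt B x y := by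
  ext z
  rw [rt_mul_mul, skew_self hs h2 hX x, skew_self hs h2 hX y, LinearMap.smul_apply, rt_apply, hs x (X y), hX y x]
  module

section Basis

variable {ι : Type*} [Fintype ι] [DecidableEq ι] (b : Basis ι K V) (hB : B.Nondegenerate)

omit hs in
theorem sum_dual (x : V) : ∑ i, B x (b i) • B.dualBasis hB b i = x := by
  conv_rhs => rw [← (B.dualBasis hB b).sum_repr x]
  simp only [LinearMap.BilinForm.dualBasis_repr_apply]

omit hs in
theorem sum_dual' (x : V) : ∑ i, B (B.dualBasis hB b i) x • b i = x := by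
  have h1 : ∀ i, B (B.dualBasis hB b i) x = b.repr x i := by
    intro i
    conv_lhs => rw [← b.sum_repr x]
    rw [map_sum]
    simp only [map_smul, LinearMap.BilinForm.apply_dualBasis_left, smul_eq_mul, mul_ite, mul_one, mul_zero]
    rw [Finset.sum_ite_eq' Finset.univ i]
    simp only [_root_.Finset.mem_univ, ↓ _root_.reduceIte]
  simp only [h1]
  exact b.sum_repr x

/-- a skew endomorphism is a sum of elements `rt x y` -/
theorem two_smul_eq {X : Module.End K V} (hX : X ∈ so B) :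
    (2 : K) • X = ∑ i, rt B (X (b i)) (B.dualBasis hB b i) := by
  ext z
  rw [LinearMap.sum_apply, LinearMap.smul_apply]
  simp only [rt_apply]
  rw [Finset.sum_sub_distrib]
  have h1 : ∑ i, B (B.dualBasis hB b i) z • X (b i) = X z := by
    conv_rhs => rw [← sum_dual' b hB z, map_sum]
    simp only [map_smul]
  have h2 : ∑ i, B (X (b i)) z • B.dualBasis hB b i = - X z := by
    have h3 : ∀ i, B (X (b i)) z = - B (X z) (b i) := fun i => by rw [hX, hs (b i)]
    simp only [h3, neg_smul, Finset.sum_neg_distrib]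
    rw [sum_dual b hB]
  rw [h1, h2]
  module

include b hB in
/-- **a subspace which contains all `rt x y` contains `so B`** -/
theorem mem_of_rt (h2 : (2 : K) ≠ 0) {S : Submodule K (Module.End K V)} (hS : ∀ x y, rt B x y ∈ S)
    {X : Module.End K V} (hX : X ∈ so B) : X ∈ S := by
  have h1 : (2 : K) • X ∈ S := by
    rw [two_smul_eq hs b hB hX]
    exact Submodule.sum_mem _ fun i _ => hS _ _
  have h3 := S.smul_mem (2 : K)⁻¹ h1
  rwa [smul_smul, inv_mul_cancel₀ h2, one_smul] at h3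

end Basis

section Dim

variable {n : ℕ} (b : Basis (Fin n) K V) (hB : B.Nondegenerate)

include hB in
theorem linearIndependent_rt :
    LinearIndependent K fun p : {p : Fin n × Fin n // p.1 < p.2} => rt B (b p.1.1) (b p.1.2) := by
  classical
  rw [Fintype.linearIndependent_iff]
  rintro g hg ⟨⟨i, k⟩, hik⟩
  have hik' : i < k := hik
  have h1 := congrArg (fun X : Module.End K V => b.repr (X (B.dualBasis hB b k)) i) hg
  simp only [LinearMap.sum_apply, LinearMap.smul_apply, rt_apply, map_sum, Finsupp.coe_finsetSum, Finset.sum_apply,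
    map_smul, map_sub, Finsupp.smul_apply, Finsupp.sub_apply, smul_eq_mul, Basis.repr_self,
    LinearMap.zero_apply, map_zero, Finsupp.coe_zero, Pi.zero_apply] at h1
  rw [Finset.sum_eq_single ⟨⟨i, k⟩, hik⟩] at h1
  · simp only [Finsupp.single_apply] at h1
    rw [hs (b k), LinearMap.BilinForm.apply_dualBasis_left, if_pos rfl, if_neg hik'.ne'] at h1
    simpa using h1
  · rintro ⟨⟨i', k'⟩, hik2⟩ - hne
    have hik2' : i' < k' := hik2
    simp only [Finsupp.single_apply]
    rw [hs (b k'), hs (b i'), LinearMap.BilinForm.apply_dualBasis_left, LinearMap.BilinForm.apply_dualBasis_left]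
    by_cases e1 : k' = k
    · have e2 : i' ≠ i := by
        rintro rfl
        exact hne (by subst e1; rfl)
      have e3 : i' ≠ k := by
        rintro rfl
        rw [e1] at hik2'
        exact lt_irrefl _ hik2'
      rw [if_neg e2, if_neg e3]
      ring
    · by_cases e4 : i' = k
      · have e5 : k' ≠ i := by
          rintro rfl
          rw [e4] at hik2'
          exact lt_asymm hik' hik2'
        rw [if_neg e1, if_neg e5]
        ring
      · rw [if_neg e1, if_neg e4]
        ring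
  · intro h
    exact absurd (Finset.mem_univ _) h

include b hB in
theorem span_rt (h2 : (2 : K) ≠ 0) :
    Submodule.span K (Set.range fun p : {p : Fin n × Fin n // p.1 < p.2} => rt B (b p.1.1) (b p.1.2)) = so B := by
  classical
  apply le_antisymm
  · rw [Submodule.span_le]
    rintro _ ⟨p, rfl⟩
    exact rt_mem_so hs _ _
  · intro X hX
    refine mem_of_rt hs b hB h2 (fun x y => ?_) hX
    set S := Submodule.span K (Set.range fun p : {p : Fin n × Fin n // p.1 < p.2} => rt B (b p.1.1) (b p.1.2)) with hS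
    have h1 : ∀ i j, rt B (b i) (b j) ∈ S := by
      intro i j
      rcases lt_trichotomy i j with h | h | h
      · exact Submodule.subset_span ⟨⟨(i, j), h⟩, rfl⟩
      · rw [h, rt_self]
        exact S.zero_mem
      · rw [rt_swap B (b j) (b i)]
        exact S.neg_mem (Submodule.subset_span ⟨⟨(j, i), h⟩, rfl⟩)
    rw [← rtHom_apply, ← b.sum_repr x, ← b.sum_repr y]
    simp only [map_sum, map_smul, LinearMap.sum_apply, LinearMap.smul_apply, rtHom_apply]
    exact Submodule.sum_mem _ fun i _ => Submodule.smul_mem _ _ (Submodule.sum_mem _ fun j _ =>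
      Submodule.smul_mem _ _ (h1 _ _))

/-- the basis `rt (b i) (b j)`, `i < j`, of `so B` -/
noncomputable def soBasis (h2 : (2 : K) ≠ 0) : Basis {p : Fin n × Fin n // p.1 < p.2} K (so B) :=
  (Basis.span (linearIndependent_rt hs b hB)).map (LinearEquiv.ofEq _ _ (span_rt hs b hB h2))

omit [Field K] [AddCommGroup V] [Module K V] hs in
theorem card_pairs : Fintype.card {p : Fin n × Fin n // p.1 < p.2} = n * (n - 1) / 2 := by
  have e : {p : Fin n × Fin n // p.1 < p.2} ≃ Σ j : Fin n, {i : Fin n // i < j} :=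
    { toFun := fun p => ⟨p.1.2, ⟨p.1.1, p.2⟩⟩
      invFun := fun q => ⟨(q.2.1, q.1), q.2.2⟩
      left_inv := fun _ => rfl
      right_inv := fun _ => rfl }
  rw [Fintype.card_congr e, Fintype.card_sigma]
  have h1 : ∀ j : Fin n, Fintype.card {i : Fin n // i < j} = j := by
    intro j
    rw [Fintype.card_subtype]
    have h2 : Finset.univ.filter (fun i : Fin n => i < j) = Finset.Iio j := by
      ext i
      simp only [_root_.Finset.mem_filter, _root_.Finset.mem_univ, _root_.true_and, _root_.Finset.mem_Iio]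
    rw [h2, Fin.card_Iio]
  simp only [h1]
  rw [Fin.sum_univ_eq_sum_range (fun i => i) n, Finset.sum_range_id]

include b hB in
/-- **the dimension of `so B`** -/
theorem finrank_so (h2 : (2 : K) ≠ 0) : finrank K (so B) = n * (n - 1) / 2 := by
  rw [finrank_eq_card_basis (soBasis hs b hB h2), card_pairs]

end Dim

end Cfsg.Agent.H621.BR
end

-- part: H621/BR/Rat
section
/-!
# HUB BR, orthogonal groups: a quadratic space over `F` inside a `K`-space (helper621)

`Ext Q j B` : `j : V₀ → V` is the extension of scalars of the quadratic space `V₀` over `F` to the `K`-space `V` with the bilinear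
form `B`. The roots are the elements `rt B (j u) (j v)`, `u`, `v` orthogonal singular vectors of `V₀`.

* `Ext.scalar_of_rt` : `a X a = 0` for all roots implies that `X` is a scalar;
* `Ext.irr` : a subspace invariant under all roots is `0` or `V`;
* `Ext.rt_mem` : a subspace of `End V` which contains the roots contains all `rt x y` (odd characteristic);
* `Ext.so_le` : a non-zero subspace of `so B` invariant under `X ↦ [a, X]`, `a X a` for the roots `a` is `so B`.
-/

set_option autoImplicit false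
set_option linter.unusedSectionVars false

namespace Cfsg.Agent.H621.BR

open Module QuadraticMap Cfsg.Agent.LieClassical.OrthCore Cfsg.Agent.LieClassical.OrthTrans

variable {F K : Type*} [Field F] [Field K] [Algebra F K] {V₀ V : Type*} [AddCommGroup V₀] [Module F V₀]
  [AddCommGroup V] [Module K V]

/-- extension of scalars of a quadratic space -/
structure Ext (Q : QuadraticForm F V₀) (j : V₀ →+ V) (B : LinearMap.BilinForm K V) : Prop where
  smul : ∀ (c : F) v, j (c • v) = algebraMap F K c • j v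
  span : Submodule.span K (Set.range j) = ⊤
  form : ∀ u v, B (j u) (j v) = algebraMap F K (polar Q u v)
  symm : ∀ x y, B x y = B y x
  nd : ∀ x, (∀ y, B x y = 0) → x = 0

variable {Q : QuadraticForm F V₀} {j : V₀ →+ V} {B : LinearMap.BilinForm K V} (h : Ext Q j B)

include h

theorem Ext.form_zero {u v : V₀} (huv : polar Q u v = 0) : B (j u) (j v) = 0 := by
  rw [h.form, huv, map_zero]

theorem Ext.form_one {u v : V₀} (huv : polar Q u v = 1) : B (j u) (j v) = 1 := by
  rw [h.form, huv, map_one]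

theorem Ext.form_zero' {u v : V₀} (huv : polar Q u v = 0) : B (j v) (j u) = 0 := by
  rw [h.symm, h.form_zero huv]

theorem Ext.form_one' {u v : V₀} (huv : polar Q u v = 1) : B (j v) (j u) = 1 := by
  rw [h.symm, h.form_one huv]

/-- a vector orthogonal to all rational vectors -/
theorem Ext.eq_zero {x : V} (hx : ∀ v : V₀, B (j v) x = 0) : x = 0 := by
  apply h.nd
  intro y
  have hy : y ∈ Submodule.span K (Set.range j) := by rw [h.span]; trivial
  induction hy using Submodule.span_induction with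
  | mem z hz =>
    obtain ⟨v, rfl⟩ := hz
    rw [h.symm, hx]
  | zero => rw [map_zero]
  | add a b _ _ ha hb => rw [map_add, ha, hb, add_zero]
  | smul c a _ ha => rw [map_smul, ha, smul_zero]

/-- a subspace containing the rational vectors -/
theorem Ext.eq_top {U : Submodule K V} (hU : ∀ v : V₀, j v ∈ U) : U = ⊤ := by
  rw [eq_top_iff, ← h.span, Submodule.span_le]
  rintro _ ⟨v, rfl⟩
  exact hU v

/-- `B x` on the rational vectors orthogonal to `u` -/
theorem Ext.eq_smul (hQ : Nondeg Q) {u : V₀} (hu : u ≠ 0) {x : V}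
    (hx : ∀ v : V₀, polar Q u v = 0 → B (j v) x = 0) : ∃ c : K, x = c • j u := by
  obtain ⟨w, hw⟩ := hQ.exists_polar_eq hu 1
  refine ⟨B (j w) x, ?_⟩
  rw [← sub_eq_zero]
  apply h.eq_zero
  intro v
  have h1 : polar Q u (v - polar Q u v • w) = 0 := by
    rw [polar_sub_right, polar_smul_right, hw, smul_eq_mul, mul_one, sub_self]
  have h2 := hx _ h1
  rw [map_sub, h.smul, map_sub, map_smul, LinearMap.sub_apply, LinearMap.smul_apply, smul_eq_mul, sub_eq_zero] at h2
  rw [map_sub, map_smul, smul_eq_mul, h.symm (j v) (j u), h.form u v, h2]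
  ring

theorem Ext.j_ne (hQ : Nondeg Q) {u : V₀} (hu : u ≠ 0) : j u ≠ 0 := by
  intro h0
  obtain ⟨w, hw⟩ := hQ.exists_polar_eq hu 1
  have h1 := h.form_one hw
  rw [h0, map_zero, LinearMap.zero_apply] at h1
  exact zero_ne_one h1

omit h in
/-- singular partners: `v` singular, orthogonal to `u` and independent of it -/
theorem exists_partner (hG : Good Q) {u : V₀} (hu : Q u = 0) (hu0 : u ≠ 0) :
    ∃ u' v v' : V₀, Hyp Q u u' ∧ Hyp Q v v' ∧ polar Q u v = 0 ∧ polar Q u v' = 0 ∧ polar Q u' v = 0 ∧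
      polar Q u' v' = 0 := by
  obtain ⟨u', hu'⟩ := Cfsg.Agent.LieClassical.OrthTrans.exists_hyp hG.nondeg hu hu0
  obtain ⟨v, v', hv, h1, h2, h3, h4⟩ := hG.exists_hyp2 hu'
  exact ⟨u', v, v', hu', hv, h1, h2, h3, h4⟩

omit h in
/-- additive properties of the singular vectors orthogonal to `u` -/
theorem perp_induction (hG : Good Q) {u : V₀} (hu : Q u = 0) (hu0 : u ≠ 0) {P : V₀ → Prop}
    (hadd : ∀ a c, P a → P c → P (a + c)) (hsing : ∀ a, Q a = 0 → polar Q u a = 0 → P a) (v : V₀)
    (hv : polar Q u v = 0) : P v := by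
  obtain ⟨u', z, w, h1, h2, h3, h4, -, -⟩ := exists_partner hG hu hu0
  exact sing_induction_perp h2 h3 h4 h3 h4 (P := P) (fun a c _ _ _ _ ha hc => hadd a c ha hc)
    (fun a h5 h6 _ => hsing a h5 h6) v hv hv

omit h in
/-- a singular vector orthogonal to two given singular vectors -/
theorem exists_common (hG : Good Q) {u v : V₀} (hu : Q u = 0) (hu0 : u ≠ 0) (hv : Q v = 0) :
    ∃ w, w ≠ 0 ∧ Q w = 0 ∧ polar Q u w = 0 ∧ polar Q w v = 0 := by
  by_cases huv : polar Q u v = 0
  · exact ⟨u, hu0, hu, polar_self_of_sing hu, huv⟩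
  · have hyp : Hyp Q u ((polar Q u v)⁻¹ • v) :=
      ⟨hu, by rw [QuadraticMap.map_smul, hv, smul_zero], by
        rw [polar_smul_right, smul_eq_mul, inv_mul_cancel₀ huv]⟩
    obtain ⟨w, hw0, hw, h1, h2⟩ := hG.perp _ _ hyp
    refine ⟨w, hw0, hw, h1, ?_⟩
    rw [polar_smul_left, smul_eq_mul] at h2
    rw [polar_comm]
    exact (mul_eq_zero.1 h2).resolve_left (inv_ne_zero huv)

/-! ### `a X a = 0` -/

theorem Ext.pair_zero (hQ : Nondeg Q) {X : Module.End K V} {u v : V₀} (hi : ∀ c : F, v ≠ c • u)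
    (hi' : ∀ c : F, u ≠ c • v) (hX : rt B (j u) (j v) * X * rt B (j u) (j v) = 0) :
    B (j v) (X (j u)) = 0 ∧ B (j u) (X (j u)) = 0 := by
  obtain ⟨v', h1, h2⟩ := exists_sep hQ hi
  obtain ⟨u', h3, h4⟩ := exists_sep hQ hi'
  have e1 := congrArg (fun Y : Module.End K V => Y (j v')) hX
  simp only [LinearMap.zero_apply] at e1
  rw [rt_mul_mul, h.form_one h2, h.form_zero h1, one_mul, one_mul, zero_mul, zero_mul, sub_zero, sub_zero] at e1
  have e2 := congrArg (fun z : V => B z (j u')) e1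
  have e3 := congrArg (fun z : V => B z (j v')) e1
  simp only [map_sub, map_smul, LinearMap.sub_apply, LinearMap.smul_apply, map_zero, LinearMap.zero_apply] at e2 e3
  rw [h.form_one h4, h.form_zero h3] at e2
  rw [h.form_zero h1, h.form_one h2] at e3
  constructor
  · simpa only [_root_.smul_eq_mul, _root_.mul_one, _root_.MulZeroClass.mul_zero, _root_.sub_zero] using e2
  · simpa only [_root_.smul_eq_mul, _root_.MulZeroClass.mul_zero, _root_.mul_one, _root_.zero_sub, _root_.neg_eq_zero] using e3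

omit h in
theorem ne_smul_of_perp {u v v' : V₀} (h1 : polar Q v v' = 1) (h2 : polar Q u v' = 0) (c : F) : v ≠ c • u := by
  intro h
  rw [h, polar_smul_left, h2, smul_zero] at h1
  exact zero_ne_one h1

theorem Ext.eig_of_rt (hG : Good Q) {X : Module.End K V} (hX : ∀ u v : V₀, Q u = 0 → Q v = 0 → polar Q u v = 0 →
    rt B (j u) (j v) * X * rt B (j u) (j v) = 0) {u : V₀} (hu : Q u = 0) (hu0 : u ≠ 0) : ∃ c : K, X (j u) = c • j u := by
  apply h.eq_smul hG.nondeg hu0
  have huu : B (j u) (X (j u)) = 0 := by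
    obtain ⟨u', v, v', h1, h2, h3, h4, h5, h6⟩ := exists_partner hG hu hu0
    exact (h.pair_zero hG.nondeg (ne_smul_of_perp h2.pair h4)
      (ne_smul_of_perp h1.pair (polar_zero_of_comm h5)) (hX u v hu h2.left h3)).2
  intro v hv
  refine perp_induction hG hu hu0 (P := fun v => B (j v) (X (j u)) = 0) (fun a c ha hc => ?_) (fun a ha hau => ?_) v hv
  · rw [map_add, map_add, LinearMap.add_apply, ha, hc, add_zero]
  · by_cases hc : ∃ c : F, a = c • u
    · obtain ⟨c, rfl⟩ := hc
      rw [h.smul, map_smul, LinearMap.smul_apply, huu, smul_zero]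
    · push Not at hc
      refine (h.pair_zero hG.nondeg hc (fun c hc' => ?_) (hX u a hu ha hau)).1
      by_cases hc0 : c = 0
      · rw [hc0, zero_smul] at hc'
        exact hu0 hc'
      · apply hc c⁻¹
        rw [hc', smul_smul, inv_mul_cancel₀ hc0, one_smul]

/-- orthogonal singular vectors have the same eigenvalue -/
theorem Ext.same_eig (hG : Good Q) {X : Module.End K V} (hX : ∀ u : V₀, Q u = 0 → u ≠ 0 → ∃ c : K, X (j u) = c • j u)
    {u v : V₀} (hu : Q u = 0) (hu0 : u ≠ 0) (hv : Q v = 0) (huv : polar Q u v = 0) {c : K} (hc : X (j u) = c • j u) :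
    X (j v) = c • j v := by
  by_cases hd : ∃ d : F, v = d • u
  · obtain ⟨d, rfl⟩ := hd
    rw [h.smul, map_smul, hc, smul_comm]
  push Not at hd
  have hv0 : v ≠ 0 := by simpa using hd 0
  have hd' : ∀ d : F, u ≠ d • v := by
    intro d hd'
    by_cases hd0 : d = 0
    · rw [hd0, zero_smul] at hd'
      exact hu0 hd'
    · apply hd d⁻¹
      rw [hd', smul_smul, inv_mul_cancel₀ hd0, one_smul]
  obtain ⟨v', h1, h2⟩ := exists_sep hG.nondeg hd
  obtain ⟨u', h3, h4⟩ := exists_sep hG.nondeg hd'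
  obtain ⟨c', hc'⟩ := hX v hv hv0
  have huv0 : u + v ≠ 0 := by
    intro h0
    apply hd (-1)
    rw [neg_smul, one_smul, eq_neg_iff_add_eq_zero, add_comm, h0]
  obtain ⟨m, hm⟩ := hX (u + v) (by rw [Q_add, hu, hv, huv, add_zero, add_zero]) huv0
  rw [map_add, map_add, hc, hc', smul_add] at hm
  have e2 := congrArg (fun z : V => B z (j u')) hm
  have e3 := congrArg (fun z : V => B z (j v')) hm
  simp only [map_add, map_smul, LinearMap.add_apply, LinearMap.smul_apply] at e2 e3
  rw [h.form_one h4, h.form_zero h3] at e2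
  rw [h.form_zero h1, h.form_one h2] at e3
  simp only [smul_eq_mul, mul_one, mul_zero, add_zero, zero_add] at e2 e3
  rw [hc', e3, ← e2]

/-- **`a X a = 0` for all roots `a` implies that `X` is a scalar** -/
theorem Ext.scalar_of_rt (hG : Good Q) {X : Module.End K V} (hX : ∀ u v : V₀, Q u = 0 → Q v = 0 → polar Q u v = 0 →
    rt B (j u) (j v) * X * rt B (j u) (j v) = 0) : ∃ c : K, X = c • 1 := by
  have h0 : ∀ u : V₀, Q u = 0 → u ≠ 0 → ∃ c : K, X (j u) = c • j u := fun u hu hu0 => h.eig_of_rt hG hX hu hu0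
  obtain ⟨x, y, hxy⟩ := hG.exists_hyp
  obtain ⟨c, hc⟩ := h0 x hxy.left hxy.left_ne
  refine ⟨c, ?_⟩
  have key : ∀ v : V₀, X (j v) = c • j v := by
    refine sing_induction hxy (P := fun v => X (j v) = c • j v) (fun a b ha hb => ?_) (fun a ha => ?_)
    · rw [map_add, map_add, ha, hb, smul_add]
    · obtain ⟨w, hw0, hw, h1, h2⟩ := exists_common hG hxy.left hxy.left_ne ha
      exact h.same_eig hG h0 hw hw0 ha h2 (h.same_eig hG h0 hxy.left hxy.left_ne hw h1 hc)
  have h1 : LinearMap.eqLocus X (c • (1 : Module.End K V)) = ⊤ := h.eq_top fun v => by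
    rw [LinearMap.mem_eqLocus, key]
    rfl
  exact LinearMap.eqLocus_eq_top.1 h1

/-! ### irreducibility -/

/-- **a subspace invariant under all roots** -/
theorem Ext.irr (hG : Good Q) {U : Submodule K V} (hU : ∀ u v : V₀, Q u = 0 → Q v = 0 → polar Q u v = 0 →
    ∀ x ∈ U, rt B (j u) (j v) x ∈ U) : U = ⊥ ∨ U = ⊤ := by
  by_cases hU0 : U = ⊥
  · exact Or.inl hU0
  right
  obtain ⟨x, hxU, hx0⟩ := Submodule.exists_mem_ne_zero_of_ne_bot hU0
  obtain ⟨x₀, y₀, hxy⟩ := hG.exists_hyp
  -- a singular vector not orthogonal to `x`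
  obtain ⟨u, hu, hux⟩ : ∃ u : V₀, Q u = 0 ∧ B (j u) x ≠ 0 := by
    by_contra hcon
    push Not at hcon
    apply hx0
    apply h.eq_zero
    exact sing_induction hxy (P := fun v => B (j v) x = 0)
      (fun a b ha hb => by rw [map_add, map_add, LinearMap.add_apply, ha, hb, add_zero]) hcon
  have hu0 : u ≠ 0 := by
    rintro rfl
    rw [map_zero, map_zero, LinearMap.zero_apply] at hux
    exact hux rfl
  obtain ⟨u', v, v', h1, h2, h3, h4, h5, h6⟩ := exists_partner hG hu hu0
  -- `j u ∈ U`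
  have hju : j u ∈ U := by
    have e1 := hU u v hu h2.left h3 x hxU
    have e2 := hU u v' hu h2.right h4 _ e1
    simp only [rt_apply, rt_apply, map_sub (B (j v')) ((B (j v)) x • j u) ((B (j u)) x • j v), map_sub (B (j u)) ((B (j v)) x • j u) ((B (j u)) x • j v), map_smul, map_smul (B (j v')) ((B (j u)) x) (j v), map_smul (B (j u)) ((B (j v)) x) (j u), map_smul (B (j u)) ((B (j u)) x) (j v), h.form_zero' h4,       h.form_one' h2.pair, h.form_zero (polar_self_of_sing hu), h.form_zero h3] at e2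
    simp only [smul_eq_mul, mul_zero, mul_one, zero_sub, sub_zero, zero_smul, neg_smul] at e2
    have e3 := U.smul_mem (-(B (j u) x))⁻¹ e2
    rwa [← neg_smul, smul_smul, inv_mul_cancel₀ (neg_ne_zero.2 hux), one_smul] at e3
  -- orthogonal singular vectors
  have hstep : ∀ u w : V₀, Q u = 0 → u ≠ 0 → Q w = 0 → polar Q u w = 0 → j u ∈ U → j w ∈ U := by
    intro u w hu hu0 hw huw hju
    by_cases hd : ∃ d : F, w = d • u
    · obtain ⟨d, rfl⟩ := hd
      rw [h.smul]
      exact U.smul_mem _ hju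
    push Not at hd
    have hd' : ∀ d : F, u ≠ d • w := by
      intro d hd'
      by_cases hd0 : d = 0
      · rw [hd0, zero_smul] at hd'
        exact hu0 hd'
      · apply hd d⁻¹
        rw [hd', smul_smul, inv_mul_cancel₀ hd0, one_smul]
    obtain ⟨y, hy1, hy2⟩ := exists_sep hG.nondeg hd'
    have h7 : Q (y + (-Q y) • u) = 0 := by
      rw [Q_add, QuadraticMap.map_smul, hu, polar_smul_right, polar_comm Q y u, hy2]
      simp
    have h8 : polar Q w (y + (-Q y) • u) = 0 := by
      rw [polar_add_right, polar_smul_right, hy1, polar_comm Q w u, huw, smul_zero, add_zero]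
    have h9 : polar Q u (y + (-Q y) • u) = 1 := by
      rw [polar_add_right, polar_smul_right, hy2, polar_self_of_sing hu, smul_zero, add_zero]
    have e1 := hU w _ hw h7 h8 _ hju
    rwa [rt_apply, h.form_one' h9, h.form_zero' huw, one_smul, zero_smul, sub_zero] at e1
  refine h.eq_top fun v => ?_
  refine sing_induction hxy (P := fun v => j v ∈ U) (fun a b ha hb => ?_) (fun a ha => ?_) v
  · rw [map_add]
    exact U.add_mem ha hb
  · obtain ⟨w, hw0, hw, h7, h8⟩ := exists_common hG hu hu0 ha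
    exact hstep w a hw hw0 ha h8 (hstep u w hu hu0 hw h7 hju)

/-! ### the roots span -/

/-- **a subspace of `End V` which contains the roots contains all `rt x y`** -/
theorem Ext.rt_mem (hG : Good Q) (h2 : (2 : K) ≠ 0) {S : Submodule K (Module.End K V)}
    (hS : ∀ u v : V₀, Q u = 0 → Q v = 0 → polar Q u v = 0 → rt B (j u) (j v) ∈ S) (x y : V) : rt B x y ∈ S := by
  -- hyperbolic pairs
  have e1 : ∀ u v : V₀, Hyp Q u v → rt B (j u) (j v) ∈ S := by
    intro u v huv
    obtain ⟨z, w, hzw, h3, h4, h5, h6⟩ := hG.exists_hyp2 huv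
    have k1 : rt B (j (u + z)) (j (v - w)) ∈ S := by
      apply hS
      · rw [Q_add, huv.left, hzw.left, h3, add_zero, add_zero]
      · rw [sub_eq_add_neg, Q_add, QuadraticMap.map_neg, huv.right, hzw.right, polar_neg_right, h6]
        simp
      · rw [polar_add_left, polar_sub_right, polar_sub_right, huv.pair, h4, polar_comm Q z v, h5, hzw.pair]
        ring
    have k2 : rt B (j (u + w)) (j (v - z)) ∈ S := by
      apply hS
      · rw [Q_add, huv.left, hzw.right, h4, add_zero, add_zero]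
      · rw [sub_eq_add_neg, Q_add, QuadraticMap.map_neg, huv.right, hzw.left, polar_neg_right, h5]
        simp
      · rw [polar_add_left, polar_sub_right, polar_sub_right, huv.pair, h3, polar_comm Q w v, h6, hzw.pair']
        ring
    have k3 := hS u w huv.left hzw.right h4
    have k4 := hS z v hzw.left huv.right (polar_zero_of_comm h5)
    have k5 := hS u z huv.left hzw.left h3
    have k6 := hS w v hzw.right huv.right (polar_zero_of_comm h6)
    rw [map_add, map_sub, rt_add_left, rt_sub_right, rt_sub_right] at k1 k2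
    have k7 : (2 : K) • rt B (j u) (j v) ∈ S := by
      have : (2 : K) • rt B (j u) (j v) = (rt B (j u) (j v) - rt B (j u) (j w) + (rt B (j z) (j v) - rt B (j z) (j w))) +
          (rt B (j u) (j v) - rt B (j u) (j z) + (rt B (j w) (j v) - rt B (j w) (j z))) + rt B (j u) (j w) -
          rt B (j z) (j v) + rt B (j u) (j z) - rt B (j w) (j v) := by
        rw [rt_swap B (j z) (j w)]
        module
      rw [this]
      exact S.sub_mem (S.add_mem (S.sub_mem (S.add_mem (S.add_mem k1 k2) k3) k4) k5) k6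
    have k8 := S.smul_mem (2 : K)⁻¹ k7
    rwa [smul_smul, inv_mul_cancel₀ h2, one_smul] at k8
  -- singular vectors
  have e2 : ∀ u v : V₀, Q u = 0 → Q v = 0 → rt B (j u) (j v) ∈ S := by
    intro u v hu hv
    by_cases huv : polar Q u v = 0
    · exact hS u v hu hv huv
    · have hyp : Hyp Q u ((polar Q u v)⁻¹ • v) :=
        ⟨hu, by rw [QuadraticMap.map_smul, hv, smul_zero], by
          rw [polar_smul_right, smul_eq_mul, inv_mul_cancel₀ huv]⟩
      have k1 := e1 _ _ hyp
      rw [h.smul, rt_smul_right] at k1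
      have k2 := S.smul_mem (algebraMap F K (polar Q u v)) k1
      rwa [smul_smul, ← map_mul, mul_inv_cancel₀ huv, map_one, one_smul] at k2
  obtain ⟨x₀, y₀, hxy⟩ := hG.exists_hyp
  have e3 : ∀ u v : V₀, Q u = 0 → rt B (j u) (j v) ∈ S := fun u v hu =>
    sing_induction hxy (P := fun v => rt B (j u) (j v) ∈ S)
      (fun a b ha hb => by rw [map_add, rt_add_right]; exact S.add_mem ha hb) (fun a ha => e2 u a hu ha) v
  have e4 : ∀ u v : V₀, rt B (j u) (j v) ∈ S := fun u v =>
    sing_induction hxy (P := fun u => rt B (j u) (j v) ∈ S)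
      (fun a b ha hb => by rw [map_add, rt_add_left]; exact S.add_mem ha hb) (fun a ha => e3 a v ha) u
  have e5 : ∀ (u : V₀) (y : V), rt B (j u) y ∈ S := by
    intro u y
    have h1 : S.comap (rtHom B (j u)) = ⊤ := h.eq_top fun v => e4 u v
    have h3 : y ∈ S.comap (rtHom B (j u)) := by rw [h1]; trivial
    exact h3
  have h1 : S.comap ((rtHom B).flip y) = ⊤ := h.eq_top fun v => e5 v y
  have h3 : x ∈ S.comap ((rtHom B).flip y) := by rw [h1]; trivial
  exact h3

/-! ### subspaces of `so B` -/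

/-- a subspace containing `rt (j u) (j v)`, closed under all brackets with `rt x y` -/
theorem Ext.rt_mem_of_ideal (hG : Good Q) (h2 : (2 : K) ≠ 0) {S : Submodule K (Module.End K V)}
    (hS : ∀ (x y : V₀), ∀ X ∈ S, rt B (j x) (j y) * X - X * rt B (j x) (j y) ∈ S) {u v : V₀} (hu : Q u = 0)
    (hv : Q v = 0) (huv : polar Q u v = 0) (hi : ∀ c : F, v ≠ c • u) (hi' : ∀ c : F, u ≠ c • v)
    (huS : rt B (j u) (j v) ∈ S) (x y : V) : rt B x y ∈ S := by
  -- the bracket
  have br : ∀ x y a b : V₀, rt B (j x) (j y) ∈ S →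
      rt B (j (polar Q b x • a - polar Q a x • b)) (j y) + rt B (j x) (j (polar Q b y • a - polar Q a y • b)) ∈ S := by
    intro x y a b hxy
    have k1 := hS a b _ hxy
    rw [bracket_rt (rt_mem_so h.symm _ _), rt_apply, rt_apply, h.form, h.form, h.form, h.form] at k1
    simpa only [map_sub, h.smul] using k1
  have hu0 : u ≠ 0 := by simpa using hi' 0
  have hv0 : v ≠ 0 := by simpa using hi 0
  -- partners
  obtain ⟨v₁, hv1, hv2⟩ := exists_sep hG.nondeg hi
  obtain ⟨vs, hvs, huvs⟩ : ∃ vs, Hyp Q v vs ∧ polar Q u vs = 0 := by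
    refine ⟨v₁ + (-Q v₁) • v, ⟨hv, ?_, ?_⟩, ?_⟩
    · rw [Q_add, QuadraticMap.map_smul, hv, polar_smul_right, polar_comm Q v₁ v, hv2]
      simp
    · rw [polar_add_right, polar_smul_right, hv2, polar_self_of_sing hv, smul_zero, add_zero]
    · rw [polar_add_right, polar_smul_right, hv1, huv, smul_zero, add_zero]
  obtain ⟨us, hus, h3, h4⟩ := exists_hyp_perp hG.nondeg hvs hu hu0 (polar_zero_of_comm huv)
    (polar_zero_of_comm huvs)
  obtain ⟨a, c, ⟨a1, a2, a3, a4⟩, ⟨c1, c2, c3, c4⟩, hac⟩ := exists_perp4 hG.nondeg hG.dim hvs hus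
    (polar_zero_of_comm huv) h3 (polar_zero_of_comm huvs) h4
  have hca : polar Q c a = 1 := by rw [polar_comm, hac]
  -- Step A: `rt x v` for `x ⊥ u, v`
  have sA : ∀ x : V₀, polar Q u x = 0 → polar Q v x = 0 → rt B (j x) (j v) ∈ S := by
    intro x hux hvx
    have k := br u v x us huS
    rw [hus.pair', polar_comm Q x u, hux, polar_comm Q us v, h3, polar_comm Q x v, hvx, one_smul, zero_smul, zero_smul,
      sub_zero, sub_zero, map_zero] at k
    rwa [show rt B (j u) 0 = 0 by rw [← rtHom_apply, map_zero], add_zero] at k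
  -- Step B: `rt x v` for `x ⊥ v`
  have sB' : rt B (j us) (j v) ∈ S := by
    have k := br a v us c (sA a a3 a1)
    rw [hca, a4, polar_comm Q c v, c1, polar_comm Q us v, h3, one_smul, zero_smul, zero_smul, sub_zero,
      sub_zero, map_zero] at k
    rwa [show rt B (j a) 0 = 0 by rw [← rtHom_apply, map_zero], add_zero] at k
  have sB : ∀ x : V₀, polar Q v x = 0 → rt B (j x) (j v) ∈ S := by
    intro x hvx
    have e : x = LieClassical.OrthTrans.proj Q u us x + (polar Q us x • u + polar Q u x • us) := by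
      rw [LieClassical.OrthTrans.proj]
      module
    rw [e, map_add, map_add, h.smul, h.smul, rt_add_left, rt_add_left, rt_smul_left, rt_smul_left]
    refine S.add_mem (sA _ (polar_proj_left hus x) ?_) (S.add_mem (S.smul_mem _ huS) (S.smul_mem _ sB'))
    rw [LieClassical.OrthTrans.proj, polar_sub_right, polar_sub_right, polar_smul_right, polar_smul_right, hvx, polar_comm Q v u, huv, h3]
    simp
  -- Step C: `rt x v` for all `x`
  have sC' : rt B (j vs) (j v) ∈ S := by
    have k1 := br a v vs c (sA a a3 a1)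
    have k2 := br c v vs a (sA c c3 c1)
    rw [hca, a2, polar_comm Q c v, c1, hvs.pair', one_smul, zero_smul, zero_smul, one_smul, sub_zero, zero_sub, map_neg,
      rt_neg_right] at k1
    rw [hac, c2, polar_comm Q a v, a1, hvs.pair', one_smul, zero_smul, zero_smul, one_smul, sub_zero, zero_sub, map_neg,
      rt_neg_right, rt_swap B (j a) (j c), neg_neg] at k2
    have k3 := S.smul_mem (2 : K)⁻¹ (S.add_mem k1 k2)
    have k4 : rt B (j vs) (j v) + -rt B (j a) (j c) + (rt B (j vs) (j v) + rt B (j a) (j c)) =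
        (2 : K) • rt B (j vs) (j v) := by module
    rwa [k4, smul_smul, inv_mul_cancel₀ h2, one_smul] at k3
  have sC : ∀ x : V₀, rt B (j x) (j v) ∈ S := by
    intro x
    have e : x = (x - polar Q v x • vs) + polar Q v x • vs := by module
    rw [e, map_add, h.smul, rt_add_left, rt_smul_left]
    refine S.add_mem (sB _ ?_) (S.smul_mem _ sC')
    rw [polar_sub_right, polar_smul_right, hvs.pair]
    simp
  -- Step D: everything
  have sD : ∀ z w : V₀, z ≠ 0 → (∀ x, rt B (j x) (j z) ∈ S) → polar Q z w = 0 → ∀ x, rt B (j x) (j w) ∈ S := by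
    intro z w hz hzS hzw x
    obtain ⟨b, hb⟩ := hG.nondeg.exists_polar_eq hz 1
    have k := br x z w b (hzS x)
    rw [polar_comm Q b z, hb, polar_comm Q w z, hzw, one_smul, zero_smul, sub_zero] at k
    exact (S.add_mem_iff_right (hzS _)).1 k
  refine h.rt_mem hG h2 (fun p w _ _ _ => ?_) x y
  have hd := hG.dim
  obtain ⟨z, hz0, hz⟩ := exists_perp_ne (Q := Q) ![v, w] (by omega)
  exact sD z w hz0 (sD v z hv0 sC (hz 0)) (polar_zero_of_comm (hz 1)) p

/-- **a non-zero subspace of `so B` which is invariant under the roots is `so B`** -/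
theorem Ext.so_le {ι : Type*} [Fintype ι] [DecidableEq ι] (b : Basis ι K V) (hB : B.Nondegenerate)
    (hG : Good Q) (h2 : (2 : K) ≠ 0) {S : Submodule K (Module.End K V)} (hS : S ≤ so B)
    (hS0 : S ≠ ⊥) (h1 : ∀ u v : V₀, Q u = 0 → Q v = 0 → polar Q u v = 0 → ∀ X ∈ S,
      rt B (j u) (j v) * X - X * rt B (j u) (j v) ∈ S ∧ rt B (j u) (j v) * X * rt B (j u) (j v) ∈ S) : so B ≤ S := by
  obtain ⟨X, hXS, hX0⟩ := Submodule.exists_mem_ne_zero_of_ne_bot hS0
  -- a root in `S`
  obtain ⟨u, v, hu, hv, huv, hne⟩ : ∃ u v : V₀, Q u = 0 ∧ Q v = 0 ∧ polar Q u v = 0 ∧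
      rt B (j u) (j v) * X * rt B (j u) (j v) ≠ 0 := by
    by_contra hcon
    push Not at hcon
    obtain ⟨c, hc⟩ := h.scalar_of_rt hG hcon
    obtain ⟨x, y, hxy⟩ := hG.exists_hyp
    have k := hS hXS (j x) (j y)
    rw [hc, LinearMap.smul_apply, LinearMap.smul_apply, Module.End.one_apply, Module.End.one_apply, map_smul, map_smul,
      LinearMap.smul_apply, h.form_one hxy.pair, smul_eq_mul, mul_one] at k
    have k2 : (2 : K) * c = 0 := by linear_combination k
    apply hX0
    rw [hc, (mul_eq_zero.1 k2).resolve_left h2, zero_smul]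
  have k1 := (h1 u v hu hv huv X hXS).2
  rw [rt_mul_mul_skew h.symm h2 (hS hXS)] at hne k1
  have hc0 : B (j v) (X (j u)) ≠ 0 := by
    intro h0
    rw [h0, zero_smul] at hne
    exact hne rfl
  have hr0 : rt B (j u) (j v) ≠ 0 := by
    intro h0
    rw [h0, smul_zero] at hne
    exact hne rfl
  have huS : rt B (j u) (j v) ∈ S := by
    have k2 := S.smul_mem (B (j v) (X (j u)))⁻¹ k1
    rwa [smul_smul, inv_mul_cancel₀ hc0, one_smul] at k2
  have hi : ∀ c : F, v ≠ c • u := by
    rintro c rfl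
    apply hr0
    rw [h.smul, rt_smul_right, rt_self, smul_zero]
  have hi' : ∀ c : F, u ≠ c • v := by
    rintro c rfl
    apply hr0
    rw [h.smul, rt_smul_left, rt_self, smul_zero]
  -- `S` is an ideal
  have hid : ∀ (x y : V), ∀ Y ∈ S, rt B x y * Y - Y * rt B x y ∈ S := by
    intro x y Y hY
    let S' : Submodule K (Module.End K V) :=
      { carrier := {Z | Z * Y - Y * Z ∈ S}
        zero_mem' := by
          change (0 : Module.End K V) * Y - Y * 0 ∈ S
          rw [zero_mul, mul_zero, sub_zero]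
          exact S.zero_mem
        add_mem' := fun {Z Z'} hZ hZ' => by
          change (Z + Z') * Y - Y * (Z + Z') ∈ S
          have : (Z + Z') * Y - Y * (Z + Z') = (Z * Y - Y * Z) + (Z' * Y - Y * Z') := by
            rw [add_mul, mul_add]
            abel
          rw [this]
          exact S.add_mem hZ hZ'
        smul_mem' := fun c Z hZ => by
          change (c • Z) * Y - Y * (c • Z) ∈ S
          rw [smul_mul_assoc, mul_smul_comm, ← smul_sub]
          exact S.smul_mem _ hZ }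
    exact h.rt_mem hG h2 (S := S') (fun u v hu hv huv => (h1 u v hu hv huv Y hY).1) x y
  intro Z hZ
  exact mem_of_rt h.symm b hB h2 (fun x y => h.rt_mem_of_ideal hG h2 (fun x y => hid _ _) hu hv huv hi hi' huS x y) hZ

end Cfsg.Agent.H621.BR
end

-- part: H621/BR/AdRoot
section
/-!
# HUB BR: root elements and the conjugation module (helper621)

`a ^ 2 = 0`, `ρ g = 1 + t a`.
* `rho_inv_of_root`, `ad_root` : `ad ρ g X = X + t [a, X] - t ^ 2 a X a`;
* `closed_root` : an invariant subspace of `End V` is closed under `[a, X]`, `a X a` (characteristic not two);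
* `res ρ S hS` : the restriction to an invariant subspace; `polyDeg_res`.
-/

set_option autoImplicit false
set_option linter.unusedSectionVars false

namespace Cfsg.Agent.H621.BR

open Module Cfsg.Agent.H883.BR

variable {K : Type*} [Field K] {V : Type*} [AddCommGroup V] [Module K V] {G : Type*} [Group G]
  {ρ : G →* Module.End K V}

theorem rho_inv_of_root {g : G} {a : Module.End K V} (ha : a * a = 0) {t : K} (hg : ρ g = 1 + t • a) :
    ρ g⁻¹ = 1 - t • a := by
  have h1 : ρ g⁻¹ * ρ g = 1 := by rw [← map_mul, inv_mul_cancel, map_one]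
  have h2 : ρ g * (1 - t • a) = 1 := by
    rw [hg, add_mul, one_mul, mul_sub, mul_one, smul_mul_smul_comm, ha, smul_zero, sub_zero, sub_add_cancel]
  calc ρ g⁻¹ = ρ g⁻¹ * (ρ g * (1 - t • a)) := by rw [h2, mul_one]
    _ = 1 - t • a := by rw [← mul_assoc, h1, one_mul]

theorem ad_root {g : G} {a : Module.End K V} (ha : a * a = 0) {t : K} (hg : ρ g = 1 + t • a) (X : Module.End K V) :
    ad ρ g X = X + t • (a * X - X * a) - t ^ 2 • (a * X * a) := by
  rw [ad_apply, hg, rho_inv_of_root ha hg]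
  simp only [add_mul, mul_sub, one_mul, mul_one, smul_mul_assoc, mul_smul_comm, smul_sub, smul_add, smul_smul, pow_two]
  abel

/-- invariant subspaces of `End V` are closed under `[a, X]`, `a X a` -/
theorem closed_root (h2 : (2 : K) ≠ 0) {S : Submodule K (Module.End K V)} (hS : _root_.Cfsg.Agent.H883.BR.Inv (ad ρ) ⊤ S) {g : G}
    {a : Module.End K V} (ha : a * a = 0) (hg : ρ g = 1 + a) {X : Module.End K V} (hX : X ∈ S) :
    a * X - X * a ∈ S ∧ a * X * a ∈ S := by
  have hg1 : ρ g = 1 + (1 : K) • a := by rw [one_smul, hg]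
  have hg2 : ρ g⁻¹ = 1 + (-1 : K) • a := by
    rw [rho_inv_of_root ha hg1]
    module
  have k1 := hS g trivial X hX
  have k2 := hS g⁻¹ trivial X hX
  rw [ad_root ha hg1, one_smul, one_pow, one_smul] at k1
  rw [ad_root ha hg2, neg_one_sq, one_smul, neg_smul, one_smul] at k2
  have k3 : (2 : K) • (a * X - X * a) ∈ S := by
    have : (2 : K) • (a * X - X * a) = (X + (a * X - X * a) - a * X * a) - (X + -(a * X - X * a) - a * X * a) := by
      module
    rw [this]
    exact S.sub_mem k1 k2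
  have k4 : a * X - X * a ∈ S := by
    have := S.smul_mem (2 : K)⁻¹ k3
    rwa [smul_smul, inv_mul_cancel₀ h2, one_smul] at this
  refine ⟨k4, ?_⟩
  have : a * X * a = X + (a * X - X * a) - (X + (a * X - X * a) - a * X * a) := by abel
  rw [this]
  exact S.sub_mem (S.add_mem hX k4) k1

/-- the restriction of `ad ρ` to an invariant subspace -/
noncomputable def res (ρ : G →* Module.End K V) (S : Submodule K (Module.End K V)) (hS : _root_.Cfsg.Agent.H883.BR.Inv (ad ρ) ⊤ S) :
    G →* Module.End K S where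
  toFun g := (ad ρ g).restrict fun X hX => hS g trivial X hX
  map_one' := by
    ext1 X
    apply Subtype.ext
    rw [LinearMap.coe_restrict_apply, map_one]
    rfl
  map_mul' g h := by
    ext1 X
    apply Subtype.ext
    rw [LinearMap.coe_restrict_apply, map_mul]
    rfl

theorem coe_res {S : Submodule K (Module.End K V)} (hS : _root_.Cfsg.Agent.H883.BR.Inv (ad ρ) ⊤ S) (g : G) (X : S) :
    ((res ρ S hS g X : S) : Module.End K V) = ad ρ g X := rfl

/-- `res` acts by polynomials of degree two on root groups -/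
theorem polyDeg_res (h2 : (2 : K) ≠ 0) {F : Subfield K} {S : Submodule K (Module.End K V)} (hS : _root_.Cfsg.Agent.H883.BR.Inv (ad ρ) ⊤ S)
    {I : Type*} {x : I → F → G} {a : I → Module.End K V} (ha : ∀ i, a i * a i = 0)
    (hx : ∀ i t, ρ (x i t) = 1 + (t : K) • a i) : PolyDeg (V := S) (res ρ S hS) F x 2 := by
  intro i
  have h1 : ρ (x i 1) = 1 + a i := by
    rw [hx]
    change 1 + (1 : K) • a i = _
    rw [one_smul]
  have hc : ∀ X ∈ S, a i * X - X * a i ∈ S := fun X hX => (closed_root h2 hS (ha i) h1 hX).1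
  have hc' : ∀ X ∈ S, a i * X * a i ∈ S := fun X hX => (closed_root h2 hS (ha i) h1 hX).2
  let c1 : Module.End K S :=
    { toFun := fun X => ⟨a i * X.1 - X.1 * a i, hc X.1 X.2⟩
      map_add' := fun X Y => Subtype.ext (by
        change a i * (X.1 + Y.1) - (X.1 + Y.1) * a i = (a i * X.1 - X.1 * a i) + (a i * Y.1 - Y.1 * a i)
        rw [mul_add, add_mul]
        abel)
      map_smul' := fun c X => Subtype.ext (by
        change a i * (c • X.1) - (c • X.1) * a i = c • (a i * X.1 - X.1 * a i)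
        rw [mul_smul_comm, smul_mul_assoc, smul_sub]) }
  let c2 : Module.End K S :=
    { toFun := fun X => ⟨-(a i * X.1 * a i), S.neg_mem (hc' X.1 X.2)⟩
      map_add' := fun X Y => Subtype.ext (by
        change -(a i * (X.1 + Y.1) * a i) = -(a i * X.1 * a i) + -(a i * Y.1 * a i)
        rw [mul_add, add_mul]
        abel)
      map_smul' := fun c X => Subtype.ext (by
        change -(a i * (c • X.1) * a i) = c • -(a i * X.1 * a i)
        rw [mul_smul_comm, smul_mul_assoc, smul_neg]) }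
  refine ⟨fun j => if j = 0 then 1 else if j = 1 then c1 else c2, fun t => ?_⟩
  ext1 X
  apply Subtype.ext
  rw [Finset.sum_range_succ, Finset.sum_range_succ, Finset.sum_range_one, pow_zero, pow_one, one_smul]
  rw [coe_res, ad_root (ha i) (hx i t)]
  change _ = X.1 + (t : K) • (a i * X.1 - X.1 * a i) + (t : K) ^ 2 • -(a i * X.1 * a i)
  rw [smul_neg, sub_eq_add_neg]

theorem polyDeg_one {F : Subfield K} {I : Type*} {x : I → F → G} {a : I → Module.End K V}
    (hx : ∀ i t, ρ (x i t) = 1 + (t : K) • a i) : PolyDeg ρ F x 1 := by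
  intro i
  refine ⟨fun j => if j = 0 then 1 else a i, fun t => ?_⟩
  rw [Finset.sum_range_succ, Finset.sum_range_one, pow_zero, pow_one, one_smul, hx]
  rfl

theorem res_eq_one {S : Submodule K (Module.End K V)} (hS : _root_.Cfsg.Agent.H883.BR.Inv (ad ρ) ⊤ S) {z : G} {c : K} (hz : ρ z = c • 1) :
    res ρ S hS z = 1 := by
  ext1 X
  apply Subtype.ext
  rw [coe_res, ad_apply, hz]
  have h1 : ρ z * ρ z⁻¹ = 1 := by rw [← map_mul, mul_inv_cancel, map_one]
  rw [hz, smul_mul_assoc, one_mul] at h1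
  rw [smul_mul_assoc, one_mul, smul_mul_assoc, ← mul_smul_comm, h1, mul_one]
  rfl

/-- irreducibility of an invariant subspace for dense subgroups -/
theorem irr_res {S : Submodule K (Module.End K V)} (hS : _root_.Cfsg.Agent.H883.BR.Inv (ad ρ) ⊤ S) (hS0 : S ≠ ⊥)
    (hmin : ∀ T : Submodule K (Module.End K V), _root_.Cfsg.Agent.H883.BR.Inv (ad ρ) ⊤ T → T ≤ S → T ≠ ⊥ → T = S) {M : Subgroup G}
    (hM : Dns (ad ρ) M) : Irr (V := S) (res ρ S hS) M := by
  constructor
  · exact (Submodule.nontrivial_iff_ne_bot).2 hS0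
  · intro U hU
    by_cases hU0 : U = ⊥
    · exact Or.inl hU0
    right
    have h1 : _root_.Cfsg.Agent.H883.BR.Inv (ad ρ) ⊤ (U.map S.subtype) := by
      apply hM
      rintro m hm _ ⟨X, hX, rfl⟩
      exact ⟨res ρ S hS m X, hU m hm X hX, rfl⟩
    have h3 := hmin _ h1 (Submodule.map_subtype_le _ _) fun h => hU0
      (Submodule.map_injective_of_injective S.injective_subtype (h.trans (Submodule.map_bot _).symm))
    rw [eq_top_iff]
    intro X _
    have h4 : (X : Module.End K V) ∈ U.map S.subtype := by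
      rw [h3]
      exact X.2
    obtain ⟨Y, hY, hXY⟩ := h4
    rwa [← Subtype.ext hXY]

end Cfsg.Agent.H621.BR
end

-- part: H621/BR/Grp
section
/-!
# HUB BR, orthogonal groups: the representation of `Ω(Q)` over `K` (helper621)

* `jm`, `BK Q K`, `rho Q K`, `ext_jm : Ext Q jm (BK Q K)`;
* `xg hG p t` : the root elements of `Ω(Q)`, `rho_xg`, `xg_add`, `closure_xg`;
* `irr_rho`, `scalar_of_roots`;
* `so_le_of_inv` : a non-zero `G`-invariant subspace of `so` is `so` (odd characteristic);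
* `sg` : the action on `so`, `irr_sg`, `polyDeg_rho`, `polyDeg_sg`, `oneP`.
-/

set_option autoImplicit false
set_option linter.unusedSectionVars false

namespace Cfsg.Agent.H621.BR

open Module Matrix QuadraticMap Cfsg Cfsg.Agent.LieClassical.OrthCore Cfsg.Agent.LieClassical.OrthTrans
open Cfsg.Agent.LieClassical.OrthFinite (omegaEquiv omegaEquiv_apply)
open Cfsg.Agent.H883.BR

section Defs

variable (F K : Type*) [Field F] [Field K] [Algebra F K] (ι : Type)

/-- the rational vectors -/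
def jm : (ι → F) →+ (ι → K) where
  toFun v i := algebraMap F K (v i)
  map_zero' := funext fun _ => map_zero _
  map_add' u v := funext fun i => map_add (algebraMap F K) (u i) (v i)

end Defs

variable {F : Type*} [Field F] {ι : Type} [Fintype ι] [DecidableEq ι] (Q : QuadraticForm F (ι → F)) (K : Type*)
  [Field K] [Algebra F K]

theorem jm_apply (v : ι → F) (i : ι) : jm F K ι v i = algebraMap F K (v i) := rfl

/-- the Gram matrix -/
noncomputable def gm : Matrix ι ι F := LinearMap.toMatrix₂' F (polarBilin Q)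

theorem polar_gm (v w : ι → F) : polar Q v w = v ⬝ᵥ (gm Q *ᵥ w) := by
  have h1 : Matrix.toLinearMap₂' F (gm Q) = polarBilin Q := Matrix.toLinearMap₂'_toMatrix' _
  rw [← Matrix.toLinearMap₂'_apply', h1]
  rfl

/-- the polar form over `K` -/
noncomputable def BK : LinearMap.BilinForm K (ι → K) := Matrix.toLinearMap₂' K ((gm Q).map (algebraMap F K))

theorem BK_apply (x y : ι → K) : BK Q K x y = x ⬝ᵥ ((gm Q).map (algebraMap F K) *ᵥ y) :=
  Matrix.toLinearMap₂'_apply' _ _ _

theorem BK_jm (u v : ι → F) : BK Q K (jm F K ι u) (jm F K ι v) = algebraMap F K (polar Q u v) := by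
  rw [BK_apply, polar_gm]
  have h1 : (gm Q).map (algebraMap F K) *ᵥ (jm F K ι v) = jm F K ι (gm Q *ᵥ v) := by
    ext i
    rw [jm_apply]
    exact (RingHom.map_mulVec (algebraMap F K) (gm Q) v i).symm
  rw [h1]
  exact (RingHom.map_dotProduct (algebraMap F K) u (gm Q *ᵥ v)).symm

omit [Fintype ι] [DecidableEq ι] in
variable {K} in
theorem span_jm [Finite ι] : Submodule.span K (Set.range (jm F K ι)) = ⊤ := by
  classical
  have := Fintype.ofFinite ι
  rw [eq_top_iff, ← (Pi.basisFun K ι).span_eq, Submodule.span_le]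
  rintro _ ⟨i, rfl⟩
  refine Submodule.subset_span ⟨Pi.single i 1, ?_⟩
  ext k
  rw [jm_apply, Pi.basisFun_apply]
  by_cases h : k = i
  · subst h
    simp
  · rw [Pi.single_eq_of_ne h, Pi.single_eq_of_ne h, map_zero]

variable {K} in
/-- linear maps which agree on the rational vectors -/
theorem lin_ext {X : Type*} [AddCommGroup X] [Module K X] {f g : (ι → K) →ₗ[K] X}
    (h : ∀ v, f (jm F K ι v) = g (jm F K ι v)) : f = g := by
  apply LinearMap.ext_on_range (v := jm F K ι) span_jm h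

theorem BK_symm (x y : ι → K) : BK Q K x y = BK Q K y x := by
  have h1 : BK Q K = (BK Q K).flip := by
    refine lin_ext (F := F) fun u => lin_ext (F := F) fun v => ?_
    change BK Q K (jm F K ι u) (jm F K ι v) = BK Q K (jm F K ι v) (jm F K ι u)
    rw [BK_jm, BK_jm, polar_comm]
  exact LinearMap.congr_fun (LinearMap.congr_fun h1 x) y

variable {Q}

theorem BK_nd (hQ : Nondeg Q) (x : ι → K) (hx : ∀ y, BK Q K x y = 0) : x = 0 := by
  have hdet : ((gm Q).map (algebraMap F K)).det ≠ 0 := by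
    have h1 : ((gm Q).map (algebraMap F K)).det = algebraMap F K (gm Q).det :=
      (RingHom.map_det (algebraMap F K) (gm Q)).symm
    rw [h1]
    intro h
    have h2 : (gm Q).det = 0 := (map_eq_zero (algebraMap F K)).1 h
    obtain ⟨v, hv0, hv⟩ := Matrix.exists_mulVec_eq_zero_iff.2 h2
    apply hv0
    apply hQ v
    intro w
    rw [polar_comm, polar_gm, hv, dotProduct_zero]
  by_contra hx0
  apply hdet
  rw [← Matrix.exists_vecMul_eq_zero_iff]
  refine ⟨x, hx0, ?_⟩
  ext i
  have h3 := hx (Pi.single i 1)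
  rw [BK_apply, Matrix.dotProduct_mulVec, dotProduct_single, mul_one] at h3
  exact h3

theorem ext_jm (hQ : Nondeg Q) : Ext Q (jm F K ι) (BK Q K) where
  smul c v := funext fun i => map_mul (algebraMap F K) c (v i)
  span := span_jm
  form := BK_jm Q K
  symm := BK_symm Q K
  nd := BK_nd K hQ

theorem BK_nondeg (hQ : Nondeg Q) : (BK Q K).Nondegenerate :=
  ⟨fun x hx => BK_nd K hQ x hx, fun x hx => BK_nd K hQ x fun y => by rw [BK_symm]; exact hx y⟩

/-! ### the representation -/

variable (Q) in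
/-- the natural representation of `Ω(Q)` over `K` -/
noncomputable def rho : ↥(Omega F ⇑Q) →* Module.End K (ι → K) :=
  ((Matrix.toLinAlgEquiv' : Matrix ι ι K ≃ₐ[K] ((ι → K) →ₗ[K] (ι → K))) : Matrix ι ι K →* Module.End K (ι → K)).comp
    ((((algebraMap F K).mapMatrix : Matrix ι ι F →+* Matrix ι ι K) : Matrix ι ι F →* Matrix ι ι K).comp
      ((Units.coeHom (Matrix ι ι F)).comp ((isometryGroup F ⇑Q).subtype.comp (Omega F ⇑Q).subtype)))

theorem rho_apply (g : ↥(Omega F ⇑Q)) (x : ι → K) :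
    rho Q K g x = ((((g : isometryGroup F ⇑Q) : Matrix.GeneralLinearGroup ι F) : Matrix ι ι F).map (algebraMap F K)) *ᵥ x :=
  rfl

theorem rho_jm (g : ↥(Omega F ⇑Q)) (v : ι → F) :
    rho Q K g (jm F K ι v) = jm F K ι ((omegaEquiv Q g : (ι → F) ≃ₗ[F] (ι → F)) v) := by
  rw [rho_apply, omegaEquiv_apply]
  ext i
  rw [jm_apply]
  exact (RingHom.map_mulVec (algebraMap F K) _ v i).symm

theorem mem_O' (g : ↥(Omega F ⇑Q)) : (omegaEquiv Q g : (ι → F) ≃ₗ[F] (ι → F)) ∈ O Q :=
  Subgroup.commutator_le_self _ (omegaEquiv Q g).2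

theorem rho_isometry (g : ↥(Omega F ⇑Q)) (x y : ι → K) : BK Q K (rho Q K g x) (rho Q K g y) = BK Q K x y := by
  have h1 : (BK Q K).compl₁₂ (rho Q K g) (rho Q K g) = BK Q K := by
    refine lin_ext (F := F) fun u => lin_ext (F := F) fun v => ?_
    rw [LinearMap.compl₁₂_apply, rho_jm, rho_jm, BK_jm, BK_jm, polar_map (mem_O' g)]
  exact LinearMap.congr_fun (LinearMap.congr_fun h1 x) y

omit [Field K] [Algebra F K] in
theorem jm_injective {K : Type*} [Field K] [Algebra F K] : Function.Injective (jm F K ι) := fun u v h =>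
  funext fun i => (algebraMap F K).injective (congrFun h i)

theorem rho_injective : Function.Injective (rho Q K) := by
  intro g h hgh
  apply (omegaEquiv Q).injective
  apply Subtype.ext
  apply LinearEquiv.ext
  intro v
  apply jm_injective (K := K)
  rw [← rho_jm, ← rho_jm, hgh]

/-! ### root groups -/

variable (Q) in
/-- the pairs of orthogonal singular vectors -/
abbrev Rp : Type _ := {p : (ι → F) × (ι → F) // Q p.1 = 0 ∧ Q p.2 = 0 ∧ polar Q p.1 p.2 = 0}

theorem polar_neg_smul {u v : ι → F} (h : polar Q u v = 0) (t : F) : polar Q u (-t • v) = 0 := by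
  rw [polar_smul_right, h, smul_zero]

/-- the root elements -/
noncomputable def xg (hG : Good Q) (p : Rp Q) (t : F) : ↥(Omega F ⇑Q) :=
  (omegaEquiv Q).symm ⟨siegel Q p.1.1 (-t • p.1.2) p.2.1 (polar_neg_smul p.2.2.2 t), by
    rw [hG.commutator_eq_E]
    exact siegel_mem_E _ _⟩

theorem coe_xg (hG : Good Q) (p : Rp Q) (t : F) : (omegaEquiv Q (xg hG p t) : (ι → F) ≃ₗ[F] (ι → F)) =
    siegel Q p.1.1 (-t • p.1.2) p.2.1 (polar_neg_smul p.2.2.2 t) := by
  rw [xg, MulEquiv.apply_symm_apply]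

variable (Q) in
/-- the roots -/
noncomputable abbrev rr (p : Rp Q) : Module.End K (ι → K) := rt (BK Q K) (jm F K ι p.1.1) (jm F K ι p.1.2)

theorem rho_xg (hG : Good Q) (p : Rp Q) (t : F) : rho Q K (xg hG p t) = 1 + algebraMap F K t • rr Q K p := by
  have hE := ext_jm K hG.nondeg
  refine lin_ext (F := F) fun v => ?_
  simp only [rho_jm, coe_xg, siegel_apply, LinearMap.add_apply, LinearMap.smul_apply, Module.End.one_apply, rt_apply, hE.form,
    hE.form, QuadraticMap.map_smul, p.2.2.1, smul_zero, zero_mul, zero_smul, sub_zero, polar_smul_left]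
  rw [map_sub, map_add, hE.smul, hE.smul, hE.smul, smul_eq_mul, map_mul, map_neg]
  module

theorem xg_add (hG : Good Q) (p : Rp Q) (s t : F) : xg hG p (s + t) = xg hG p s * xg hG p t := by
  apply (omegaEquiv Q).injective
  apply Subtype.ext
  rw [map_mul, Subgroup.coe_mul, coe_xg, coe_xg, coe_xg,
    siegel_mul _ _ _ (by rw [polar_add_right, polar_neg_smul p.2.2.2, polar_neg_smul p.2.2.2, add_zero])]
  congr 1
  rw [neg_add, add_smul]

/-- **the root groups generate** -/
theorem closure_xg (hG : Good Q) : Subgroup.closure {g : ↥(Omega F ⇑Q) | ∃ p t, xg hG p t = g} = ⊤ := by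
  set C := Subgroup.closure {g : ↥(Omega F ⇑Q) | ∃ p t, xg hG p t = g} with hC
  let f : ↥(Omega F ⇑Q) →* ((ι → F) ≃ₗ[F] (ι → F)) := (Subgroup.subtype _).comp (omegaEquiv Q).toMonoidHom
  have hE : E Q ≤ C.map f := by
    rw [E, Subgroup.closure_le]
    rintro _ ⟨u, w, hu, hw, rfl⟩
    by_cases hu0 : u = 0
    · have h1 : siegel Q u w hu hw = 1 := by
        ext v
        rw [siegel_apply, hu0]
        simp
      rw [h1]
      exact one_mem _
    obtain ⟨h1, h2⟩ := perp_induction hG hu hu0 (P := fun w => ∃ hw : polar Q u w = 0, siegel Q u w hu hw ∈ C.map f)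
      (fun a c ha hc => by
        obtain ⟨ha, ha'⟩ := ha
        obtain ⟨hc, hc'⟩ := hc
        have h3 : polar Q u (a + c) = 0 := by rw [polar_add_right, ha, hc, add_zero]
        exact ⟨h3, siegel_add_mem hu ha hc h3 ha' hc'⟩)
      (fun a ha hua => by
        refine ⟨hua, xg hG ⟨(u, a), hu, ha, hua⟩ (-1), Subgroup.subset_closure ⟨_, _, rfl⟩, ?_⟩
        change (omegaEquiv Q (xg hG _ (-1)) : (ι → F) ≃ₗ[F] (ι → F)) = _
        rw [coe_xg]
        congr 1
        rw [neg_neg, one_smul]) w hw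
    exact h2
  rw [eq_top_iff]
  intro g _
  have h1 : f g ∈ C.map f := by
    apply hE
    rw [← hG.commutator_eq_E]
    exact (omegaEquiv Q g).2
  obtain ⟨c, hc, hcg⟩ := h1
  have h2 : c = g := by
    apply (omegaEquiv Q).injective
    exact Subtype.ext hcg
  rwa [← h2]

/-! ### the fields of `Fam` -/

/-- irreducibility -/
theorem irr_rho (hG : Good Q) : Irr (rho Q K) ⊤ := by
  have hE := ext_jm K hG.nondeg
  constructor
  · obtain ⟨x, hx0, -⟩ := hG.sing
    exact ⟨jm F K ι x, 0, hE.j_ne hG.nondeg hx0⟩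
  · intro U hU
    refine hE.irr hG fun u v hu hv huv x hx => ?_
    have h1 := hU (xg hG ⟨(u, v), hu, hv, huv⟩ 1) trivial x hx
    rw [rho_xg, map_one, one_smul, LinearMap.add_apply, Module.End.one_apply] at h1
    exact (U.add_mem_iff_right hx).1 h1

/-- `a X a = 0` for all roots -/
theorem scalar_of_roots (hG : Good Q) {X : Module.End K (ι → K)} (hX : ∀ p, rr Q K p * X * rr Q K p = 0) :
    ∃ c : K, X = c • 1 :=
  (ext_jm K hG.nondeg).scalar_of_rt hG fun u v hu hv huv => hX ⟨(u, v), hu, hv, huv⟩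

theorem rr_sq (hG : Good Q) (p : Rp Q) : rr Q K p * rr Q K p = 0 := by
  have hE := ext_jm K hG.nondeg
  refine LinearMap.ext fun z => ?_
  rw [Module.End.mul_apply, rt_apply, rt_apply]
  simp only [map_sub, map_smul]
  rw [hE.form_zero p.2.2.2, hE.form_zero' p.2.2.2, hE.form_zero (polar_self_of_sing p.2.1),
    hE.form_zero (polar_self_of_sing p.2.2.1)]
  simp

/-- invariant subspaces of `End V` are closed under `[a, X]`, `a X a` -/
theorem closed_of_inv (hG : Good Q) (h2 : (2 : K) ≠ 0) {S : Submodule K (Module.End K (ι → K))}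
    (hS : _root_.Cfsg.Agent.H883.BR.Inv (ad (rho Q K)) ⊤ S) (p : Rp Q) {X : Module.End K (ι → K)} (hX : X ∈ S) :
    rr Q K p * X - X * rr Q K p ∈ S ∧ rr Q K p * X * rr Q K p ∈ S := by
  refine closed_root h2 hS (g := xg hG p 1) (rr_sq K hG p) ?_ hX
  rw [rho_xg, map_one, one_smul]

/-- **the non-zero invariant subspaces of `so`** -/
theorem so_le_of_inv (hG : Good Q) (h2 : (2 : K) ≠ 0) {S : Submodule K (Module.End K (ι → K))}
    (hS : _root_.Cfsg.Agent.H883.BR.Inv (ad (rho Q K)) ⊤ S) (hle : S ≤ so (BK Q K)) (h0 : S ≠ ⊥) : S = so (BK Q K) :=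
  le_antisymm hle ((ext_jm K hG.nondeg).so_le (Pi.basisFun K ι) (BK_nondeg K hG.nondeg) hG h2 hle h0
    fun u v hu hv huv _ hX => closed_of_inv K hG h2 hS ⟨(u, v), hu, hv, huv⟩ hX)

theorem finrank_so' (hG : Good Q) (h2 : (2 : K) ≠ 0) :
    finrank K (so (BK Q K)) = Fintype.card ι * (Fintype.card ι - 1) / 2 :=
  finrank_so (BK_symm Q K) ((Pi.basisFun K ι).reindex (Fintype.equivFin ι)) (BK_nondeg K hG.nondeg) h2

theorem so_inv : _root_.Cfsg.Agent.H883.BR.Inv (ad (rho Q K)) ⊤ (so (BK Q K)) := by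
  intro g _ X hX v w
  have h1 : ∀ v, rho Q K g (rho Q K g⁻¹ v) = v := fun v => by
    rw [← Module.End.mul_apply, ← map_mul, mul_inv_cancel, map_one, Module.End.one_apply]
  have h2 : ∀ x y, BK Q K (rho Q K g x) y = BK Q K x (rho Q K g⁻¹ y) := fun x y => by
    rw [← rho_isometry K g x (rho Q K g⁻¹ y), h1]
  have h3 : ∀ x y, BK Q K x (rho Q K g y) = BK Q K (rho Q K g⁻¹ x) y := fun x y => by
    rw [← rho_isometry K g (rho Q K g⁻¹ x) y, h1]
  simp only [ad_apply, Module.End.mul_apply ((rho Q K) g * X) ((rho Q K) g⁻¹) v, Module.End.mul_apply ((rho Q K) g) X (((rho Q K) g⁻¹) v), Module.End.mul_apply ((rho Q K) g * X) ((rho Q K) g⁻¹) w, Module.End.mul_apply ((rho Q K) g) X (((rho Q K) g⁻¹) w), h2 (X (((rho Q K) g⁻¹) v)) w, h3 v (X (((rho Q K) g⁻¹) w)), hX (((rho Q K) g⁻¹) v) (((rho Q K) g⁻¹) w)]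

/-- the dimension of the invariant subspaces containing a non-zero skew element -/
theorem le_finrank_of_inv (hG : Good Q) (h2 : (2 : K) ≠ 0) {S : Submodule K (Module.End K (ι → K))}
    (hS : _root_.Cfsg.Agent.H883.BR.Inv (ad (rho Q K)) ⊤ S) {a : Module.End K (ι → K)} (ha : a ∈ S) (ha' : a ∈ so (BK Q K)) (ha0 : a ≠ 0) :
    Fintype.card ι * (Fintype.card ι - 1) / 2 ≤ finrank K S := by
  rw [← finrank_so' K hG h2]
  have h1 : S ⊓ so (BK Q K) = so (BK Q K) := by
    refine so_le_of_inv K hG h2 (fun g hg X hX => ⟨hS g hg X hX.1, so_inv K g hg X hX.2⟩) inf_le_right fun h => ?_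
    exact ha0 ((Submodule.mem_bot K).1 (h ▸ ⟨ha, ha'⟩))
  rw [← h1]
  exact Submodule.finrank_mono inf_le_left

theorem so_ne_bot (hG : Good Q) : so (BK Q K) ≠ ⊥ := by
  have hE := ext_jm K hG.nondeg
  obtain ⟨x, y, hxy⟩ := hG.exists_hyp
  intro h0
  have h : rt (BK Q K) (jm F K ι x) (jm F K ι y) ∈ so (BK Q K) := rt_mem_so (BK_symm Q K) _ _
  rw [h0, Submodule.mem_bot] at h
  have h1 := congrArg (fun X : Module.End K (ι → K) => X (jm F K ι x)) h
  simp only [LinearMap.zero_apply] at h1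
  rw [rt_apply, hE.form_one' hxy.pair, hE.form_zero hxy.polar_left, one_smul, zero_smul, sub_zero] at h1
  exact hE.j_ne hG.nondeg hxy.left_ne h1

/-! ### the subfield -/

variable (F) in
/-- `F` as a subfield of `K` -/
noncomputable abbrev Fs : Subfield K := (algebraMap F K).fieldRange

variable (F) in
/-- the inverse of `F → Fs` -/
noncomputable def inv (t : Fs F K) : F := Classical.choose t.2

theorem algebraMap_inv (t : Fs F K) : algebraMap F K (inv F K t) = t := Classical.choose_spec t.2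

theorem inv_add (s t : Fs F K) : inv F K (s + t) = inv F K s + inv F K t := by
  apply (algebraMap F K).injective
  rw [map_add, algebraMap_inv, algebraMap_inv, algebraMap_inv]
  rfl

/-- the root groups, indexed by the subfield -/
noncomputable def xs (hG : Good Q) (p : Rp Q) (t : Fs F K) : ↥(Omega F ⇑Q) := xg hG p (inv F K t)

theorem rho_xs (hG : Good Q) (p : Rp Q) (t : Fs F K) : rho Q K (xs K hG p t) = 1 + (t : K) • rr Q K p := by
  rw [xs, rho_xg, algebraMap_inv]

theorem xs_map (hG : Good Q) (p : Rp Q) (t : F) : xs K hG p ⟨algebraMap F K t, t, rfl⟩ = xg hG p t := by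
  apply rho_injective K
  rw [rho_xs, rho_xg]

theorem oneP (hG : Good Q) : OneP (Fs F K) (xs K hG) where
  add p s t := by rw [xs, inv_add, xg_add]; rfl
  gen := by
    rw [eq_top_iff, ← closure_xg hG]
    apply Subgroup.closure_mono
    rintro _ ⟨p, t, rfl⟩
    exact ⟨p, _, xs_map K hG p t⟩

theorem polyDeg_rho (hG : Good Q) : PolyDeg (rho Q K) (Fs F K) (xs K hG) 1 := polyDeg_one (rho_xs K hG)

/-- the roots as root elements of the group -/
theorem rt_root (hG : Good Q) (p : Rp Q) : Rt (rho Q K) (Fs F K) ⊤ (rr Q K p) := by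
  refine ⟨rr_sq K hG p, ?_⟩
  rintro _ ⟨t, rfl⟩
  exact ⟨xg hG p t, trivial, rho_xg K hG p t⟩

omit [DecidableEq ι] in
theorem finrank_range_rt {B : LinearMap.BilinForm K (ι → K)} (x y : ι → K) :
    finrank K (LinearMap.range (rt B x y)) ≤ 2 := by
  classical
  have h1 : LinearMap.range (rt B x y) ≤ Submodule.span K (({x, y} : Finset (ι → K)) : Set (ι → K)) := by
    rintro _ ⟨z, rfl⟩
    rw [rt_apply]
    exact Submodule.sub_mem _ (Submodule.smul_mem _ _ (Submodule.subset_span (by simp)))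
      (Submodule.smul_mem _ _ (Submodule.subset_span (by simp)))
  exact (Submodule.finrank_mono h1).trans ((finrank_span_finset_le_card _).trans Finset.card_le_two)

end Cfsg.Agent.H621.BR
end

private theorem dce_4f4389ca0fd3 : _root_.True := by
  try have : _root_.True := by simp only [_root_.Cfsg.Agent.H621.BR.xg.eq_1]
  try have : _root_.True := by simp only [_root_.Cfsg.Agent.H621.BR.xs.eq_1]
  try have : _root_.True := by simp only [_root_.Cfsg.Agent.H621.BR.soBasis.eq_1]
  exact _root_.True.intro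
end

-- part: H583/BR/Trn
section
set_option linter.all false
open scoped Cfsg.Agent.FastGrp

/-!
# HUB BR (S5715, S5716), [BR-G2] (helper583, task 5863)

* `adjoin_eq_top_of_irr` : Burnside's theorem over an algebraically closed field;
* `trn_of_irr` : the trace of a nontrivial irreducible representation generated by one-parameter subgroups is not constant
  up to `dim`-th roots of unity.
-/

set_option autoImplicit false

namespace Cfsg.Agent.H583.BR.Trn

open Cfsg.Agent.H883.BR

universe u v w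

/-- Burnside's theorem -/
theorem adjoin_eq_top_of_irr {K : Type u} [Field K] [IsAlgClosed K] {G : Type w} [Group G] {W : Type v}
    [AddCommGroup W] [Module K W] [FiniteDimensional K W] {σ : G →* Module.End K W} (hirr : Irr σ ⊤) :
    Algebra.adjoin K (Set.range σ) = ⊤ := by
  classical
  obtain ⟨hV, hW⟩ := hirr
  set A : Subalgebra K (Module.End K W) := Algebra.adjoin K (Set.range σ) with hA
  have hmem : ∀ g, σ g ∈ A := fun g => Algebra.subset_adjoin ⟨g, rfl⟩
  have hsimple : IsSimpleModule A W := by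
    refine { exists_pair_ne := ⟨⊥, ⊤, bot_ne_top⟩, eq_bot_or_eq_top := fun U => ?_ }
    rcases hW (U.restrictScalars K) (fun g _ v hv => U.smul_mem ⟨σ g, hmem g⟩ hv) with h | h
    · left
      exact (Submodule.restrictScalars_eq_bot_iff K A W).1 h
    · right
      exact (Submodule.restrictScalars_eq_top_iff K A W).1 h
  rw [eq_top_iff]
  rintro a -
  have hsc := (IsSimpleModule.algebraMap_end_bijective_of_isAlgClosed (A := A) (V := W) K).2
  let f : Module.End (Module.End A W) W :=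
    { toFun := a
      map_add' := map_add a
      map_smul' := by
        intro φ v
        obtain ⟨c, rfl⟩ := hsc φ
        show a ((algebraMap K (Module.End A W) c) v) = (algebraMap K (Module.End A W) c) (a v)
        rw [Module.algebraMap_end_apply, Module.algebraMap_end_apply, map_smul] }
  let b := Module.finBasis K W
  obtain ⟨r, hr⟩ := jacobson_density f (Finset.univ.image b)
  have : a = (r : Module.End K W) := by
    apply b.ext
    intro i
    exact hr (b i) (Finset.mem_image_of_mem _ (Finset.mem_univ _))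
  rw [this]
  exact r.2

/-- the trace form is nondegenerate -/
theorem eq_zero_of_trace {K : Type u} [Field K] {W : Type v} [AddCommGroup W] [Module K W] [FiniteDimensional K W]
    {Y : Module.End K W} (h : ∀ X : Module.End K W, LinearMap.trace K W (X * Y) = 0) : Y = 0 := by
  by_contra hne
  obtain ⟨w, hw⟩ : ∃ w, Y w ≠ 0 := by
    by_contra hcon
    push Not at hcon
    exact hne (LinearMap.ext hcon)
  obtain ⟨f, hf⟩ := Module.Projective.exists_dual_ne_zero K hw
  apply hf
  have h1 := h (LinearMap.smulRight f w)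
  have h2 : LinearMap.smulRight f w * Y = LinearMap.smulRight (f ∘ₗ Y) w := by
    ext v
    rfl
  rw [h2, LinearMap.trace_smulRight] at h1
  exact h1

open Polynomial in
/-- [BR-G2] -/
theorem trn_of_irr {K : Type u} [Field K] [IsAlgClosed K] {G : Type w} [Group G] {W : Type v} [AddCommGroup W]
    [Module K W] [FiniteDimensional K W] {σ : G →* Module.End K W} {F : Subfield K} [Finite F] {ι : Type*}
    {x : ι → F → G} (hirr : Irr σ ⊤) (hx : OneP F x) {e : ℕ} (hp : PolyDeg σ F x e)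
    (hq : e * Module.finrank K W < Nat.card F) (hne : ∃ g, σ g ≠ 1) :
    ∃ g h : G, (LinearMap.trace K W (σ g)) ^ Module.finrank K W ≠
      (LinearMap.trace K W (σ h)) ^ Module.finrank K W := by
  classical
  have := Fintype.ofFinite F
  by_contra hcon
  push Not at hcon
  have hnt : Nontrivial W := hirr.1
  have hN : 0 < Module.finrank K W := Module.finrank_pos
  -- invariance under the root groups
  have step : ∀ i t g, LinearMap.trace K W (σ (g * x i t)) = LinearMap.trace K W (σ g) := by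
    intro i t g
    obtain ⟨c, hc⟩ := hp i
    obtain ⟨P, hPd⟩ : ∃ P : K[X], P = ∑ j ∈ Finset.range (e + 1), C (LinearMap.trace K W (σ g * c j)) * X ^ j :=
      ⟨_, rfl⟩
    have hP : ∀ t : F, P.eval (t : K) = LinearMap.trace K W (σ (g * x i t)) := by
      intro t
      rw [hPd, eval_finsetSum, map_mul, hc, Finset.mul_sum, map_sum]
      refine Finset.sum_congr rfl fun j _ => ?_
      rw [eval_mul, eval_C, eval_pow, eval_X, mul_smul_comm, map_smul, smul_eq_mul, mul_comm]
    have hdeg : P.natDegree ≤ e := by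
      rw [hPd]
      refine natDegree_sum_le_of_forall_le _ _ fun j hj => ?_
      exact (natDegree_C_mul_X_pow_le _ _).trans (Nat.lt_succ_iff.1 (Finset.mem_range.1 hj))
    have hconst : P ^ Module.finrank K W - C (LinearMap.trace K W (σ g) ^ Module.finrank K W) = 0 := by
      refine eq_zero_of_natDegree_lt_card_of_eval_eq_zero _ (f := fun t : F => (t : K)) Subtype.val_injective
        (fun t => ?_) ?_
      · rw [eval_sub, eval_pow, eval_C, hP, hcon (g * x i t) g, sub_self]
      · rw [← Nat.card_eq_fintype_card]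
        refine lt_of_le_of_lt (natDegree_sub_le _ _) (lt_of_le_of_lt ?_ hq)
        rw [natDegree_pow, natDegree_C, max_eq_left (Nat.zero_le _), mul_comm]
        exact Nat.mul_le_mul_right _ hdeg
    have h0 : P.natDegree = 0 := by
      have h1 := congrArg natDegree (sub_eq_zero.1 hconst)
      rw [natDegree_pow, natDegree_C] at h1
      exact (Nat.mul_eq_zero.1 h1).resolve_left hN.ne'
    have h1 : P.eval (t : K) = P.eval ((0 : F) : K) := by
      rw [eq_C_of_natDegree_eq_zero h0, eval_C, eval_C]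
    have hx0 : x i 0 = 1 := by
      have h2 := hx.add i 0 0
      rw [add_zero] at h2
      exact left_eq_mul.1 h2
    rw [hP, hP, hx0, mul_one] at h1
    exact h1
  -- the subgroup of translations
  let T : Subgroup G :=
    { carrier := {h | ∀ g, LinearMap.trace K W (σ (g * h)) = LinearMap.trace K W (σ g)}
      one_mem' := fun g => by rw [mul_one]
      mul_mem' := fun {a b} ha hb g => by rw [← mul_assoc, hb, ha]
      inv_mem' := fun {a} ha g => by
        have h1 := ha (g * a⁻¹)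
        rw [inv_mul_cancel_right] at h1
        exact h1.symm }
  have hT : T = ⊤ := by
    rw [eq_top_iff, ← hx.gen, Subgroup.closure_le]
    rintro _ ⟨i, t, rfl⟩
    exact fun g => step i t g
  obtain ⟨h, hh⟩ := hne
  apply hh
  rw [← sub_eq_zero]
  apply eq_zero_of_trace
  have hmem : h ∈ T := by rw [hT]; exact Subgroup.mem_top h
  intro X
  have hX : X ∈ Submodule.span K (Set.range σ) := by
    have h1 := adjoin_eq_top_of_irr hirr
    have h2 := Algebra.adjoin_eq_span (R := K) (Set.range σ)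
    have h3 : (Submonoid.closure (Set.range σ) : Set (Module.End K W)) = Set.range σ := by
      rw [← MonoidHom.coe_mrange, Submonoid.closure_eq]
    rw [h1, h3] at h2
    rw [← h2]
    exact Submodule.mem_top
  induction hX using Submodule.span_induction with
  | mem X hX =>
    obtain ⟨g, rfl⟩ := hX
    rw [mul_sub, mul_one, map_sub, ← map_mul, hmem g, sub_self]
  | zero => rw [zero_mul, map_zero]
  | add X Y _ _ hX hY => rw [add_mul, map_add, hX, hY, add_zero]
  | smul c X _ hX => rw [smul_mul_assoc, map_smul, hX, smul_zero]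

end Cfsg.Agent.H583.BR.Trn
end

-- part: H84/RG/L10
section
prune_inst 0x30000000000000
set_option linter.all false
open scoped Cfsg.Agent.FastGrp

/-!
# RG-L10 (S5714): no pairing is invariant under an irreducible element of the right parity (helper84)
-/

set_option autoImplicit false

namespace Cfsg.Agent.H84.RG

open Module Polynomial Cfsg.Agent.H200.LinFix Cfsg.Agent.H50.RG Cfsg.Agent.H847.Bs

universe u v

/-- the roots of the minimal polynomial of `z` in a finite field are the `q ^ i`-th powers of `z` -/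
theorem exists_pow {F L : Type*} [Field F] [Finite F] [Field L] [Finite L] [Algebra F L] {z u : L}
    (h : aeval u (minpoly F z) = 0) : ∃ i : ℕ, u = z ^ (Nat.card F ^ i) := by
  have := Fintype.ofFinite F
  have hint : IsIntegral F z := Algebra.IsIntegral.isIntegral z
  have h1 : IsConjRoot F z u := isConjRoot_of_aeval_eq_zero hint h
  obtain ⟨σ, hσ⟩ := isConjRoot_iff_exists_algEquiv.1 h1.symm
  obtain ⟨i, hi⟩ := (FiniteField.bijective_frobeniusAlgEquivOfAlgebraic_pow F L).2 σ
  refine ⟨i, ?_⟩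
  have hi' : FiniteField.frobeniusAlgEquivOfAlgebraic F L ^ (i : ℕ) = σ := hi
  rw [← hσ, ← hi', AlgEquiv.coe_pow, FiniteField.coe_frobeniusAlgEquivOfAlgebraic_iterate, Nat.card_eq_fintype_card]

section

variable {F X L : Type*} [Field F] [AddCommGroup X] [Module F X] [Field L] [Algebra F L]

/-- the adjoint of a polynomial in `z` -/
theorem pairing_poly (φ : L →ₐ[F] Module.End F X) {z : Module.End F X} {z₀ : L} (hφ : φ z₀ = z) (hz0 : z₀ ≠ 0)
    (σ : F →+* F) (B : X → X → F)
    (h1 : ∀ x y w, B (x + y) w = B x w + B y w) (h2 : ∀ x y w, B x (y + w) = B x y + B x w)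
    (h3 : ∀ (a : F) (x y), B (a • x) y = a * B x y) (h4 : ∀ (a : F) (x y), B x (a • y) = σ a * B x y)
    (h5 : ∀ a, σ (σ a) = a) (h6 : ∀ x y, B (z x) (z y) = B x y) (f : F[X]) (x y : X) :
    B (φ (aeval z₀ f) x) y = B x (φ (aeval z₀⁻¹ (f.map σ)) y) := by
  have hinv : ∀ y, z (φ z₀⁻¹ y) = y := by
    intro y
    rw [← hφ, ← Module.End.mul_apply, ← map_mul, mul_inv_cancel₀ hz0, map_one, Module.End.one_apply]
  have hadj : ∀ x y, B (z x) y = B x (φ z₀⁻¹ y) := by
    intro x y
    rw [← h6 x, hinv]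
  have hpow : ∀ (n : ℕ) x y, B ((φ (z₀ ^ n)) x) y = B x (φ (z₀⁻¹ ^ n) y) := by
    intro n
    induction n with
    | zero => intro x y; rw [pow_zero, pow_zero, map_one, Module.End.one_apply, Module.End.one_apply]
    | succ n ih =>
      intro x y
      rw [pow_succ, map_mul, Module.End.mul_apply, ih, hφ, hadj, ← Module.End.mul_apply, ← map_mul, ← pow_succ']
  induction f using Polynomial.induction_on' generalizing x y with
  | add p q hp hq =>
    rw [map_add, map_add, LinearMap.add_apply, h1, hp, hq, Polynomial.map_add, map_add, map_add,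
      LinearMap.add_apply, h2]
  | monomial n a =>
    rw [aeval_monomial, Polynomial.map_monomial, aeval_monomial, map_mul, map_mul, Module.End.mul_apply,
      Module.End.mul_apply, AlgHom.commutes, AlgHom.commutes, Module.algebraMap_end_apply,
      Module.algebraMap_end_apply, h3, h4, h5, hpow]

/-- either the pairing is zero, or `z⁻¹` is a root of the image of the minimal polynomial -/
theorem dichotomy (φ : L →ₐ[F] Module.End F X) {z : Module.End F X} {z₀ : L} (hφ : φ z₀ = z) (hz0 : z₀ ≠ 0)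
    (σ : F →+* F) (B : X → X → F)
    (h1 : ∀ x y w, B (x + y) w = B x w + B y w) (h2 : ∀ x y w, B x (y + w) = B x y + B x w)
    (h3 : ∀ (a : F) (x y), B (a • x) y = a * B x y) (h4 : ∀ (a : F) (x y), B x (a • y) = σ a * B x y)
    (h5 : ∀ a, σ (σ a) = a) (h6 : ∀ x y, B (z x) (z y) = B x y) :
    (∀ x y, B x y = 0) ∨ aeval z₀⁻¹ ((minpoly F z₀).map σ) = 0 := by
  by_cases hw : aeval z₀⁻¹ ((minpoly F z₀).map σ) = 0
  · exact Or.inr hw
  · left
    intro x y
    have h7 := pairing_poly φ hφ hz0 σ B h1 h2 h3 h4 h5 h6 (minpoly F z₀) x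
      (φ (aeval z₀⁻¹ ((minpoly F z₀).map σ))⁻¹ y)
    have h0l : B 0 (φ (aeval z₀⁻¹ ((minpoly F z₀).map σ))⁻¹ y) = 0 := by
      have := h3 0 0 (φ (aeval z₀⁻¹ ((minpoly F z₀).map σ))⁻¹ y)
      rwa [zero_smul, zero_mul] at this
    rw [minpoly.aeval, map_zero, LinearMap.zero_apply, h0l, ← Module.End.mul_apply, ← map_mul,
      mul_inv_cancel₀ hw, map_one, Module.End.one_apply] at h7
    exact h7.symm

end

/-- the field of an irreducible element -/
theorem exists_field {F : Type u} {X : Type v} [Field F] [Finite F] [AddCommGroup X] [Module F X] [Module.Finite F X]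
    (z : X ≃ₗ[F] X) (hz : Irr z ⊤) : ∃ (L : Type u) (_ : Field L) (_ : Finite L) (_ : Algebra F L)
      (φ : L →ₐ[F] Module.End F X) (z₀ : L), φ z₀ = z.toLinearMap ∧ z₀ ≠ 0 ∧ ∀ n : ℕ, z₀ ^ n = 1 → z ^ n = 1 := by
  have hX : Finite X := Module.finite_of_finite F
  have hnt : Nontrivial X := by
    by_contra hn
    rw [not_nontrivial_iff_subsingleton] at hn
    exact hz.ne_bot (Subsingleton.elim _ _)
  have hirr : ∀ U : Submodule F X, (∀ u ∈ U, z.toLinearMap u ∈ U) → U = ⊥ ∨ U = ⊤ :=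
    fun U hU => hz.min U le_top hU
  have hP : Fact (Irreducible (minpoly F z.toLinearMap)) := ⟨irreducible_minpoly hirr⟩
  have hnt' : Nontrivial (Module.End F X) := Module.End.instNontrivial
  have hinj : Function.Injective (phi z.toLinearMap) := (phi z.toLinearMap).toRingHom.injective
  have hE : Finite (Module.End F X) := Finite.of_injective (fun f : Module.End F X => (f : X → X)) DFunLike.coe_injective
  have hfin : Finite (KK z.toLinearMap) := Finite.of_injective _ hinj
  have hφ : phi z.toLinearMap (AdjoinRoot.root (minpoly F z.toLinearMap)) = z.toLinearMap := phi_root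
  refine ⟨KK z.toLinearMap, inferInstance, hfin, inferInstance, phi z.toLinearMap, AdjoinRoot.root _, hφ, ?_, ?_⟩
  · intro h
    rw [h, map_zero] at hφ
    obtain ⟨x, hx⟩ := exists_ne (0 : X)
    have h7 : z.toLinearMap x = 0 := by rw [← hφ]; rfl
    exact hx (z.map_eq_zero_iff.1 h7)
  · intro n hn
    have h7 : z.toLinearMap ^ n = 1 := by
      have h8 := congrArg (phi z.toLinearMap) hn
      rwa [map_pow, map_one, hφ] at h8
    have h9 : ∀ m : ℕ, ∀ x, (z ^ m) x = (z.toLinearMap ^ m) x := by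
      intro m
      induction m with
      | zero => intro x; rfl
      | succ m ih =>
        intro x
        rw [pow_succ, pow_succ]
        exact ih (z x)
    ext x
    rw [h9, h7]
    rfl

theorem zmod_two : ∀ a : ZMod 2, a = 0 ∨ a = 1 := by decide

/-- the roots of the image of the minimal polynomial of `z` under `a ↦ a ^ t` -/
theorem exists_pow_of_map {F L : Type*} [Field F] [Finite F] [Field L] [Finite L] [Algebra F L] {p : ℕ} [Fact p.Prime]
    [CharP F p] [CharP L p] (k : ℕ) {z u : L} (h : aeval u ((minpoly F z).map (iterateFrobenius F p k)) = 0) :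
    ∃ i : ℕ, u = z ^ (Nat.card F ^ i * p ^ k) := by
  obtain ⟨w, hw⟩ := (Finite.injective_iff_surjective.1 (iterateFrobenius L p k).injective) u
  have h1 : iterateFrobenius L p k (aeval w (minpoly F z)) = 0 := by
    rw [aeval_def, hom_eval₂, hw]
    rw [aeval_def, eval₂_map] at h
    rw [← h]
    congr 1
    ext a
    simp only [RingHom.comp_apply, iterateFrobenius_def, map_pow]
  have h2 : aeval w (minpoly F z) = 0 := (map_eq_zero_iff _ (iterateFrobenius L p k).injective).1 h1
  obtain ⟨i, hi⟩ := exists_pow h2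
  refine ⟨i, ?_⟩
  rw [← hw, iterateFrobenius_def, hi, ← pow_mul]

theorem l10 : L10 := by
  intro F X _ _ _ _ _ e r z he hz hr hrd hord s hs B h1 h2 h3 h4 h6
  obtain ⟨L, _, _, _, φ, z₀, hφ, hz0, hz1⟩ := exists_field z hz
  have hdvd : ∀ n : ℕ, z₀ ^ n = 1 → r ∣ n := fun n hn => hrd.trans (orderOf_dvd_of_pow_eq_one (hz1 n hn))
  have hr' : Fact r.Prime := ⟨hr⟩
  have h6' : ∀ x y, B (z.toLinearMap x) (z.toLinearMap y) = B x y := h6
  obtain ⟨hs, he2⟩ | ⟨⟨t, ht, hs⟩, he2⟩ := hs
  · obtain h | h := dichotomy φ hφ hz0 (RingHom.id F) B h1 h2 h3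
      (fun a x y => by rw [h4, hs]; rfl) (fun a => rfl) h6'
    · exact h
    · exfalso
      rw [Polynomial.map_id] at h
      obtain ⟨i, hi⟩ := exists_pow h
      have h7 : z₀ ^ (Nat.card F ^ i + 1) = 1 := by rw [pow_succ, ← hi, inv_mul_cancel₀ hz0]
      have h8 : (((Nat.card F) : ℕ) : ZMod r) ^ i = -1 := by
        have h9 := (ZMod.natCast_eq_zero_iff _ _).2 (hdvd _ h7)
        push_cast at h9
        exact eq_neg_of_add_eq_zero_left h9
      have h10 : e ∣ 2 * i := by
        rw [← hord]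
        apply orderOf_dvd_of_pow_eq_one
        rw [mul_comm, pow_mul, h8, neg_one_sq]
      have h11 : e ∣ i := (Nat.Coprime.dvd_mul_left (Nat.Coprime.symm he2.coprime_two_left)).1 h10
      rw [← hord] at h11
      have h12 := orderOf_dvd_iff_pow_eq_one.1 h11
      rw [h8] at h12
      have h13 : r = 2 := by
        have h14 : ((2 : ℕ) : ZMod r) = 0 := by
          push_cast
          have : (1 : ZMod r) + 1 = 0 := by
            nth_rewrite 1 [← h12]
            ring
          rw [← this]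
          norm_num
        have h15 := (ZMod.natCast_eq_zero_iff _ _).1 h14
        exact (Nat.prime_dvd_prime_iff_eq hr Nat.prime_two).1 h15
      subst h13
      rcases zmod_two ((Nat.card F : ℕ) : ZMod 2) with h17 | h17
      · rw [h17] at hord
        have h18 : orderOf (0 : ZMod 2) = 0 := orderOf_eq_zero (by
          rw [isOfFinOrder_iff_pow_eq_one]
          rintro ⟨n, hn, hn'⟩
          rw [zero_pow hn.ne'] at hn'
          exact zero_ne_one hn')
        omega
      · rw [h17, orderOf_one] at hord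
        omega
  · obtain ⟨p, hp, hcp⟩ : ∃ p : ℕ, ∃ _ : Fact p.Prime, CharP F p := by
      obtain ⟨p, hp⟩ := CharP.exists F
      exact ⟨p, ⟨CharP.char_is_prime F p⟩, hp⟩
    have hcL : CharP L p := charP_of_injective_algebraMap (algebraMap F L).injective p
    have := Fintype.ofFinite F
    obtain ⟨n, hn, hcard⟩ := FiniteField.card F p
    rw [← Nat.card_eq_fintype_card] at hcard
    obtain ⟨k, hk, rfl⟩ : ∃ k ≤ (n : ℕ), t = p ^ k := by
      have h7 : t ∣ p ^ (n : ℕ) := by
        rw [← hcard, ht]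
        exact dvd_pow_self t two_ne_zero
      exact (Nat.dvd_prime_pow hp.out).1 h7
    obtain h | h := dichotomy φ hφ hz0 (iterateFrobenius F p k) B h1 h2 h3
      (fun a x y => by rw [h4, hs, iterateFrobenius_def]) (fun a => by
        rw [iterateFrobenius_def, iterateFrobenius_def, ← pow_mul, ← pow_two, ← ht, Nat.card_eq_fintype_card,
          FiniteField.pow_card]) h6'
    · exact h
    · exfalso
      obtain ⟨i, hi⟩ := exists_pow_of_map k h
      have h7 : z₀ ^ (Nat.card F ^ i * p ^ k + 1) = 1 := by rw [pow_succ, ← hi, inv_mul_cancel₀ hz0]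
      have h8 : (((Nat.card F) : ℕ) : ZMod r) ^ i * ((p ^ k : ℕ) : ZMod r) = -1 := by
        have h9 := (ZMod.natCast_eq_zero_iff _ _).2 (hdvd _ h7)
        push_cast at h9 ⊢
        exact eq_neg_of_add_eq_zero_left h9
      have h9 : ((Nat.card F : ℕ) : ZMod r) = ((p ^ k : ℕ) : ZMod r) ^ 2 := by
        rw [ht]
        push_cast
        rfl
      have h10 : e ∣ 2 * i + 1 := by
        rw [← hord]
        apply orderOf_dvd_of_pow_eq_one
        have h11 : ((Nat.card F : ℕ) : ZMod r) ^ (2 * i + 1) =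
            (((Nat.card F : ℕ) : ZMod r) ^ i * ((p ^ k : ℕ) : ZMod r)) ^ 2 := by
          rw [mul_pow, ← h9]
          ring
        rw [h11, h8, neg_one_sq]
      obtain ⟨c, hc⟩ := h10
      obtain ⟨d, hd⟩ := he2
      have : 2 * i + 1 = 2 * (d * c) := by rw [hc, hd]; ring
      omega

end Cfsg.Agent.H84.RG
end

-- part: H262/Rx/Bridge
section
prune_inst 0x30000000000000
set_option linter.all false
open scoped Cfsg.Agent.FastGrp

/-!
# S5715 and S5716 from the rows (helper262)

* `missX T x` : the number of `y` with `⟨x, y⟩ ≠ T`; `missC T` : the number of pairs with `⟨x, x^y⟩ ≠ T`;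
* `BX`, `UX` (bounded rank, unbounded rank; fixed `x`), `BC`, `UC` (random conjugate);
* `s5716 : BX → UX → ...`, `s5715 : BC → UC → ...`.
-/

set_option autoImplicit false
set_option linter.unusedSectionVars false
set_option linter.unusedVariables false

namespace Cfsg.Agent.H262.Rx

open Cfsg Cfsg.Agent.OrdDiv Cfsg.Agent.H436 Subgroup

universe u v

/-- the number of `y` which do not generate together with `x` -/
noncomputable def missX (T : Type u) [Group T] (x : T) : ℕ := Nat.card {y : T // closure {x, y} ≠ ⊤}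

/-- the number of pairs `(x, y)` such that `x` and `y x y⁻¹` do not generate -/
noncomputable def missC (T : Type u) [Group T] : ℕ :=
  Nat.card {p : T × T // closure {p.1, p.2 * p.1 * p.2⁻¹} ≠ ⊤}

/-- fixed element, bounded rank -/
def BX (P : Grp → Prop) : Prop :=
  ∀ (N : ℕ) (ε : ℝ), 0 < ε → ∃ Q : ℕ, ∀ (g : Grp) (T : Type) [Group T] [Finite T] [IsSimpleGroup T], IsNamed g T →
    P g → rk g ≤ N → Q ≤ fld g → ∀ x : T, x ≠ 1 → (missX T x : ℝ) ≤ ε * Nat.card T

/-- fixed element, unbounded rank -/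
def UX (P : Grp → Prop) : Prop :=
  ∀ (ε : ℝ), 0 < ε → ∃ N Q : ℕ, ∀ (g : Grp) (T : Type) [Group T] [Finite T] [IsSimpleGroup T], IsNamed g T →
    P g → N ≤ rk g → Q ≤ fld g → ∀ x : T, x ≠ 1 → (missX T x : ℝ) ≤ ε * Nat.card T

/-- random conjugate, bounded rank -/
def BC (P : Grp → Prop) : Prop :=
  ∀ (N : ℕ) (ε : ℝ), 0 < ε → ∃ Q : ℕ, ∀ (g : Grp) (T : Type) [Group T] [Finite T] [IsSimpleGroup T], IsNamed g T →
    P g → rk g ≤ N → Q ≤ fld g → (missC T : ℝ) ≤ ε * (Nat.card T : ℝ) ^ 2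

/-- random conjugate, unbounded rank -/
def UC (P : Grp → Prop) : Prop :=
  ∀ (ε : ℝ), 0 < ε → ∃ N : ℕ, ∀ (g : Grp) (T : Type) [Group T] [Finite T] [IsSimpleGroup T], IsNamed g T →
    P g → N ≤ rk g → (missC T : ℝ) ≤ ε * (Nat.card T : ℝ) ^ 2

theorem BX.or {P R : Grp → Prop} (hP : BX P) (hR : BX R) : BX fun g => P g ∨ R g := by
  intro N ε hε
  obtain ⟨a, ha⟩ := hP N ε hε
  obtain ⟨b, hb⟩ := hR N ε hε
  refine ⟨max a b, fun g T _ _ _ hT hg hk hq => ?_⟩
  rcases hg with hg | hg
  · exact ha g T hT hg hk ((le_max_left _ _).trans hq)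
  · exact hb g T hT hg hk ((le_max_right _ _).trans hq)

theorem UX.or {P R : Grp → Prop} (hP : UX P) (hR : UX R) : UX fun g => P g ∨ R g := by
  intro ε hε
  obtain ⟨a, a', ha⟩ := hP ε hε
  obtain ⟨b, b', hb⟩ := hR ε hε
  refine ⟨max a b, max a' b', fun g T _ _ _ hT hg hk hq => ?_⟩
  rcases hg with hg | hg
  · exact ha g T hT hg ((le_max_left _ _).trans hk) ((le_max_left _ _).trans hq)
  · exact hb g T hT hg ((le_max_right _ _).trans hk) ((le_max_right _ _).trans hq)

theorem BC.or {P R : Grp → Prop} (hP : BC P) (hR : BC R) : BC fun g => P g ∨ R g := by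
  intro N ε hε
  obtain ⟨a, ha⟩ := hP N ε hε
  obtain ⟨b, hb⟩ := hR N ε hε
  refine ⟨max a b, fun g T _ _ _ hT hg hk hq => ?_⟩
  rcases hg with hg | hg
  · exact ha g T hT hg hk ((le_max_left _ _).trans hq)
  · exact hb g T hT hg hk ((le_max_right _ _).trans hq)

theorem UC.or {P R : Grp → Prop} (hP : UC P) (hR : UC R) : UC fun g => P g ∨ R g := by
  intro ε hε
  obtain ⟨a, ha⟩ := hP ε hε
  obtain ⟨b, hb⟩ := hR ε hε
  refine ⟨max a b, fun g T _ _ _ hT hg hk => ?_⟩
  rcases hg with hg | hg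
  · exact ha g T hT hg ((le_max_left _ _).trans hk)
  · exact hb g T hT hg ((le_max_right _ _).trans hk)

theorem BX.mono {P R : Grp → Prop} (h : ∀ g, R g → P g) (hP : BX P) : BX R := fun N ε hε => by
  obtain ⟨a, ha⟩ := hP N ε hε
  exact ⟨a, fun g T _ _ _ hT hg hk hq => ha g T hT (h g hg) hk hq⟩

theorem UX.mono {P R : Grp → Prop} (h : ∀ g, R g → P g) (hP : UX P) : UX R := fun ε hε => by
  obtain ⟨a, b, ha⟩ := hP ε hε
  exact ⟨a, b, fun g T _ _ _ hT hg hk hq => ha g T hT (h g hg) hk hq⟩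

theorem BC.mono {P R : Grp → Prop} (h : ∀ g, R g → P g) (hP : BC P) : BC R := fun N ε hε => by
  obtain ⟨a, ha⟩ := hP N ε hε
  exact ⟨a, fun g T _ _ _ hT hg hk hq => ha g T hT (h g hg) hk hq⟩

theorem UC.mono {P R : Grp → Prop} (h : ∀ g, R g → P g) (hP : UC P) : UC R := fun ε hε => by
  obtain ⟨a, ha⟩ := hP ε hε
  exact ⟨a, fun g T _ _ _ hT hg hk => ha g T hT (h g hg) hk⟩

/-- the number of elements with the opposite property -/
theorem card_not {X : Type*} [Finite X] (P : X → Prop) :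
    (Nat.card {x : X // P x} : ℝ) = Nat.card X - Nat.card {x : X // ¬ P x} := by
  classical
  have := Fintype.ofFinite X
  have h : Nat.card {x : X // P x} + Nat.card {x : X // ¬ P x} = Nat.card X := by
    rw [← Nat.card_sum]
    exact Nat.card_congr (Equiv.sumCompl P)
  rw [← h]
  push_cast
  ring

theorem closure_eq_top_iff {G : Type u} {H : Type v} [Group G] [Group H] (e : G ≃* H) (s : Set G) :
    closure s = ⊤ ↔ closure (e '' s) = ⊤ := by
  have h : closure (e '' s) = (closure s).map e.toMonoidHom := by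
    rw [MonoidHom.map_closure]
    rfl
  rw [h]
  constructor
  · intro h
    rw [h]
    exact Subgroup.map_top_of_surjective _ e.surjective
  · intro h
    rw [eq_top_iff]
    intro x _
    have hx : e x ∈ (closure s).map e.toMonoidHom := h ▸ mem_top _
    obtain ⟨y, hy, hxy⟩ := hx
    have : y = x := e.injective hxy
    exact this ▸ hy

theorem missX_congr {G : Type u} {H : Type v} [Group G] [Group H] (e : G ≃* H) (x : G) :
    missX G x = missX H (e x) := by
  refine Nat.card_congr (e.toEquiv.subtypeEquiv fun y => ?_)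
  rw [ne_eq, ne_eq, closure_eq_top_iff e, Set.image_pair]
  rfl

theorem missC_congr {G : Type u} {H : Type v} [Group G] [Group H] (e : G ≃* H) : missC G = missC H := by
  refine Nat.card_congr ((Equiv.prodCongr e.toEquiv e.toEquiv).subtypeEquiv fun p => ?_)
  rw [ne_eq, ne_eq, closure_eq_top_iff e, Set.image_pair, map_mul, map_mul, map_inv]
  rfl

/-- **S5716 from the rows.** -/
theorem s5716 (hB : BX IsCl) (hU : UX IsCl) (ε : ℝ) (hε : 0 < ε) :
    ∃ Q : ℕ, ∀ (F : Type) [Field F] [Fintype F], Q ≤ Fintype.card F →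
      ∀ (G : Type u) [Group G] [Finite G] [IsSimpleGroup G],
        ((∃ n : ℕ, Nonempty (G ≃* Matrix.ProjectiveSpecialLinearGroup (Fin n) F)) ∨
          (∃ m : ℕ, Nonempty (G ≃* Cfsg.PSp m F)) ∨
          (∃ n q : ℕ, Fintype.card F = q ^ 2 ∧ Nonempty (G ≃* Cfsg.PSU n F q)) ∨
          (∃ m : ℕ, Nonempty (G ≃* Cfsg.POmega F (Cfsg.quadFormOdd m F))) ∨
          (∃ m : ℕ, Nonempty (G ≃* Cfsg.POmega F (Cfsg.quadFormPlus m F))) ∨
          (∃ (m : ℕ) (a b : F), (∀ z₁ z₂ : F, z₁ ^ 2 + a * z₁ * z₂ + b * z₂ ^ 2 = 0 → z₁ = 0 ∧ z₂ = 0) ∧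
            Nonempty (G ≃* Cfsg.POmega F (Cfsg.quadFormMinus m F a b)))) →
        ∀ x : G, x ≠ 1 → (1 - ε) * (Nat.card G : ℝ) ≤ Nat.card {y : G // Subgroup.closure {x, y} = ⊤} := by
  obtain ⟨N, Q0, h0⟩ := hU ε hε
  obtain ⟨Q1, h1⟩ := hB N ε hε
  refine ⟨(max Q0 Q1) ^ 2 + 16, fun F _ _ hF G _ _ _ h x hx => ?_⟩
  let e : G ≃* Shrink.{0} G := Shrink.mulEquiv.symm
  have hs : IsSimpleGroup (Shrink.{0} G) := e.symm.isSimpleGroup
  have hT : ∃ g, IsCl g ∧ IsNamed g (Shrink.{0} G) ∧ Fintype.card F ≤ fld g ^ 2 := by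
    refine named_of_form F (by omega) _ ?_
    rcases h with ⟨n, ⟨f⟩⟩ | ⟨n, ⟨f⟩⟩ | ⟨n, q, hq, ⟨f⟩⟩ | ⟨n, ⟨f⟩⟩ | ⟨n, ⟨f⟩⟩ | ⟨n, a, b, hab, ⟨f⟩⟩
    · exact Or.inl ⟨n, ⟨e.symm.trans f⟩⟩
    · exact Or.inr (Or.inl ⟨n, ⟨e.symm.trans f⟩⟩)
    · exact Or.inr (Or.inr (Or.inl ⟨n, q, hq, ⟨e.symm.trans f⟩⟩))
    · exact Or.inr (Or.inr (Or.inr (Or.inl ⟨n, ⟨e.symm.trans f⟩⟩)))
    · exact Or.inr (Or.inr (Or.inr (Or.inr (Or.inl ⟨n, ⟨e.symm.trans f⟩⟩))))
    · exact Or.inr (Or.inr (Or.inr (Or.inr (Or.inr ⟨n, a, b, hab, ⟨e.symm.trans f⟩⟩))))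
  obtain ⟨g, hg, hn, hq⟩ := hT
  have hQ : max Q0 Q1 ≤ fld g := by
    by_contra hc
    have h3 : fld g ^ 2 ≤ (max Q0 Q1) ^ 2 := Nat.pow_le_pow_left (by omega) 2
    omega
  have hx' : e x ≠ 1 := fun h => hx (e.injective (h.trans (map_one e).symm))
  have key : (missX G x : ℝ) ≤ ε * Nat.card G := by
    rw [missX_congr e x, Nat.card_congr e.toEquiv]
    rcases le_total (rk g) N with hr | hr
    · exact h1 g _ hn hg hr ((le_max_right _ _).trans hQ) _ hx'
    · exact h0 g _ hn hg hr ((le_max_left _ _).trans hQ) _ hx'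
  rw [card_not]
  change _ ≤ (Nat.card G : ℝ) - (missX G x : ℝ)
  linarith

/-- only finitely many names with bounded parameters -/
theorem exists_bound (N Q : ℕ) : ∃ D : ℕ, ∀ g, IsCl g → rk g ≤ N → fld g < Q → ordN g < D := by
  let s : Finset (ℕ × ℕ) := Finset.range (N + 1) ×ˢ Finset.range Q
  let f : ℕ × ℕ → ℕ := fun x => ordN (.psl x.1 x.2) + ordN (.psp x.1 x.2) + ordN (.psu x.1 x.2) +
    ordN (.oodd x.1 x.2) + ordN (.oplus x.1 x.2) + ordN (.ominus x.1 x.2)
  refine ⟨∑ x ∈ s, f x + 1, fun g hg hr hq => ?_⟩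
  have key : ∀ n q : ℕ, n ≤ N → q < Q → f (n, q) ≤ ∑ x ∈ s, f x := fun n q hn hq =>
    Finset.single_le_sum (f := f) (fun _ _ => Nat.zero_le _)
      (Finset.mem_product.2 ⟨Finset.mem_range.2 (Nat.lt_succ_of_le hn), Finset.mem_range.2 hq⟩)
  rcases hg with ⟨n, q, rfl⟩ | ⟨n, q, rfl⟩ | ⟨n, q, rfl⟩ | ⟨n, q, rfl⟩ | ⟨n, q, rfl⟩ | ⟨n, q, rfl⟩
  all_goals
    have h := key n q hr hq
    simp only [f] at h ⊢
    omega

/-- the groups of S5715 are simple -/
theorem simple_of_classical {G : Type u} [Group G]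
    (h : Cfsg.IsPSL G ∨ Cfsg.IsPSp G ∨ Cfsg.IsPSU G ∨ Cfsg.IsPOmegaOdd G ∨ Cfsg.IsPOmegaPlus G ∨ Cfsg.IsPOmegaMinus G) :
    IsSimpleGroup G := by
  rcases h with h | h | h | h | h | h
  · obtain ⟨F, _, _, n, hn, h2, ⟨e⟩⟩ := h
    rcases Nat.lt_or_ge n 3 with h3 | h3
    · obtain rfl : n = 2 := by omega
      exact (MulEquiv.isSimpleGroup_congr e).2 (Matrix.ProjectiveSpecialLinearGroup.rank_two_simple (by
        rw [Nat.card_eq_fintype_card]; exact h2 rfl))
    · exact (MulEquiv.isSimpleGroup_congr e).2 (S0249.result n h3)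
  · obtain ⟨F, _, _, m, hm, h2, ⟨e⟩⟩ := h
    exact (MulEquiv.isSimpleGroup_congr e).2 (S0270.result m hm h2)
  · obtain ⟨F, _, _, n, q, hq, hn, h2, ⟨e⟩⟩ := h
    exact (MulEquiv.isSimpleGroup_congr e).2 (S0283.result hq n hn h2)
  · obtain ⟨F, _, _, m, hm, h2, ⟨e⟩⟩ := h
    exact (MulEquiv.isSimpleGroup_congr e).2 (S0295.result h2 m hm)
  · obtain ⟨F, _, _, m, hm, ⟨e⟩⟩ := h
    exact (MulEquiv.isSimpleGroup_congr e).2 (S0296.result m hm)
  · obtain ⟨F, _, _, m, a, b, hm, hab, ⟨e⟩⟩ := h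
    exact (MulEquiv.isSimpleGroup_congr e).2 (S0297.result m hm a b hab)

/-- transport of the hypothesis of S5715 -/
theorem classical_congr {G : Type u} {H : Type v} [Group G] [Group H] (e : H ≃* G)
    (h : Cfsg.IsPSL G ∨ Cfsg.IsPSp G ∨ Cfsg.IsPSU G ∨ Cfsg.IsPOmegaOdd G ∨ Cfsg.IsPOmegaPlus G ∨ Cfsg.IsPOmegaMinus G) :
    Cfsg.IsPSL H ∨ Cfsg.IsPSp H ∨ Cfsg.IsPSU H ∨ Cfsg.IsPOmegaOdd H ∨ Cfsg.IsPOmegaPlus H ∨ Cfsg.IsPOmegaMinus H := by
  rcases h with h | h | h | h | h | h
  · obtain ⟨F, i1, i2, n, hn, h2, ⟨f⟩⟩ := h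
    exact Or.inl ⟨F, i1, i2, n, hn, h2, ⟨e.trans f⟩⟩
  · obtain ⟨F, i1, i2, n, hn, h2, ⟨f⟩⟩ := h
    exact Or.inr (Or.inl ⟨F, i1, i2, n, hn, h2, ⟨e.trans f⟩⟩)
  · obtain ⟨F, i1, i2, n, q, hq, hn, h2, ⟨f⟩⟩ := h
    exact Or.inr (Or.inr (Or.inl ⟨F, i1, i2, n, q, hq, hn, h2, ⟨e.trans f⟩⟩))
  · obtain ⟨F, i1, i2, n, hn, h2, ⟨f⟩⟩ := h
    exact Or.inr (Or.inr (Or.inr (Or.inl ⟨F, i1, i2, n, hn, h2, ⟨e.trans f⟩⟩)))
  · obtain ⟨F, i1, i2, n, hn, ⟨f⟩⟩ := h
    exact Or.inr (Or.inr (Or.inr (Or.inr (Or.inl ⟨F, i1, i2, n, hn, ⟨e.trans f⟩⟩))))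
  · obtain ⟨F, i1, i2, n, a, b, hn, hab, ⟨f⟩⟩ := h
    exact Or.inr (Or.inr (Or.inr (Or.inr (Or.inr ⟨F, i1, i2, n, a, b, hn, hab, ⟨e.trans f⟩⟩))))

/-- **S5715 from the rows.** -/
theorem s5715 (hB : BC IsCl) (hU : UC IsCl) (ε : ℝ) (hε : 0 < ε) :
    ∃ N : ℕ, ∀ (G : Type u) [Group G] [Finite G],
      (Cfsg.IsPSL G ∨ Cfsg.IsPSp G ∨ Cfsg.IsPSU G ∨ Cfsg.IsPOmegaOdd G ∨ Cfsg.IsPOmegaPlus G ∨ Cfsg.IsPOmegaMinus G) →
      N ≤ Nat.card G →
      (1 - ε) * (Nat.card G : ℝ) ^ 2 ≤ Nat.card {xy : G × G // Subgroup.closure {xy.1, xy.2 * xy.1 * xy.2⁻¹} = ⊤} := by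
  obtain ⟨N, h0⟩ := hU ε hε
  obtain ⟨Q, h1⟩ := hB N ε hε
  obtain ⟨D, hD⟩ := exists_bound N Q
  refine ⟨D, fun G _ _ h hG => ?_⟩
  let e : G ≃* Shrink.{0} G := Shrink.mulEquiv.symm
  have h' := classical_congr e.symm h
  have hs : IsSimpleGroup (Shrink.{0} G) := simple_of_classical h'
  obtain ⟨g, hg, hn⟩ := named_of_classical h'
  have hc : Nat.card G = Nat.card (Shrink.{0} G) := Nat.card_congr e.toEquiv
  have key : (missC G : ℝ) ≤ ε * (Nat.card G : ℝ) ^ 2 := by
    rw [missC_congr e, hc]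
    rcases le_total (rk g) N with hr | hr
    · refine h1 g _ hn hg hr ?_
      by_contra hcon
      have h3 := hD g hg hr (not_le.1 hcon)
      rw [← hn.ord, ← hc] at h3
      omega
    · exact h0 g _ hn hg hr
  rw [card_not]
  have h5 : (Nat.card (G × G) : ℝ) = (Nat.card G : ℝ) ^ 2 := by
    rw [Nat.card_prod]
    push_cast
    ring
  rw [h5]
  change _ ≤ (Nat.card G : ℝ) ^ 2 - (missC G : ℝ)
  linarith

end Cfsg.Agent.H262.Rx
end

-- part: H961/RG/L03
section
prune_inst 0x346005417c0000080000a586832024657e00019000630000e92508460d89272289c0af60be9030155aeaa28508380008111000b0024000000e0004000118008010c8120431500c00000096000104000000000000000000000000000000030004000000000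
set_option linter.all false
open scoped Cfsg.Agent.FastGrp

-- part: H961/RG/Num
section
/-!
# The primitive part of `q ^ e - 1` (helper961)

`q ^ φ(e) ≤ 4 Φ_e(q)`, and the primitive part of `q ^ e - 1` is at least `Φ_e(q) / e`.
-/

set_option autoImplicit false

namespace Cfsg.Agent.H961.RG

open Polynomial Cfsg.Agent.H365.Zsig ArithmeticFunction

/-! ### `∏ (1 - 2 ^ (-d)) ≥ 1 / 4` -/

theorem prod_half (n : ℕ) (hn : 1 ≤ n) :
    (1 / 4 : ℝ) + (1 / 2) ^ (n + 1) ≤ ∏ d ∈ Finset.Icc 1 n, (1 - (1 / 2 : ℝ) ^ d) := by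
  induction n, hn using Nat.le_induction with
  | base => norm_num
  | succ n hn ih =>
    rw [Finset.prod_Icc_succ_top (by omega)]
    have h1 : (1 / 2 : ℝ) ^ (n + 1) ≤ 1 / 4 := by
      have : (1 / 2 : ℝ) ^ (n + 1) ≤ (1 / 2) ^ 2 := pow_le_pow_of_le_one (by norm_num) (by norm_num) (by omega)
      norm_num at this ⊢
      linarith only [this]
    have h0 : (0 : ℝ) < (1 / 2) ^ (n + 1) := by positivity
    have h2 : (1 / 2 : ℝ) ^ (n + 1 + 1) = (1 / 2) ^ (n + 1) / 2 := by rw [pow_succ]; ring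
    rw [h2]
    generalize (1 / 2 : ℝ) ^ (n + 1) = t at *
    have h3 : (1 / 4 + t) * (1 - t) ≤ (∏ d ∈ Finset.Icc 1 n, (1 - (1 / 2 : ℝ) ^ d)) * (1 - t) :=
      mul_le_mul_of_nonneg_right ih (by linarith only [h1])
    nlinarith only [h1, h0, h3]

theorem Ph_ge_pow {e q : ℕ} (he : 1 ≤ e) (hq : 2 ≤ q) : q ^ e.totient ≤ 4 * Ph e q := by
  have hq0 : (0 : ℝ) < q := by exact_mod_cast (by omega : 0 < q)
  have hq1 : (1 : ℝ) < q := by exact_mod_cast (by omega : 1 < q)
  set f : ℕ → ℝ := fun n => (cyclotomic n ℝ).eval (q : ℝ) / (q : ℝ) ^ n.totient with hf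
  set g : ℕ → ℝ := fun n => 1 - (1 / (q : ℝ)) ^ n with hg
  have hf0 : ∀ n, 0 < n → f n ≠ 0 := by
    intro n hn
    have h1 : 0 < (cyclotomic n ℝ).eval (q : ℝ) := cyclotomic_pos' n hq1
    exact (div_pos h1 (by positivity)).ne'
  have hg1 : ∀ n, 0 < n → 0 < g n := by
    intro n hn
    have : (1 / (q : ℝ)) ^ n < 1 := by
      apply pow_lt_one₀ (by positivity) _ hn.ne'
      rw [div_lt_one hq0]
      exact hq1
    simp only [hg]
    linarith only [this]
  have hg2 : ∀ n, g n ≤ 1 := by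
    intro n
    have : 0 ≤ (1 / (q : ℝ)) ^ n := by positivity
    simp only [hg]
    linarith only [this]
  have h := (ArithmeticFunction.prod_eq_iff_prod_pow_moebius_eq_of_nonzero hf0 (fun n hn => (hg1 n hn).ne')).1
    (by
      intro n hn
      simp only [hf, hg]
      rw [Finset.prod_div_distrib, Finset.prod_pow_eq_pow_sum, Nat.sum_totient, ← eval_prod,
        prod_cyclotomic_eq_X_pow_sub_one hn]
      simp only [eval_sub, eval_pow, eval_X, eval_one]
      rw [sub_div, div_self (by positivity), one_div, one_div, inv_pow]) e (by omega)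
  have h1 : ∏ d ∈ e.divisors, g d ≤ f e := by
    rw [← h, Nat.prod_divisorsAntidiagonal' (f := fun a b => g b ^ ArithmeticFunction.moebius a)]
    refine Finset.prod_le_prod (fun d hd => (hg1 d (Nat.pos_of_mem_divisors hd)).le) fun d hd => ?_
    have h0 := hg1 d (Nat.pos_of_mem_divisors hd)
    have h2 := hg2 d
    rcases ArithmeticFunction.moebius_eq_or (e / d) with h' | h' | h'
    · rw [h', zpow_zero]; exact h2
    · rw [h', zpow_one]
    · rw [h', zpow_neg_one]
      exact h2.trans (one_le_inv₀ h0 |>.2 h2)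
  have h2 : ∏ d ∈ Finset.Icc 1 e, (1 - (1 / 2 : ℝ) ^ d) ≤ ∏ d ∈ e.divisors, g d := by
    have hsub : e.divisors ⊆ Finset.Icc 1 e := by
      intro d hd
      rw [Finset.mem_Icc]
      exact ⟨Nat.pos_of_mem_divisors hd, Nat.divisor_le hd⟩
    have hhalf : ∀ d : ℕ, 1 ≤ d → 0 ≤ 1 - (1 / 2 : ℝ) ^ d := by
      intro d _
      have : (1 / 2 : ℝ) ^ d ≤ 1 := pow_le_one₀ (by norm_num) (by norm_num)
      linarith only [this]
    calc ∏ d ∈ Finset.Icc 1 e, (1 - (1 / 2 : ℝ) ^ d)
        ≤ ∏ d ∈ e.divisors, (1 - (1 / 2 : ℝ) ^ d) := by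
          refine Finset.prod_le_prod_of_subset_of_le_one hsub ?_ ?_
          · intro d hd
            exact hhalf d (Finset.mem_Icc.1 hd).1
          · intro d _ _
            have : 0 ≤ (1 / 2 : ℝ) ^ d := by positivity
            linarith only [this]
      _ ≤ ∏ d ∈ e.divisors, g d := by
        refine Finset.prod_le_prod (fun d hd => hhalf d (Nat.pos_of_mem_divisors hd)) fun d _ => ?_
        have : (1 / (q : ℝ)) ^ d ≤ (1 / 2) ^ d := by
          apply pow_le_pow_left₀ (by positivity)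
          apply one_div_le_one_div_of_le (by norm_num)
          exact_mod_cast hq
        simp only [hg]
        linarith only [this]
  have h3 := prod_half e he
  have h4 : (0 : ℝ) < (1 / 2) ^ (e + 1) := by positivity
  have h5 : (1 / 4 : ℝ) ≤ f e := by linarith only [h1, h2, h3, h4]
  simp only [hf] at h5
  rw [le_div_iff₀ (by positivity), Ph_real (by omega)] at h5
  have h6 : ((q ^ e.totient : ℕ) : ℝ) ≤ ((4 * Ph e q : ℕ) : ℝ) := by
    push_cast
    linarith only [h5]
  exact_mod_cast h6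

/-- the primitive part of `q ^ e - 1` -/
theorem exists_prim {e q : ℕ} (he : 3 ≤ e) (hq : 2 ≤ q) : ∃ N N' : ℕ, N * N' = q ^ e - 1 ∧
    (∀ r : ℕ, r.Prime → r ∣ N → orderOf (q : ZMod r) = e) ∧ q ^ e.totient ≤ 4 * e * N := by
  obtain ⟨c, hc⟩ := Ph_dvd (n := e) (q := q) (by omega) (by omega)
  have hP1 := Ph_gt_one (n := e) (q := q) (by omega) hq
  set g := Nat.gcd (Ph e q) e with hg
  have hg0 : 0 < g := Nat.gcd_pos_of_pos_right _ (by omega)
  obtain ⟨N, hN⟩ : g ∣ Ph e q := Nat.gcd_dvd_left _ _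
  have hge : g ∣ e := Nat.gcd_dvd_right _ _
  refine ⟨N, g * c, ?_, ?_, ?_⟩
  · rw [hc, hN]; ring
  · intro r hr hrN
    have hrP : r ∣ Ph e q := hN ▸ Dvd.dvd.mul_left hrN _
    rcases prime_dvd_Ph (by omega) hq hr hrP with h | ⟨k, m, h1, h2, h3, h4, h5⟩
    · exact h
    · exfalso
      apply sq_not_dvd he hq hr h1 h2 h3 h4 h5
      have hre : r ∣ e := by rw [h1]; exact Dvd.dvd.mul_right (dvd_pow_self r (Nat.succ_ne_zero k)) m
      have hrg : r ∣ g := Nat.dvd_gcd hrP hre
      rw [hN, sq]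
      exact Nat.mul_dvd_mul hrg hrN
  · calc q ^ e.totient ≤ 4 * Ph e q := Ph_ge_pow (by omega) hq
      _ = 4 * g * N := by rw [hN]; ring
      _ ≤ 4 * e * N := Nat.mul_le_mul_right _ (Nat.mul_le_mul_left _ (Nat.le_of_dvd (by omega) hge))

end Cfsg.Agent.H961.RG
end

-- part: H961/RG/L03
section
/-!
# S5714, RG-L03: most irreducible matrices of degree `e` have order with a large primitive part (helper961)
-/

set_option autoImplicit false

namespace Cfsg.Agent.H961.RG

open Module Cfsg.Agent.H50.RG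

/-- in a cyclic group at most `N' M ^ 2` elements have `u ^ N'` of order less than `M` -/
theorem card_small (C : Type*) [CommGroup C] [Finite C] [IsCyclic C] (N' M : ℕ) (hN' : 0 < N') :
    Nat.card {u : C // orderOf (u ^ N') < M} ≤ N' * M ^ 2 := by
  classical
  have := Fintype.ofFinite C
  rw [Nat.card_eq_fintype_card, Fintype.card_subtype]
  have hsub : (Finset.univ.filter fun u : C => orderOf (u ^ N') < M) ⊆
      (Finset.Ico 1 M).biUnion fun m => Finset.univ.filter fun u : C => u ^ (N' * m) = 1 := by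
    intro u hu
    rw [Finset.mem_filter] at hu
    rw [Finset.mem_biUnion]
    refine ⟨orderOf (u ^ N'), Finset.mem_Ico.2 ⟨orderOf_pos _, hu.2⟩, ?_⟩
    rw [Finset.mem_filter]
    exact ⟨Finset.mem_univ _, by rw [pow_mul, pow_orderOf_eq_one]⟩
  refine (Finset.card_le_card hsub).trans (Finset.card_biUnion_le.trans ?_)
  calc ∑ m ∈ Finset.Ico 1 M, (Finset.univ.filter fun u : C => u ^ (N' * m) = 1).card
      ≤ ∑ m ∈ Finset.Ico 1 M, N' * M := by
        refine Finset.sum_le_sum fun m hm => ?_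
        rw [Finset.mem_Ico] at hm
        refine (IsCyclic.card_pow_eq_one_le (Nat.mul_pos hN' (by omega))).trans ?_
        exact Nat.mul_le_mul_left _ hm.2.le
    _ = (M - 1) * (N' * M) := by simp
    _ ≤ M * (N' * M) := Nat.mul_le_mul_right _ (Nat.sub_le _ _)
    _ = N' * M ^ 2 := by ring

/-- a unit of `K` whose order has a primitive prime divisor generates `K` -/
theorem adjoin_top (F K : Type) [Field F] [Finite F] [Field K] [Finite K] [Algebra F K] (e : ℕ)
    (hd : finrank F K = e) (u : Kˣ) (r : ℕ) (hru : r ∣ orderOf u)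
    (ho : orderOf ((Nat.card F : ℕ) : ZMod r) = e) : Algebra.adjoin F {(u : K)} = ⊤ := by
  have hq : 2 ≤ Nat.card F := Finite.one_lt_card
  set A := Algebra.adjoin F {(u : K)} with hA
  have huA : (u : K) ∈ A := Algebra.subset_adjoin rfl
  have : IsField A := Finite.isField_of_domain A
  let iA : Field A := this.toField
  have hcard : Nat.card A = Nat.card F ^ finrank F A := Module.natCard_eq_pow_finrank
  have hu : (⟨(u : K), huA⟩ : A) ≠ 0 := by
    intro h
    exact u.ne_zero (congrArg Subtype.val h)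
  have hpow : (⟨(u : K), huA⟩ : A) ^ (Nat.card A - 1) = 1 := by
    have := Fintype.ofFinite A
    rw [Nat.card_eq_fintype_card]
    exact FiniteField.pow_card_sub_one_eq_one _ hu
  have hpow' : u ^ (Nat.card A - 1) = 1 := by
    apply Units.ext
    have := congrArg (fun x : A => (x : K)) hpow
    simpa only [_root_.Units.val_pow_eq_pow_val, _root_.Units.val_one, _root_.SubmonoidClass.mk_pow, _root_.OneMemClass.coe_one] using this
  have hr1 : r ∣ Nat.card F ^ finrank F A - 1 := by
    rw [← hcard]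
    exact hru.trans (orderOf_dvd_of_pow_eq_one hpow')
  rw [Cfsg.Agent.Lib.Zsigmondy.dvd_pow_sub_one_iff (by omega), ho] at hr1
  have hpos : 0 < finrank F A := Module.finrank_pos
  have hle := Nat.le_of_dvd hpos hr1
  apply Subalgebra.toSubmodule_injective
  rw [Algebra.top_toSubmodule]
  apply Submodule.eq_top_of_finrank_eq
  have h1 : finrank F (Subalgebra.toSubmodule A) ≤ finrank F K := Submodule.finrank_le _
  have h2 : finrank F (Subalgebra.toSubmodule A) = finrank F A := rfl
  omega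

/-- most units of the field with `q ^ e` elements have order with a large primitive part, and generate the field -/
theorem card_units (F K : Type) [Field F] [Finite F] [Field K] [Finite K] [Algebra F K] (e M : ℕ) (he : 3 ≤ e)
    (hM : 2 ≤ M) (hd : finrank F K = e) (h : 16 * e * M ^ 2 ≤ Nat.card F ^ e.totient) :
    Nat.card F ^ e - 1 ≤ 2 * Nat.card {u : Kˣ // Algebra.adjoin F {(u : K)} = ⊤ ∧
      ∃ m : ℕ, M ≤ m ∧ (∀ r : ℕ, r.Prime → r ∣ m → orderOf ((Nat.card F : ℕ) : ZMod r) = e) ∧ m ∣ orderOf u} := by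
  classical
  have hq : 2 ≤ Nat.card F := Finite.one_lt_card
  obtain ⟨N, N', hNN, hNr, hN⟩ := exists_prim he hq
  have hNM : 4 * M ^ 2 ≤ N := by
    have h1 : (4 * e) * (4 * M ^ 2) ≤ (4 * e) * N := by
      calc (4 * e) * (4 * M ^ 2) = 16 * e * M ^ 2 := by ring
        _ ≤ _ := h
        _ ≤ _ := hN
    exact Nat.le_of_mul_le_mul_left h1 (by omega)
  have hqe : 1 < Nat.card F ^ e := Nat.one_lt_pow (by omega) (by omega)
  have hN'0 : 0 < N' := by
    rcases Nat.eq_zero_or_pos N' with h0 | h0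
    · rw [h0] at hNN; omega
    · exact h0
  have hcK : Nat.card Kˣ = Nat.card F ^ e - 1 := by
    have := Fintype.ofFinite K
    rw [Nat.card_units, ← hd, ← Module.natCard_eq_pow_finrank]
  have hsmall := card_small Kˣ N' M hN'0
  have hsplit : Nat.card Kˣ = Nat.card {u : Kˣ // orderOf (u ^ N') < M} +
      Nat.card {u : Kˣ // ¬ orderOf (u ^ N') < M} := by
    rw [← Nat.card_sum]
    exact Nat.card_congr (Equiv.sumCompl _).symm
  have hinj : Nat.card {u : Kˣ // ¬ orderOf (u ^ N') < M} ≤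
      Nat.card {u : Kˣ // Algebra.adjoin F {(u : K)} = ⊤ ∧
      ∃ m : ℕ, M ≤ m ∧ (∀ r : ℕ, r.Prime → r ∣ m → orderOf ((Nat.card F : ℕ) : ZMod r) = e) ∧ m ∣ orderOf u} := by
    refine Nat.card_le_card_of_injective (fun u => ⟨u.1, ?_⟩) ?_
    · obtain ⟨u, hu⟩ := u
      rw [not_lt] at hu
      have hm : orderOf (u ^ N') ∣ orderOf u := orderOf_pow_dvd N'
      have hmN : orderOf (u ^ N') ∣ N := by
        apply orderOf_dvd_of_pow_eq_one
        rw [← pow_mul, mul_comm, hNN, ← hcK]
        exact pow_card_eq_one'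
      refine ⟨?_, orderOf (u ^ N'), hu, fun r hr hrm => hNr r hr (hrm.trans hmN), hm⟩
      obtain ⟨r, hr, hrm⟩ := Nat.exists_prime_and_dvd (n := orderOf (u ^ N')) (by omega)
      exact adjoin_top F K e hd u r (hrm.trans hm) (hNr r hr (hrm.trans hmN))
    · intro u v huv
      simpa [Subtype.ext_iff] using huv
  have h4 : 4 * (N' * M ^ 2) ≤ Nat.card F ^ e - 1 := by
    rw [← hNN]
    calc 4 * (N' * M ^ 2) = (4 * M ^ 2) * N' := by ring
      _ ≤ N * N' := Nat.mul_le_mul_right _ hNM
  omega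

/-- **RG-L03** (for `e ≥ 3`; it fails for `e = 2` and `q` a Mersenne prime) -/
theorem l03 (h25 : L25) : ∀ (F : Type) [Field F] [Finite F] (e M : ℕ), 3 ≤ e → 2 ≤ M →
    16 * e * M ^ 2 ≤ Nat.card F ^ e.totient →
    Nat.card (GL (Fin e) F) ≤ 2 * e * Nat.card {g : GL (Fin e) F // IrrM F g ∧ BigM F e M g} := by
  intro F _ _ e M he hM h
  obtain ⟨p, hp⟩ := CharP.exists F
  have hpp : Fact p.Prime := ⟨(CharP.char_is_prime_or_zero F p).resolve_right (by
    rintro rfl
    have := CharP.charP_to_charZero F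
    exact (inferInstance : Infinite F).not_finite ‹Finite F›)⟩
  have : NeZero e := ⟨by omega⟩
  let K := FiniteField.Extension F p e
  have hd : finrank F K = e := FiniteField.finrank_extension F p e
  have h1 := card_units F K e M he hM hd h
  have h2 := h25 F K e (by omega) hd
    (fun k => ∃ m : ℕ, M ≤ m ∧ (∀ r : ℕ, r.Prime → r ∣ m → orderOf ((Nat.card F : ℕ) : ZMod r) = e) ∧ m ∣ k)
  have hq : 2 ≤ Nat.card F := Finite.one_lt_card
  have hqe : 1 < Nat.card F ^ e := Nat.one_lt_pow (by omega) (by omega)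
  refine Nat.le_of_mul_le_mul_right (c := Nat.card F ^ e - 1) ?_ (by omega)
  calc Nat.card (GL (Fin e) F) * (Nat.card F ^ e - 1) ≤ Nat.card (GL (Fin e) F) * _ := Nat.mul_le_mul_left _ h1
    _ = 2 * (e * Nat.card {g : GL (Fin e) F // IrrM F g ∧ BigM F e M g} * (Nat.card F ^ e - 1)) := by
      rw [mul_left_comm, ← h2]
      rfl
    _ = _ := by ring

theorem L03_of_L25 (h25 : L25) : L03 := l03 h25

end Cfsg.Agent.H961.RG
end
end

-- part: H178/BR/TrF
section
set_option linter.all false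
open scoped Cfsg.Agent.FastGrp

/-!
# Traces and semilinear maps (helper178)

* `trace_semi`, `det_semi` : `φ : W → W` additive, injective, `τ`-semilinear, `φ ∘ f = g ∘ φ` : `τ (tr f) = tr g`,
  `τ (det f) = det g`;
* `mem_of_frob` : the elements with `c ^ q = c` lie in the subfield with `q` elements;
* `trace_mem`, `trace_mem_sub` : traces in the subfield with `q` elements.
-/

set_option autoImplicit false

namespace Cfsg.Agent.H178.BR

section semi

variable {K W : Type*} [Field K] [AddCommGroup W] [Module K W] [FiniteDimensional K W]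

/-- the image of a basis under an injective semilinear map -/
theorem exists_basis_semi (τ : K ≃+* K) (φ : W →+ W) (hφ : ∀ (c : K) (w : W), φ (c • w) = τ c • φ w)
    (hi : Function.Injective φ) :
    ∃ b b' : Module.Basis (Fin (Module.finrank K W)) K W, ∀ i, b' i = φ (b i) := by
  classical
  let b := Module.finBasis K W
  have hli : LinearIndependent K fun i => φ (b i) := by
    rw [Fintype.linearIndependent_iff]
    intro c hc i
    have h1 : φ (∑ i, τ.symm (c i) • b i) = 0 := by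
      rw [map_sum, ← hc]
      refine Finset.sum_congr rfl fun i _ => ?_
      rw [hφ, RingEquiv.apply_symm_apply]
    have h2 : ∑ i, τ.symm (c i) • b i = 0 := hi (h1.trans (map_zero φ).symm)
    have h3 := (Fintype.linearIndependent_iff.1 b.linearIndependent) _ h2 i
    have h4 : τ (τ.symm (c i)) = τ 0 := congrArg τ h3
    rwa [RingEquiv.apply_symm_apply, map_zero] at h4
  exact ⟨b, Module.Basis.mk hli (hli.span_eq_top_of_card_eq_finrank' (Fintype.card_fin _)).ge, fun i => by
    rw [Module.Basis.mk_apply]⟩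

omit [FiniteDimensional K W] in
theorem toMatrix_semi {ι : Type*} [Fintype ι] [DecidableEq ι] (τ : K ≃+* K) (φ : W →+ W)
    (hφ : ∀ (c : K) (w : W), φ (c • w) = τ c • φ w) (b b' : Module.Basis ι K W) (hb : ∀ i, b' i = φ (b i))
    {f g : Module.End K W} (h : ∀ w, φ (f w) = g (φ w)) :
    LinearMap.toMatrix b' b' g = (LinearMap.toMatrix b b f).map τ := by
  ext i j
  rw [Matrix.map_apply, LinearMap.toMatrix_apply, LinearMap.toMatrix_apply, hb, ← h]
  have h1 : f (b j) = ∑ k, b.repr (f (b j)) k • b k := (b.sum_repr _).symm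
  have h2 : φ (f (b j)) = ∑ k, τ (b.repr (f (b j)) k) • b' k := by
    conv_lhs => rw [h1]
    rw [map_sum]
    refine Finset.sum_congr rfl fun k _ => ?_
    rw [hφ, hb]
  rw [h2, Module.Basis.repr_sum_self]

/-- **traces and semilinear maps** -/
theorem trace_semi (τ : K ≃+* K) (φ : W →+ W) (hφ : ∀ (c : K) (w : W), φ (c • w) = τ c • φ w)
    (hi : Function.Injective φ) {f g : Module.End K W} (h : ∀ w, φ (f w) = g (φ w)) :
    τ (LinearMap.trace K W f) = LinearMap.trace K W g := by
  classical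
  obtain ⟨b, b', hb⟩ := exists_basis_semi τ φ hφ hi
  rw [LinearMap.trace_eq_matrix_trace K b f, LinearMap.trace_eq_matrix_trace K b' g,
    toMatrix_semi τ φ hφ b b' hb h, Matrix.trace, Matrix.trace, map_sum]
  rfl

end semi

section frob

variable {K : Type*} [Field K]

/-- the subfield with `q` elements consists of the solutions of `c ^ q = c` -/
theorem mem_of_frob {F : Subfield K} [Finite F] {c : K} (hc : c ^ Nat.card F = c) : c ∈ F := by
  classical
  have := Fintype.ofFinite F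
  have hq : 1 < Nat.card F := by
    rw [Nat.card_eq_fintype_card]
    exact Fintype.one_lt_card
  by_contra h
  let P : Polynomial K := Polynomial.X ^ Nat.card F - Polynomial.X
  have hP : P ≠ 0 := FiniteField.X_pow_card_sub_X_ne_zero K hq
  have hdeg : P.natDegree = Nat.card F := FiniteField.X_pow_card_sub_X_natDegree_eq K hq
  let s : Finset K := insert c (Finset.univ.image ((↑) : F → K))
  have hs : ∀ a ∈ s, P.IsRoot a := by
    intro a ha
    rw [Finset.mem_insert] at ha
    rw [Polynomial.IsRoot.def, Polynomial.eval_sub, Polynomial.eval_pow, Polynomial.eval_X, sub_eq_zero]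
    rcases ha with rfl | ha
    · exact hc
    · obtain ⟨b, _, rfl⟩ := Finset.mem_image.1 ha
      have := FiniteField.pow_card b
      rw [Nat.card_eq_fintype_card]
      exact_mod_cast this
  have hcard : s.card = Nat.card F + 1 := by
    rw [Finset.card_insert_of_notMem, Finset.card_image_of_injective _ Subtype.val_injective, Finset.card_univ,
      Nat.card_eq_fintype_card]
    intro hcm
    obtain ⟨b, _, hb⟩ := Finset.mem_image.1 hcm
    exact h (hb ▸ b.2)
  have h2 : s ⊆ P.roots.toFinset := fun a ha => by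
    rw [Multiset.mem_toFinset, Polynomial.mem_roots hP]
    exact hs a ha
  have h3 : s.card ≤ P.natDegree := (Finset.card_le_card h2).trans
    ((Multiset.toFinset_card_le _).trans (Polynomial.card_roots' P))
  omega

theorem frob_of_mem {F : Subfield K} [Finite F] {c : K} (hc : c ∈ F) : c ^ Nat.card F = c := by
  have := Fintype.ofFinite F
  have h := congrArg Subtype.val (FiniteField.pow_card (⟨c, hc⟩ : F))
  rw [Nat.card_eq_fintype_card]
  rwa [SubmonoidClass.coe_pow] at h

/-- the trace lies in the subfield with `q` elements -/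
theorem trace_mem {W : Type*} [AddCommGroup W] [Module K W] [FiniteDimensional K W] {F : Subfield K} [Finite F]
    (τ : K ≃+* K) (hτ : ∀ c, τ c = c ^ Nat.card F) (φ : W →+ W) (hφ : ∀ (c : K) (w : W), φ (c • w) = τ c • φ w)
    (hi : Function.Injective φ) {f : Module.End K W} (h : ∀ w, φ (f w) = f (φ w)) :
    LinearMap.trace K W f ∈ F :=
  mem_of_frob (by rw [← hτ]; exact trace_semi τ φ hφ hi h)

/-- the trace on a quotient `W` of a subspace `S` of `E` with a semilinear structure -/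
theorem trace_mem_sub {E W : Type*} [AddCommGroup E] [Module K E] [AddCommGroup W] [Module K W]
    [FiniteDimensional K W] {F : Subfield K} [Finite F] (τ : K ≃+* K) (hτ : ∀ c, τ c = c ^ Nat.card F) (S : Submodule K E)
    (Φ : E →+ E) (hΦ : ∀ (c : K) (X : E), Φ (c • X) = τ c • Φ X) (hS : ∀ X ∈ S, Φ X ∈ S)
    (π : S →ₗ[K] W) (hπ : Function.Surjective π) (hk : ∀ (X : S), π ⟨Φ X, hS X X.2⟩ = 0 ↔ π X = 0)
    {A : Module.End K E} (hA : ∀ X ∈ S, A X ∈ S) (hAΦ : ∀ X ∈ S, Φ (A X) = A (Φ X))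
    {f : Module.End K W} (hf : ∀ X : S, f (π X) = π ⟨A X, hA X X.2⟩) : LinearMap.trace K W f ∈ F := by
  classical
  have key : ∀ X Y : S, π X = π Y → π ⟨Φ X, hS X X.2⟩ = π ⟨Φ Y, hS Y Y.2⟩ := by
    intro X Y h
    have h1 : π (X - Y) = 0 := by rw [map_sub, h, sub_self]
    have h2 := (hk (X - Y)).2 h1
    rw [← sub_eq_zero, ← map_sub, ← h2]
    congr 1
    ext
    simp [map_sub]
  choose s hs using hπ
  let φ : W →+ W :=
    { toFun := fun w => π ⟨Φ (s w), hS _ (s w).2⟩
      map_zero' := by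
        have h0 : π (s 0) = π 0 := by rw [hs, map_zero]
        rw [key _ _ h0, ← map_zero π]
        congr 1
        ext
        simp
      map_add' := fun w w' => by
        have h0 : π (s (w + w')) = π (s w + s w') := by rw [hs, map_add, hs, hs]
        rw [key _ _ h0, ← map_add]
        congr 1
        ext
        simp }
  have hφπ : ∀ X : S, φ (π X) = π ⟨Φ X, hS _ X.2⟩ := fun X => key _ _ (hs _)
  refine trace_mem τ hτ φ (fun c w => ?_) (fun w w' h => ?_) fun w => ?_
  · obtain ⟨X, rfl⟩ : ∃ X, π X = w := ⟨s w, hs w⟩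
    rw [← map_smul, hφπ, hφπ, ← map_smul]
    congr 1
    ext
    simp [hΦ]
  · obtain ⟨X, rfl⟩ : ∃ X, π X = w := ⟨s w, hs w⟩
    obtain ⟨Y, rfl⟩ : ∃ X, π X = w' := ⟨s w', hs w'⟩
    rw [hφπ, hφπ] at h
    have h1 : π ⟨Φ ↑(X - Y), hS _ (X - Y).2⟩ = 0 := by
      rw [← sub_eq_zero, ← map_sub] at h
      rw [← h]
      congr 1
      ext
      simp [map_sub]
    have h2 := (hk (X - Y)).1 h1
    rw [map_sub, sub_eq_zero] at h2
    exact h2
  · obtain ⟨X, rfl⟩ : ∃ X, π X = w := ⟨s w, hs w⟩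
    rw [hf, hφπ, hφπ, hf]
    congr 1
    ext
    exact hAΦ X X.2

end frob

end Cfsg.Agent.H178.BR
end

-- part: H94/RG/UStmts
section
set_option linter.all false

/-!
# S5715 in unbounded rank: statements of the pieces on top of layer L (helper50) of S5714

For most `x` there is a subgroup `Z ≤ ⟨x⟩` of order `m ≥ M e`, irreducible on a `TS`-subspace `A` of dimension `e ∈ I` and
trivial on a complement; up to conjugation `Z` is determined by `m`.  The number of pairs `(x, g)` such that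
`⟨x, g x g⁻¹⟩` misses a dense normal set is bounded by `∑ 1 / m` over the possible `m`.
-/

set_option autoImplicit false

namespace Cfsg.Agent.H94.RG.U

open Module Cfsg.Agent.H847.Bs Cfsg.Agent.LieClassical.OrthCore Cfsg.Agent.H50.RG
open Cfsg.Agent.H440.Bs (perp mem_perp)

/-- the divisors of `q ^ e - 1` all prime divisors `r` of which satisfy `ord_r(q) = e` -/
noncomputable def pd (q e : ℕ) : Finset ℕ :=
  open scoped Classical in
  (q ^ e - 1).divisors.filter fun m => ∀ r : ℕ, r.Prime → r ∣ m → orderOf ((q : ℕ) : ZMod r) = e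

/-- U1, numerics: like `L20`, with `M` depending on `e` and `pd q e` very small compared with `M e` -/
def U1 : Prop := ∀ (K η : ℝ) (C par : ℕ), 0 < η → ∃ N₀ : ℕ, ∀ n q : ℕ, N₀ ≤ n → 2 ≤ q →
  ∃ (I : Finset ℕ) (M : ℕ → ℕ),
    (∀ e ∈ I, 2 ≤ M e ∧ 3 ≤ e ∧ e % 2 = par % 2 ∧ 4 * e + 8 ≤ n ∧ ¬ e ∣ n ∧ ¬ e ∣ (n - 1) / 2 ∧ ¬ e ∣ (n + 1) / 2 ∧
      16 * e * M e ^ 2 ≤ q ^ e.totient ∧ ∑ j ∈ Finset.range n, 1 / (((j + 1) * e : ℕ) : ℝ) ≤ η ∧
      n * ((pd q e).card : ℝ) * ((n : ℝ) ^ 2 * Real.log q) ^ C ≤ M e) ∧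
    K ≤ ∑ e ∈ I, 1 / (2 * e : ℝ)

/-- U2: irreducible elements of the same order are conjugate up to a power -/
def U2 : Prop := ∀ (F X Y : Type) [Field F] [Finite F] [AddCommGroup X] [Module F X] [Module.Finite F X]
  [AddCommGroup Y] [Module F Y] [Module.Finite F Y] (z : X ≃ₗ[F] X) (w : Y ≃ₗ[F] Y),
  finrank F X = finrank F Y → Irr z ⊤ → Irr w ⊤ → orderOf z = orderOf w →
  ∃ (f : X ≃ₗ[F] Y) (k : ℕ), ∀ x, f (z x) = (w ^ k) (f x)

/-- `Z` is a cyclic group of order `m ∈ pd q e`, irreducible on `A` and trivial on `C` -/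
structure ZS {F V : Type} [Field F] [AddCommGroup V] [Module F V] (e : ℕ) (Z : Subgroup (V ≃ₗ[F] V))
    (A C : Submodule F V) : Prop where
  cyc : ∃ z, Z = Subgroup.zpowers z
  ne : Z ≠ ⊥
  pd : Nat.card Z ∈ pd (Nat.card F) e
  dim : finrank F A = e
  inv : ∀ z ∈ Z, Inv z A
  irr : ∀ z ∈ Z, z ≠ 1 → ∀ W ≤ A, Inv z W → W = ⊥ ∨ W = A
  fix : ∀ z ∈ Z, z ≠ 1 → ∀ a ∈ A, z a = a → a = 0
  triv : ∀ z ∈ Z, ∀ c ∈ C, z c = c

/-- U3: stronger form of `L13` (linear case) -/
def U3 : Prop := ∀ (F V : Type) [Field F] [Finite F] [AddCommGroup V] [Module F V] [Module.Finite F V]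
  (e M : ℕ), 2 ≤ e → 2 ≤ M → ¬ e ∣ finrank F V → ∀ (y : V ≃ₗ[F] V) (A : Submodule F V), Gd (Prp F V) e M y A →
  ∃ (Z : Subgroup (V ≃ₗ[F] V)) (C : Submodule F V), Z ≤ Subgroup.zpowers y ∧ M ≤ Nat.card Z ∧ IsCompl A C ∧
    ZS e Z A C ∧ Free Z (HomS A) ∧ Free Z (HomS C)

/-- U4: the same for forms, from `L14` -/
def U4 : Prop := ∀ (F V : Type) [Field F] [Finite F] [AddCommGroup V] [Module F V] [Module.Finite F V]
  (Φ : Frm F V) (e M : ℕ), Cls Φ e → 2 ≤ M → ∀ y ∈ Φ.Iso, ∀ A : Submodule F V, Gd Φ.TI e M y A →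
  ∃ (Z : Subgroup (V ≃ₗ[F] V)) (A' C : Submodule F V), Z ≤ Subgroup.zpowers y ∧ M ≤ Nat.card Z ∧ Opp Φ A A' C ∧
    ZS e Z A C ∧ (∀ z ∈ Z, Inv z A') ∧
    ∀ z ∈ Z, z ≠ 1 → (∀ W ≤ A', Inv z W → W = ⊥ ∨ W = A') ∧ (∀ a ∈ A', z a = a → a = 0) ∧
      ∃ r : ℕ, r.Prime ∧ r ∣ orderOf z ∧ orderOf ((Nat.card F : ℕ) : ZMod r) = e

end Cfsg.Agent.H94.RG.U
end

-- part: H383/RG/Conj
section
set_option linter.all false
open scoped Cfsg.Agent.FastGrp

/-!
# S5715, unbounded rank: irreducible elements of the same order are conjugate up to a power (helper383)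

`rg_U2 : U2`.
-/

set_option autoImplicit false
set_option linter.unusedSectionVars false

namespace Cfsg.Agent.H383.RG

open Module Polynomial
open Cfsg.Agent.H50.RG (IrrM)
open scoped Matrix

/-- an irreducible linear map is a multiplication of the field with `q ^ d` elements -/
theorem exists_model {F K X : Type} [Field F] [Finite F] [Field K] [Finite K] [Algebra F K] [AddCommGroup X]
    [Module F X] [Module.Finite F X] [Nontrivial X] (hK : finrank F K = finrank F X) (z : X ≃ₗ[F] X)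
    (hz : ∀ W : Submodule F X, (∀ v ∈ W, z v ∈ W) → W = ⊥ ∨ W = ⊤) :
    ∃ (e : K ≃ₗ[F] X) (u : K), ∀ a, e (u * a) = z (e a) := by
  have hfd : FiniteDimensional F K := Module.Finite.of_finite
  set d := finrank F X with hd
  have hd0 : 0 < d := finrank_pos
  let b : Basis (Fin d) F X := Module.finBasis F X
  let ze : (X →ₗ[F] X)ˣ := ⟨z, z.symm, by ext v; exact z.apply_symm_apply v, by ext v; exact z.symm_apply_apply v⟩
  let g : GL (Fin d) F := Units.map ((LinearMap.toMatrixAlgEquiv b) : (X →ₗ[F] X) →* Matrix (Fin d) (Fin d) F) ze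
  have hg : ∀ x, (g : Matrix (Fin d) (Fin d) F) *ᵥ (b.equivFun x) = b.equivFun (z x) := by
    intro x
    exact LinearMap.toMatrix_mulVec_repr b b (z : X →ₗ[F] X) x
  have hirr : IrrM F g := by
    refine ⟨hd0, fun Y hY => ?_⟩
    rcases hz (Y.comap (b.equivFun : X →ₗ[F] (Fin d → F))) (by
      intro v hv
      rw [Submodule.mem_comap] at hv ⊢
      have h1 := hY _ hv
      have h2 : (g : Matrix (Fin d) (Fin d) F) *ᵥ (b.equivFun v) ∈ Y := h1
      rw [hg] at h2
      exact h2) with h1 | h1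
    · left
      rw [eq_bot_iff]
      intro y hy
      have h2 : b.equivFun.symm y ∈ Y.comap (b.equivFun : X →ₗ[F] (Fin d → F)) := by
        rw [Submodule.mem_comap]
        show b.equivFun (b.equivFun.symm y) ∈ Y
        rwa [LinearEquiv.apply_symm_apply]
      rw [h1, Submodule.mem_bot] at h2
      rw [Submodule.mem_bot]
      exact (LinearEquiv.map_eq_zero_iff _).1 h2
    · right
      rw [eq_top_iff]
      intro y _
      have h2 : b.equivFun.symm y ∈ Y.comap (b.equivFun : X →ₗ[F] (Fin d → F)) := by rw [h1]; trivial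
      rw [Submodule.mem_comap] at h2
      have h3 : b.equivFun (b.equivFun.symm y) ∈ Y := h2
      rwa [LinearEquiv.apply_symm_apply] at h3
  obtain ⟨u, hu⟩ := exists_root hK hirr
  let pb := PowerBasis.ofAdjoinEqTop (IsIntegral.of_finite F u) (adjoin_of_root hK hirr hu)
  let φ : K →ₐ[F] Matrix (Fin d) (Fin d) F := pb.lift (g : Matrix (Fin d) (Fin d) F) (by
    show aeval _ (minpoly F u) = 0
    rw [minpoly_of_root hirr hu, minpoly.aeval])
  have hφ : φ u = (g : Matrix (Fin d) (Fin d) F) := pb.lift_gen _ _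
  have hne : Nonempty (Fin d) := ⟨⟨0, hd0⟩⟩
  let v : Fin d → F := fun _ => 1
  have hv : v ≠ 0 := by
    intro h0
    have := congrFun h0 (Classical.arbitrary (Fin d))
    simp [v] at this
  let T : K →ₗ[F] (Fin d → F) :=
    { toFun := fun k => φ k *ᵥ v
      map_add' := fun x y => by rw [map_add, Matrix.add_mulVec]
      map_smul' := fun c x => by rw [map_smul, Matrix.smul_mulVec, RingHom.id_apply] }
  have hTinj : Function.Injective T := by
    rw [injective_iff_map_eq_zero]
    intro k hk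
    by_contra hk0
    apply hv
    have h1 : φ k⁻¹ *ᵥ (φ k *ᵥ v) = v := by
      rw [Matrix.mulVec_mulVec, ← map_mul, inv_mul_cancel₀ hk0, map_one, Matrix.one_mulVec]
    have h2 : φ k *ᵥ v = 0 := hk
    rw [← h1, h2, Matrix.mulVec_zero]
  let Te : K ≃ₗ[F] (Fin d → F) := LinearEquiv.ofInjectiveOfFinrankEq T hTinj (by
    rw [hK, Module.finrank_fintype_fun_eq_card, Fintype.card_fin])
  refine ⟨Te.trans b.equivFun.symm, u, fun a => ?_⟩
  apply b.equivFun.injective
  rw [← hg]
  show b.equivFun (b.equivFun.symm (Te (u * a))) = _ *ᵥ (b.equivFun (b.equivFun.symm (Te a)))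
  rw [LinearEquiv.apply_symm_apply, LinearEquiv.apply_symm_apply]
  show φ (u * a) *ᵥ v = _ *ᵥ (φ a *ᵥ v)
  rw [map_mul, hφ, Matrix.mulVec_mulVec]

theorem pow_model {F K X : Type} [Field F] [Field K] [Algebra F K] [AddCommGroup X]
    [Module F X] {z : X ≃ₗ[F] X} {e : K ≃ₗ[F] X} {u : K} (h : ∀ a, e (u * a) = z (e a)) (n : ℕ) (a : K) :
    e (u ^ n * a) = (z ^ n) (e a) := by
  induction n generalizing a with
  | zero => rw [pow_zero, pow_zero, one_mul]; rfl
  | succ n ih =>
    rw [pow_succ, mul_assoc, ih, h, pow_succ]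
    rfl

theorem orderOf_model {F K X : Type} [Field F] [Field K] [Algebra F K] [AddCommGroup X]
    [Module F X] {z : X ≃ₗ[F] X} {e : K ≃ₗ[F] X} {u : K} (h : ∀ a, e (u * a) = z (e a)) : orderOf u = orderOf z := by
  apply Nat.dvd_antisymm
  · apply orderOf_dvd_of_pow_eq_one
    apply mul_right_cancel₀ (one_ne_zero (α := K))
    rw [one_mul]
    apply e.injective
    rw [pow_model h, pow_orderOf_eq_one]
    rfl
  · apply orderOf_dvd_of_pow_eq_one
    apply LinearEquiv.ext
    intro x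
    obtain ⟨a, rfl⟩ := e.surjective x
    rw [← pow_model h, pow_orderOf_eq_one, one_mul]
    rfl

open Cfsg.Agent.H847.Bs in
/-- **U2** : irreducible elements of the same order are conjugate up to a power -/
theorem rg_U2 : Cfsg.Agent.H94.RG.U.U2 := by
  intro F X Y _ _ _ _ _ _ _ _ z w hdim hz hw ho
  rcases Nat.eq_zero_or_pos (finrank F X) with h0 | hpos
  · exact ⟨LinearEquiv.ofFinrankEq X Y hdim, 0, fun x => by
      have hs : Subsingleton Y := finrank_zero_iff.1 (hdim ▸ h0)
      exact Subsingleton.elim _ _⟩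
  have hX : Nontrivial X := Module.nontrivial_of_finrank_pos (R := F) hpos
  have hY : Nontrivial Y := Module.nontrivial_of_finrank_pos (R := F) (hdim ▸ hpos)
  obtain ⟨K, _, _, _, hrk⟩ : ∃ (K : Type) (_ : Field K) (_ : Finite K) (_ : Algebra F K), finrank F K = finrank F X := by
    obtain ⟨p, hp⟩ := CharP.exists F
    have hpr : Fact p.Prime := ⟨CharP.char_is_prime F p⟩
    have hd0 : NeZero (finrank F X) := ⟨by omega⟩
    exact ⟨FiniteField.Extension F p (finrank F X), inferInstance, inferInstance, inferInstance,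
      FiniteField.finrank_extension F p (finrank F X)⟩
  obtain ⟨e, u, he⟩ := exists_model hrk z fun W hW => hz.min W le_top hW
  obtain ⟨e', v, he'⟩ := exists_model (hrk.trans hdim) w fun W hW => hw.min W le_top hW
  have h1 := orderOf_model he
  have h2 := orderOf_model he'
  have hpos' : 0 < orderOf v := by
    rw [h2, ← ho]
    have : Finite (X ≃ₗ[F] X) := by
      have : Finite X := Module.finite_of_finite F
      exact Finite.of_injective (fun e : X ≃ₗ[F] X => (e : X → X)) DFunLike.coe_injective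
    exact orderOf_pos z
  have hne : NeZero (orderOf v) := ⟨hpos'.ne'⟩
  obtain ⟨k, -, hk⟩ := (IsPrimitiveRoot.orderOf v).eq_pow_of_pow_eq_one (ξ := u) (by
    rw [h2, ← ho, ← h1]
    exact pow_orderOf_eq_one u)
  refine ⟨e.symm.trans e', k, fun x => ?_⟩
  obtain ⟨a, rfl⟩ := e.surjective x
  rw [← he]
  show e' (e.symm (e (u * a))) = (w ^ k) (e' (e.symm (e a)))
  rw [LinearEquiv.symm_apply_apply, LinearEquiv.symm_apply_apply, ← pow_model he', hk]

end Cfsg.Agent.H383.RG
end
end
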